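import Cfsg.Agent.G2Deg.Spec

/-!
# Characteristic different from three: the spectrum of a representation of small degree
-/

set_option autoImplicit false
set_option linter.unusedSectionVars false

namespace Cfsg.Agent.G2Deg

open Cfsg.Lie Cfsg.Agent.ChevGrp
open Module (finrank)

variable {F : Type*} [Field F] [Fintype F] [DecidableEq F] {V : Type*} [AddCommGroup V] [Module ℂ V]
  [FiniteDimensional ℂ V] {ψ : AddChar F ℂ} (hψ : ψ ≠ 1) (ρ : Representation ℂ (Gam F) V)

/-- The shift on the three-dimensional abelian subgroup. -/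
theorem exists_sub (hq : 5 ≤ Fintype.card F) {n : ℕ} (hn : n ≤ 3) (hn0 : 0 < n) : ∃ u : Fˣ, (u : F) ^ n ≠ 1 := by
  classical
  by_contra hall
  simp only [not_exists, not_not] at hall
  have hsub : (Finset.univ.erase (0 : F)) ⊆ (Polynomial.nthRoots n (1 : F)).toFinset := fun x hx => by
    rw [Multiset.mem_toFinset, Polynomial.mem_nthRoots hn0]
    exact hall (Units.mk0 x (Finset.ne_of_mem_erase hx))
  have h1 := (Finset.card_le_card hsub).trans
    ((Multiset.toFinset_card_le _).trans (Polynomial.card_nthRoots n (1 : F)))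
  rw [Finset.card_erase_of_mem (Finset.mem_univ _), Finset.card_univ] at h1
  omega

include hψ in
theorem NN_eq_mul (h3 : (3 : F) ≠ 0) : NN ρ ψ = Fintype.card F * (A3 ρ).M ψ ![1, 0, 0] := by
  let ι : (Fin 2 → F) → (Fin 3 → F) := fun a => ![a 0, a 1, 0]
  have hι : ∀ a b, ι (a + b) = ι a + ι b := fun a b => by funext j; fin_cases j <;> simp [ι]
  let ιT : (Fin 3 → F) → (Fin 2 → F) := fun x => ![x 0, x 1]
  have hT : ∀ x a, dot x (ι a) = dot (ιT x) a := fun x a => by
    simp [dot, ι, ιT, Fin.sum_univ_two, Fin.sum_univ_three]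
  have e : ∀ a, ((A3 ρ).comap ι hι).R a = (A2 ρ 3).R a := fun a => by
    show ρ (X 11 (a 0) * X 10 (a 1) * X 9 0) = ρ (X 11 (a 0) * X (L4 3) (a 1))
    rw [X_zero (by decide), mul_one]
    rfl
  have hsh : ∀ s : F, (A3 ρ).M ψ ![1, 0, s] = (A3 ρ).M ψ ![1, 0, 0] := by
    intro s
    let t : F := s / 3
    let φ : (Fin 3 → F) ≃ (Fin 3 → F) :=
      { toFun := fun a => ![a 0 + 3 * t * a 2, a 1, a 2]
        invFun := fun a => ![a 0 - 3 * t * a 2, a 1, a 2]
        left_inv := fun a => by funext j; fin_cases j <;> simp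
        right_inv := fun a => by funext j; fin_cases j <;> simp }
    refine (M_conj ψ hψ (ρ := ρ) (X 8 t) φ (fun a => ?_) fun a => ?_).symm
    · show ρ (X 8 t) * ρ (X 11 (a 0) * X 10 (a 1) * X 9 (a 2)) =
        ρ (X 11 (a 0 + 3 * t * a 2) * X 10 (a 1) * X 9 (a 2)) * ρ (X 8 t)
      rw [← map_mul, ← map_mul, ← X_add (by decide)]
      congr 1
      have c1 : ∀ u : F, Commute (X 8 t) (X 11 u) := fun u => commX (by decide) _ _
      have c2 : ∀ u : F, Commute (X 8 t) (X 10 u) := fun u => commX (by decide) _ _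
      have c3 : Commute (X 11 (3 * t * a 2)) (X 10 (a 1) : Gam F) := (commX (by decide) _ _ : Commute _ _).symm
      have c4 : Commute (X 11 (3 * t * a 2)) (X 9 (a 2) : Gam F) := (commX (by decide) _ _ : Commute _ _).symm
      have e89 := cj89 t (a 2)
      generalize 3 * t * a 2 = u at c3 c4 e89 ⊢
      calc X 8 t * (X 11 (a 0) * X 10 (a 1) * X 9 (a 2))
          = X 11 (a 0) * X 10 (a 1) * (X 8 t * X 9 (a 2) * (X 8 t)⁻¹) * X 8 t := by
            rw [← mul_assoc (X 8 t), ((c1 _).mul_right (c2 _)).eq]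
            simp [mul_assoc]
        _ = X 11 (a 0) * X 10 (a 1) * (X 11 u * X 9 (a 2)) * X 8 t := by rw [e89, c4.eq]
        _ = X 11 (a 0) * (X 10 (a 1) * X 11 u) * X 9 (a 2) * X 8 t := by simp only [mul_assoc]
        _ = X 11 (a 0) * X 11 u * X 10 (a 1) * X 9 (a 2) * X 8 t := by rw [← c3.eq]; simp only [mul_assoc]
    · simp [dot, φ, Fin.sum_univ_three, t]
      field_simp
      first | exact Or.inl trivial | ring
  have h := (A3 ρ).M_comap ψ hψ ι hι ιT hT ![1, 0]
  rw [Act.M_congr e] at h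
  rw [NN, M2, h, Finset.sum_filter, sum3, Finset.sum_eq_single (1 : F), Finset.sum_eq_single (0 : F)]
  · rw [Finset.sum_congr rfl fun s _ => by rw [if_pos (by simp [ιT]), hsh s]]
    simp
  · intro w _ hw
    refine Finset.sum_eq_zero fun s _ => if_neg fun e => hw ?_
    simpa [ιT] using congrFun e 1
  · simp
  · intro z _ hz
    refine Finset.sum_eq_zero fun w _ => Finset.sum_eq_zero fun s _ => if_neg fun e => hz ?_
    simpa [ιT] using congrFun e 0
  · simp

variable (h3 : (3 : F) ≠ 0) (hq : 5 ≤ Fintype.card F)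

include hψ h3 in
/-- The multiplicities on one orbit of `x₇`. -/
theorem sum_top (w : F) (hw : w ≠ 0) :
    M2 ρ ψ 3 0 w = Fintype.card F * ∑ a, ∑ b, M4 hψ ρ ![a, b, 0, w] := by
  rw [marg4 hψ ρ 3 w, Finset.sum_filter, sum4]
  have hs : ∀ c : F, (∑ a, ∑ b, M4 hψ ρ ![a, b, c, w]) = ∑ a, ∑ b, M4 hψ ρ ![a, b, 0, w] := by
    intro c
    let t : F := -c / (3 * w)
    calc (∑ a, ∑ b, M4 hψ ρ ![a, b, c, w]) = ∑ a, ∑ b, M4 hψ ρ (q7 t ![a, b, c, w]) :=
          Finset.sum_congr rfl fun a _ => Finset.sum_congr rfl fun b _ => M4_q7 ρ ψ hψ t _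
      _ = ∑ a, ∑ b, M4 hψ ρ ![a - t * b + t ^ 2 * c + t ^ 3 * w, b - 2 * t * c - 3 * t ^ 2 * w, 0, w] := by
          refine Finset.sum_congr rfl fun a _ => Finset.sum_congr rfl fun b _ => congrArg _ ?_
          funext j
          fin_cases j <;> simp [q7, t]
          field_simp
          ring
      _ = ∑ b, ∑ a, M4 hψ ρ ![a - t * b + t ^ 2 * c + t ^ 3 * w, b - 2 * t * c - 3 * t ^ 2 * w, 0, w] :=
          Finset.sum_comm
      _ = ∑ b, ∑ a, M4 hψ ρ ![a, b - 2 * t * c - 3 * t ^ 2 * w, 0, w] := by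
          refine Finset.sum_congr rfl fun b _ => ?_
          exact Fintype.sum_equiv (Equiv.addRight (-(t * b) + t ^ 2 * c + t ^ 3 * w)) _ _ fun a => by
            simp only [Equiv.coe_addRight]
            congr 2
            ring
      _ = ∑ b, ∑ a, M4 hψ ρ ![a, b, 0, w] :=
          Fintype.sum_equiv (Equiv.addRight (-(2 * t * c) - 3 * t ^ 2 * w)) _ _ fun b => by
            simp only [Equiv.coe_addRight]
            refine Finset.sum_congr rfl fun a _ => ?_
            rw [show b + (-(2 * t * c) - 3 * t ^ 2 * w) = b - 2 * t * c - 3 * t ^ 2 * w by ring]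
      _ = _ := Finset.sum_comm
  calc (∑ a, ∑ b, ∑ c, ∑ e, if ![a, b, c, e] 3 = w then M4 hψ ρ ![a, b, c, e] else 0)
      = ∑ a, ∑ b, ∑ c, M4 hψ ρ ![a, b, c, w] := by
        refine Finset.sum_congr rfl fun a _ => Finset.sum_congr rfl fun b _ => Finset.sum_congr rfl fun c _ => ?_
        exact (Finset.sum_ite_eq' _ w _).trans (if_pos (Finset.mem_univ _))
    _ = ∑ a, ∑ c, ∑ b, M4 hψ ρ ![a, b, c, w] := Finset.sum_congr rfl fun a _ => Finset.sum_comm
    _ = ∑ c, ∑ a, ∑ b, M4 hψ ρ ![a, b, c, w] := Finset.sum_comm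
    _ = _ := by simp [hs]

include hψ h3 hq in
/-- Multiplicity one forces the cubes. -/
theorem line_one (hm : (A3 ρ).M ψ ![1, 0, 0] = 1) :
    (∀ w : F, w ≠ 0 → M4 hψ ρ ![0, 0, 0, w] = 1) ∧ (∀ x : F, x ≠ 0 → M4 hψ ρ ![x, 0, 0, 0] = 1) ∧
      (∀ a b w : F, w ≠ 0 → (a ≠ 0 ∨ b ≠ 0) → M4 hψ ρ ![a, b, 0, w] = 0) := by
  have hN : NN ρ ψ = Fintype.card F := by rw [NN_eq_mul hψ ρ h3, hm, mul_one]
  have hS : ∀ w : F, w ≠ 0 → ∑ a, ∑ b, M4 hψ ρ ![a, b, 0, w] = 1 := fun w hw => by
    have h := sum_top hψ ρ h3 w hw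
    rw [M2_ten_eq hψ ρ 0 w (Or.inr hw), hN] at h
    exact Nat.eq_of_mul_eq_mul_left Fintype.card_pos (by rw [← h, mul_one])
  have key : ∀ w : F, w ≠ 0 → ∀ a b : F, M4 hψ ρ ![a, b, 0, w] ≠ 0 → a = 0 ∧ b = 0 := by
    intro w hw a b hab
    have huniq : ∀ a' b', M4 hψ ρ ![a', b', 0, w] ≠ 0 → a' = a ∧ b' = b := by
      intro a' b' hab'
      by_contra hne
      have h := hS w hw
      rw [← Fintype.sum_prod_type'] at h
      have h2 := Finset.sum_le_sum_of_subset (f := fun p : F × F => M4 hψ ρ ![p.1, p.2, 0, w])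
        (Finset.subset_univ ({(a, b), (a', b')} : Finset (F × F)))
      rw [Finset.sum_pair fun e => hne ⟨(congrArg Prod.fst e).symm, (congrArg Prod.snd e).symm⟩, h] at h2
      simp only at h2
      omega
    have hinv : ∀ u : Fˣ, ((u ^ 3)⁻¹ : Fˣ) * a = a ∧ ((u ^ 2)⁻¹ : Fˣ) * b = b := by
      intro u
      refine huniq _ _ ?_
      have e := M4_tor ρ ψ hψ u (u ^ 3)⁻¹ ![a, b, 0, w]
      rw [M4] at hab
      rw [e] at hab
      intro h0
      refine hab ((Eq.trans ?_ h0))
      rw [M4]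
      congr 1
      funext j
      fin_cases j <;> simp [wt4]
      · left
        field_simp
    obtain ⟨u3, hu3⟩ := exists_sub (F := F) hq le_rfl (by norm_num)
    obtain ⟨u2, hu2⟩ := exists_sub (F := F) hq (n := 2) (by norm_num) (by norm_num)
    constructor
    · by_contra ha
      have h := (hinv u3).1
      rw [Units.val_inv_eq_inv_val, Units.val_pow_eq_pow_val, mul_eq_right₀ ha, inv_eq_one] at h
      exact hu3 h
    · by_contra hb
      have h := (hinv u2).2
      rw [Units.val_inv_eq_inv_val, Units.val_pow_eq_pow_val, mul_eq_right₀ hb, inv_eq_one] at h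
      exact hu2 h
  have h1 : ∀ w : F, w ≠ 0 → M4 hψ ρ ![0, 0, 0, w] = 1 := fun w hw => by
    have h := hS w hw
    rwa [Finset.sum_eq_single (0 : F), Finset.sum_eq_single (0 : F)] at h
    · exact fun b _ hb => by_contra fun hne => hb (key w hw 0 b hne).2
    · simp
    · exact fun a _ ha => Finset.sum_eq_zero fun b _ => by_contra fun hne => ha (key w hw a b hne).1
    · simp
  refine ⟨h1, fun x hx => ?_, fun a b w hw hab => by_contra fun hne => ?_⟩
  · obtain ⟨c, hc⟩ := exists_M4_na hψ ρ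
    rw [hc]
    simp only [Matrix.cons_val_zero, Matrix.cons_val_one, Matrix.cons_val, mul_zero]
    exact h1 _ (mul_ne_zero (c 3).ne_zero hx)
  · rcases key w hw a b hne with ⟨rfl, rfl⟩
    simp at hab

include hψ in
theorem sum_bot : M2 ρ ψ 3 0 0 = ∑ x with x 3 = (0 : F), M4 hψ ρ x := marg4 hψ ρ 3 0

include hψ h3 hq in
/-- The bound of degree `q³ - 1`, and the structure below `q³ + 1`. -/
theorem dim_bound [ρ.IsIrreducible] (h2 : 2 ≤ finrank ℂ V) :
    Fintype.card F ^ 3 - 1 ≤ finrank ℂ V ∧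
    (finrank ℂ V ≤ Fintype.card F ^ 3 → (A3 ρ).M ψ ![1, 0, 0] = 1 ∧ M4 hψ ρ 0 ≤ 1 ∧
      finrank ℂ V = Fintype.card F ^ 3 - 1 + M4 hψ ρ 0 ∧
      ∀ x : Fin 4 → F, x 3 = 0 → (x 1 ≠ 0 ∨ x 2 ≠ 0) → M4 hψ ρ x = 0) := by
  have hd := dim_eq hψ ρ
  have hNp := NN_pos hψ ρ (by omega) h2
  rw [NN_eq_mul hψ ρ h3] at hd hNp
  set q := Fintype.card F with hqdef
  set m := (A3 ρ).M ψ ![1, 0, 0] with hm
  have hm0 : 0 < m := Nat.pos_of_mul_pos_left hNp
  obtain ⟨j, hj⟩ : ∃ j, q = j + 5 := ⟨q - 5, by omega⟩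
  have hq2 : q ^ 2 - 1 = j ^ 2 + 10 * j + 24 := by rw [hj]; rw [show (j + 5) ^ 2 = j ^ 2 + 10 * j + 24 + 1 by ring]; rfl
  have hq3 : q ^ 3 = (q ^ 2 - 1) * q + q := by rw [hq2, hj]; ring
  by_cases hm2 : 2 ≤ m
  · have h5 : (q ^ 2 - 1) * (q * 2) ≤ (q ^ 2 - 1) * (q * m) := Nat.mul_le_mul_left _ (Nat.mul_le_mul_left _ hm2)
    have h6 : q < (q ^ 2 - 1) * q := by rw [hq2]; nlinarith
    constructor
    · have : (q ^ 2 - 1) * (q * 2) = (q ^ 2 - 1) * q * 2 := by ring
      omega
    · intro hle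
      exfalso
      have : (q ^ 2 - 1) * (q * 2) = (q ^ 2 - 1) * q * 2 := by ring
      omega
  have hm1 : m = 1 := by omega
  rw [hm1, mul_one, sum_bot hψ ρ] at hd
  obtain ⟨-, hx, -⟩ := line_one hψ ρ h3 hq hm1
  let line : Finset (Fin 4 → F) := (Finset.univ.erase (0 : F)).image fun x => ![x, 0, 0, 0]
  have hline : ∑ x ∈ line, M4 hψ ρ x = q - 1 := by
    rw [Finset.sum_image fun a _ b _ e => congrFun e 0,
      Finset.sum_congr rfl fun a ha => hx a (Finset.ne_of_mem_erase ha)]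
    simp [hqdef]
  have h0l : (0 : Fin 4 → F) ∉ line := by
    simp only [line, Finset.mem_image, Finset.mem_erase, not_exists, not_and]
    exact fun a ha e => ha.1 (congrFun e 0)
  have hsplit : ∑ x with x 3 = (0 : F), M4 hψ ρ x =
      (∑ x ∈ (Finset.univ.filter fun x : Fin 4 → F => x 3 = 0) \ insert 0 line, M4 hψ ρ x) +
        (M4 hψ ρ 0 + (q - 1)) := by
    rw [← hline, ← Finset.sum_insert h0l]
    refine (Finset.sum_sdiff ?_).symm
    intro x hx
    rcases Finset.mem_insert.1 hx with rfl | hx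
    · simp
    · simp only [line, Finset.mem_image] at hx
      obtain ⟨a, -, rfl⟩ := hx
      simp
  rw [hsplit] at hd
  refine ⟨by omega, fun hle => ⟨hm1, by omega, ?_⟩⟩
  have hrest : (∑ x ∈ (Finset.univ.filter fun x : Fin 4 → F => x 3 = 0) \ insert 0 line, M4 hψ ρ x) = 0 := by
    by_contra hne
    obtain ⟨x, hx, hx0⟩ := Finset.exists_ne_zero_of_sum_ne_zero hne
    simp only [Finset.mem_sdiff, Finset.mem_filter, Finset.mem_univ, true_and, Finset.mem_insert, not_or] at hx
    have h12 : x 1 ≠ 0 ∨ x 2 ≠ 0 := by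
      by_contra hb
      simp only [not_or, not_not] at hb
      refine hx.2.2 (Finset.mem_image.2 ⟨x 0, Finset.mem_erase.2 ⟨fun e0 => hx.2.1 ?_, Finset.mem_univ _⟩, ?_⟩)
      · funext j; fin_cases j <;> simp [e0, hb.1, hb.2, hx.1]
      · funext j; fin_cases j <;> simp [hb.1, hb.2, hx.1]
    let orb : Finset (Fin 4 → F) := (Finset.univ.erase (0 : F)).image fun v => fun i => v * x i
    have horb : orb ⊆ (Finset.univ.filter fun x : Fin 4 → F => x 3 = 0) \ insert 0 line := by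
      intro y hy
      obtain ⟨v, hv, rfl⟩ := Finset.mem_image.1 hy
      have hv0 := Finset.ne_of_mem_erase hv
      simp only [Finset.mem_sdiff, Finset.mem_filter, Finset.mem_univ, true_and, Finset.mem_insert, not_or,
        hx.1, mul_zero, line, Finset.mem_image, not_exists, not_and]
      refine ⟨fun e => ?_, fun a _ e => ?_⟩
      · rcases h12 with h | h
        · exact mul_ne_zero hv0 h (congrFun e 1)
        · exact mul_ne_zero hv0 h (congrFun e 2)
      · rcases h12 with h | h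
        · exact mul_ne_zero hv0 h (congrFun e 1).symm
        · exact mul_ne_zero hv0 h (congrFun e 2).symm
    have hone : ∀ y ∈ orb, 1 ≤ M4 hψ ρ y := by
      intro y hy
      obtain ⟨v, hv, rfl⟩ := Finset.mem_image.1 hy
      refine Nat.one_le_iff_ne_zero.2 fun h0 => hx0 ((M4_tor ρ ψ hψ 1 (Units.mk0 v (Finset.ne_of_mem_erase hv)) x).trans ?_)
      rw [← h0, M4]
      congr 1
      funext i
      fin_cases i <;> simp [wt4]
    have hcard : orb.card = q - 1 := by
      rw [Finset.card_image_of_injective, Finset.card_erase_of_mem (Finset.mem_univ _), Finset.card_univ]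
      intro v v' e
      rcases h12 with h | h
      · exact mul_right_cancel₀ h (congrFun e 1)
      · exact mul_right_cancel₀ h (congrFun e 2)
    have h7 := (Finset.card_nsmul_le_sum orb (M4 hψ ρ) 1 hone).trans (Finset.sum_le_sum_of_subset horb)
    rw [hcard, smul_eq_mul, mul_one] at h7
    omega
  refine ⟨by omega, fun x hx h12 => ?_⟩
  refine Finset.sum_eq_zero_iff.1 hrest x ?_
  simp only [Finset.mem_sdiff, Finset.mem_filter, Finset.mem_univ, true_and, Finset.mem_insert, not_or, line,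
    Finset.mem_image, not_exists, not_and]
  refine ⟨hx, fun e => ?_, fun a _ e => ?_⟩
  · rcases h12 with h | h <;> exact h (by rw [e]; rfl)
  · rcases h12 with h | h <;> exact h (by rw [← e]; rfl)

end Cfsg.Agent.G2Deg
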