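import Cfsg.Agent.G2Deg.Ops
import Cfsg.Agent.G2Deg.NotThree

/-!
# `q ≡ 1 (mod 3)`: no representation of degree `q³ - 1`
-/

set_option autoImplicit false
set_option linter.unusedSectionVars false

namespace Cfsg.Agent.G2Deg

open Cfsg.Lie Cfsg.Agent.ChevGrp Cfsg.Agent.G2Inv
open Module (finrank)

variable {F : Type*} [Field F] [Fintype F] [DecidableEq F] {V : Type*} [AddCommGroup V] [Module ℂ V]
  [FiniteDimensional ℂ V] {ψ : AddChar F ℂ} (hψ : ψ ≠ 1) (ρ : Representation ℂ (Gam F) V)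

include hψ in
theorem E4_tor (u v : Fˣ) (y : Fin 4 → F) :
    ρ (tor u v) * (R4 ρ ψ hψ).E ψ (fun i => (wt4 u v i : F) * y i) = (R4 ρ ψ hψ).E ψ y * ρ (tor u v) := by
  let φ : (Fin 4 → F) ≃ (Fin 4 → F) :=
    Equiv.piCongrRight fun i => Equiv.mulLeft₀ (wt4 u v i : F) (wt4 u v i).ne_zero
  have hsingle : ∀ i t, φ (Pi.single i t) = Pi.single i ((wt4 u v i : F) * t) := fun i t => by
    funext j
    rcases eq_or_ne j i with rfl | hne
    · simp [φ]
    · simp [φ, hne]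
  refine conj_E ψ hψ (tor u v) φ (conj_R4 ρ ψ hψ (tor_conj11 u v) φ (fun a b => ?_) fun i t => ?_) fun a => ?_
  · funext j; simp [φ, mul_add]
  · rw [tor_conjL, hsingle, ← mul_one (X (L4 i) _), ← X_zero (F := F) (show 11 < 12 by decide),
      word_cons ρ ψ hψ i _ (word_nil ρ ψ hψ 0), add_zero]
  · refine Finset.sum_congr rfl fun i _ => ?_
    show y i * ((wt4 u v i : F) * a i) = (wt4 u v i : F) * y i * a i
    ring

include hψ in
/-- A moved character contributes nothing to the trace. -/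
theorem trace_moved (u v : Fˣ) (x : Fin 4 → F) (i : Fin 4) (hw : wt4 u v i ≠ 1) (hx : x i ≠ 0) :
    LinearMap.trace ℂ V (ρ (tor u v) * (R4 ρ ψ hψ).E ψ x) = 0 := by
  let y : Fin 4 → F := fun j => ((wt4 u v j)⁻¹ : Fˣ) * x j
  have hxy : (fun j => (wt4 u v j : F) * y j) = x := by funext j; simp [y]
  have hne : x ≠ y := fun e => by
    have h := congrFun e i
    simp only [y] at h
    exact hw (inv_eq_one.1 (Units.ext (mul_eq_right₀ hx |>.1 h.symm)))
  have h := E4_tor hψ ρ u v y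
  rw [hxy] at h
  have h2 : (R4 ρ ψ hψ).E ψ x * (R4 ρ ψ hψ).E ψ x = (R4 ρ ψ hψ).E ψ x := (R4 ρ ψ hψ).isIdem ψ hψ x
  rw [← h2, ← mul_assoc, LinearMap.trace_mul_cycle, mul_assoc, h, ← mul_assoc, (R4 ρ ψ hψ).E_mul_E ψ hψ,
    if_neg hne.symm, zero_mul, map_zero]

/-- The traces on a pair. -/
noncomputable def tr2 (ψ : AddChar F ℂ) (u : Fˣ) (i : Fin 4) (z w : F) : ℂ :=
  LinearMap.trace ℂ V (ρ (tor u 1) * (A2 ρ i).E ψ ![z, w])

include hψ in
theorem tr2_conj {u : Fˣ} {i j : Fin 4} (g : Gam F) (hg : Commute (tor u 1) g)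
    (φ : (Fin 2 → F) ≃ (Fin 2 → F))
    (h : ∀ a, g * (X 11 (a 0) * X (L4 i) (a 1)) * g⁻¹ = X 11 (φ a 0) * X (L4 j) (φ a 1))
    {x y : F × F} (hxy : ∀ a, dot ![y.1, y.2] (φ a) = dot ![x.1, x.2] a) :
    tr2 ρ ψ u j y.1 y.2 = tr2 ρ ψ u i x.1 x.2 := by
  have hc := conj_E ψ hψ (ρ := ρ) (A := A2 ρ i) (B := A2 ρ j) g φ (fun a => by
    show ρ g * ρ (X 11 (a 0) * X (L4 i) (a 1)) = ρ (X 11 (φ a 0) * X (L4 j) (φ a 1)) * ρ g
    rw [← map_mul, ← map_mul, ← h]
    simp [mul_assoc]) hxy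
  rw [tr2, tr2]
  have hw : ρ g⁻¹ * ρ (tor u 1) * ρ g = ρ (tor u 1) := by
    rw [← map_mul, ← map_mul, mul_assoc, hg.eq, inv_mul_cancel_left]
  conv_lhs => rw [← mul_one ((A2 ρ j).E ψ ![y.1, y.2]), ← rho_inv_cancel (ρ := ρ) g,
    ← mul_assoc ((A2 ρ j).E ψ ![y.1, y.2]), ← hc, ← mul_assoc, LinearMap.trace_mul_comm, ← mul_assoc,
    ← mul_assoc, hw]

variable {u : Fˣ} (hu : u ^ 3 = 1)

include hu in
theorem commute_ten (a : F) : Commute (tor u 1) ((gs F).nEl 10 a) := by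
  show Commute (tor u 1) (X 10 a * X (chevG2.neg 10) (-a⁻¹) * X 10 a)
  rw [negData.2.2.1]
  exact ((commute_tor hu (by simp) a).mul_right (commute_tor hu (by simp) _)).mul_right
    (commute_tor hu (by simp) a)

include hu in
theorem commute_nb : Commute (tor u 1) (nb F) := by
  show Commute (tor u 1) (X (chevG2.simple i1) 1 * X (chevG2.neg (chevG2.simple i1)) (-1⁻¹) *
    X (chevG2.simple i1) 1)
  rw [simple_one, negData.2.1]
  exact ((commute_tor hu (by simp) _).mul_right (commute_tor hu (by simp) _)).mul_right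
    (commute_tor hu (by simp) _)

theorem cj106 (t a : F) : X 10 t * X 6 a * (X 10 t)⁻¹ = X 6 a * X 11 (-(a * t)) := by
  have e := cj610 (-a) t
  rw [← X_inv (show 6 < 12 by decide), inv_inv, show -a * t = -(a * t) by ring] at e
  calc X 10 t * X 6 a * (X 10 t)⁻¹ = X 6 a * ((X 6 a)⁻¹ * X 10 t * X 6 a) * (X 10 t)⁻¹ := by simp [mul_assoc]
    _ = X 6 a * (X 10 t * X 11 (-(a * t))) * (X 10 t)⁻¹ := by rw [e]
    _ = _ := by
      rw [(commX (by decide) _ _ : Commute (X 10 t) (X 11 (-(a * t)))).eq]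
      simp [mul_assoc]

theorem ct511 : chevG2.commTerms 5 11 = [(10, 1, 1, 1)] := by decide +kernel

theorem cj511 (t a : F) : X 5 t * X 11 a * (X 5 t)⁻¹ = X 11 a * X 10 (t * a) := by
  rw [cj (by decide) (by decide) (by decide) (by rw [negData.2.2.2.2.2]; decide)]
  simp [cjWord, ct511]

theorem pair_eq {s : ℕ} (h : ∀ t u : F, Commute (X s t) (X 11 u)) (g : Gam F) (a b a' b' : F)
    (e1 : g * X 11 a * g⁻¹ = X 11 a') (e2 : g * X s b * g⁻¹ = X s b * X 11 b') :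
    g * (X 11 a * X s b) * g⁻¹ = X 11 (a' + b') * X s b := by
  rw [show g * (X 11 a * X s b) * g⁻¹ = g * X 11 a * g⁻¹ * (g * X s b * g⁻¹) by simp [mul_assoc], e1, e2,
    (h b b').eq, ← mul_assoc, X_add (by decide)]

include hψ hu in
theorem tr2_shift_ten (z w t : F) : tr2 ρ ψ u 3 z w = tr2 ρ ψ u 3 z (w + t * z) := by
  let φ : (Fin 2 → F) ≃ (Fin 2 → F) :=
    { toFun := fun a => ![a 0 + t * a 1, a 1]
      invFun := fun a => ![a 0 - t * a 1, a 1]
      left_inv := fun a => by funext j; fin_cases j <;> simp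
      right_inv := fun a => by funext j; fin_cases j <;> simp }
  refine tr2_conj hψ ρ (i := 3) (j := 3) (x := (z, w + t * z)) (y := (z, w)) (X 6 t) (commute_tor hu (by simp) t)
    φ (fun a => ?_) fun a => ?_
  · refine (pair_eq (fun r s => commX (by decide) r s) _ _ _ (a 0) (t * a 1) ?_ (cj610 t (a 1))).trans rfl
    rw [(commX (by decide) _ _ : Commute (X 6 t) (X 11 (a 0))).eq, mul_inv_cancel_right]
  · simp [dot, φ, Fin.sum_univ_two]
    ring

include hψ hu in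
theorem tr2_shift_six (z w t : F) : tr2 ρ ψ u 0 z w = tr2 ρ ψ u 0 z (w + t * z) := by
  let φ : (Fin 2 → F) ≃ (Fin 2 → F) :=
    { toFun := fun a => ![a 0 + t * a 1, a 1]
      invFun := fun a => ![a 0 - t * a 1, a 1]
      left_inv := fun a => by funext j; fin_cases j <;> simp
      right_inv := fun a => by funext j; fin_cases j <;> simp }
  refine tr2_conj hψ ρ (i := 0) (j := 0) (x := (z, w + t * z)) (y := (z, w)) (X 10 (-t))
    (commute_tor hu (by simp) _) φ (fun a => ?_) fun a => ?_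
  · refine (pair_eq (fun r s => commX (by decide) r s) _ _ _ (a 0) (t * a 1) ?_
      ((cj106 (-t) (a 1)).trans (by rw [show -(a 1 * -t) = t * a 1 by ring]))).trans rfl
    rw [(commX (by decide) _ _ : Commute (X 10 (-t)) (X 11 (a 0))).eq, mul_inv_cancel_right]
  · simp [dot, φ, Fin.sum_univ_two]
    ring

include hψ in
theorem tr2_swap {i : Fin 4} (g : Gam F) (hg : Commute (tor u 1) g) {c0 c1 : Fˣ}
    (h0 : ∀ t, g * X 11 t * g⁻¹ = X (L4 i) ((c0 : F) * t))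
    (h1 : ∀ t, g * X (L4 i) t * g⁻¹ = X 11 ((c1 : F) * t)) (z w : F) :
    tr2 ρ ψ u i z w = tr2 ρ ψ u i ((c0 : F) * w) ((c1 : F) * z) := by
  let φ : (Fin 2 → F) ≃ (Fin 2 → F) :=
    { toFun := fun a => ![(c1 : F) * a 1, (c0 : F) * a 0]
      invFun := fun a => ![((c0⁻¹ : Fˣ) : F) * a 1, ((c1⁻¹ : Fˣ) : F) * a 0]
      left_inv := fun a => by funext j; fin_cases j <;> simp
      right_inv := fun a => by funext j; fin_cases j <;> simp }
  refine tr2_conj hψ ρ (x := ((c0 : F) * w, (c1 : F) * z)) (y := (z, w)) g hg φ (fun a => ?_) fun a => ?_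
  · rw [show g * (X 11 (a 0) * X (L4 i) (a 1)) * g⁻¹ = g * X 11 (a 0) * g⁻¹ * (g * X (L4 i) (a 1) * g⁻¹) by
      simp [mul_assoc], h0, h1]
    exact (commute11 i _ _).eq
  · simp [dot, φ, Fin.sum_univ_two]
    ring

include hψ in
theorem sum_tr2 (i j : Fin 4) (u : Fˣ) (z : F) : ∑ w, tr2 ρ ψ u i z w = ∑ w, tr2 ρ ψ u j z w := by
  have key : ∀ k : Fin 4, ∑ w, tr2 ρ ψ u k z w = LinearMap.trace ℂ V (ρ (tor u 1) * (A1 ρ).E ψ ![z]) := by
    intro k
    have hι : ∀ a b : Fin 1 → F, (![(a + b) 0, 0] : Fin 2 → F) = ![a 0, 0] + ![b 0, 0] := fun a b => by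
      funext j; fin_cases j <;> simp
    have hT : ∀ (x : Fin 2 → F) (a : Fin 1 → F), dot x ![a 0, 0] = dot ![x 0] a := fun x a => by
      simp [dot, Fin.sum_univ_two]
    have h := (A2 ρ k).E_comap ψ hψ (fun a : Fin 1 → F => ![a 0, 0]) hι (fun x => ![x 0]) hT ![z]
    rw [Act.E_congr (B := A1 ρ) (fun a => by
      show ρ (X 11 (a 0) * X (L4 k) 0) = ρ (X 11 (a 0))
      rw [X_zero (by fin_cases k <;> decide), mul_one])] at h
    have h2 : (A1 ρ).E ψ ![z] = ∑ w, (A2 ρ k).E ψ ![z, w] := by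
      rw [h, Finset.sum_filter, sum2, Finset.sum_eq_single z]
      · exact Finset.sum_congr rfl fun w _ => if_pos (by funext j; fin_cases j; rfl)
      · intro a _ ha
        exact Finset.sum_eq_zero fun w _ => if_neg fun e => ha (congrFun e 0)
      · simp
    rw [h2, Finset.mul_sum, map_sum]
    rfl
  rw [key, key]

/-- The hypotheses on a representation of degree `q³ - 1`. -/
structure CuspHyp : Prop where
  three : (3 : F) ≠ 0
  big : 5 ≤ Fintype.card F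
  one : (A3 ρ).M ψ ![1, 0, 0] = 1
  zero : M4 hψ ρ 0 = 0
  none : ∀ x : Fin 4 → F, x 3 = 0 → (x 1 ≠ 0 ∨ x 2 ≠ 0) → M4 hψ ρ x = 0
  dim : finrank ℂ V + 1 = Fintype.card F ^ 3

variable (H : CuspHyp hψ ρ)

include H in
theorem CuspHyp.E4_zero {x : Fin 4 → F} (h : M4 hψ ρ x = 0) : (R4 ρ ψ hψ).E ψ x = 0 := Act.E_eq_zero h

include H in
theorem CuspHyp.bottom_E : (A2 ρ 3).E ψ 0 = ∑ a ∈ Finset.univ.erase (0 : F), (R4 ρ ψ hψ).E ψ ![a, 0, 0, 0] := by
  rw [show (0 : Fin 2 → F) = ![0, 0] by funext j; fin_cases j <;> rfl, marg4E hψ ρ 3 0]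
  rw [← Finset.sum_image (f := fun x => (R4 ρ ψ hψ).E ψ x) (g := fun a : F => ![a, 0, 0, 0])
    fun a _ b _ e => congrFun e 0]
  refine (Finset.sum_subset (fun x hx => ?_) fun x hx hx' => ?_).symm
  · obtain ⟨a, -, rfl⟩ := Finset.mem_image.1 hx
    simp
  · refine H.E4_zero hψ ρ ?_
    simp only [Finset.mem_filter, Finset.mem_univ, true_and] at hx
    by_cases h12 : x 1 = 0 ∧ x 2 = 0
    · rcases eq_or_ne (x 0) 0 with h0 | h0
      · rw [show x = 0 by funext j; fin_cases j <;> simp [h0, h12.1, h12.2, hx]]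
        exact H.zero
      · exact (hx' (Finset.mem_image.2 ⟨x 0, Finset.mem_erase.2 ⟨h0, Finset.mem_univ _⟩,
          by funext j; fin_cases j <;> simp [h12.1, h12.2, hx]⟩)).elim
    · exact H.none x hx (by tauto)

include H in
theorem CuspHyp.trace_bottom : LinearMap.trace ℂ V ((A2 ρ 3).E ψ 0) = ((Fintype.card F - 1 : ℕ) : ℂ) := by
  rw [H.bottom_E hψ ρ, map_sum, Finset.sum_congr rfl fun a ha => ?_]
  · rw [Finset.sum_const, Finset.card_erase_of_mem (Finset.mem_univ _), Finset.card_univ, nsmul_one]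
  · rw [(R4 ρ ψ hψ).trace_E ψ hψ]
    exact_mod_cast (line_one hψ ρ H.three H.big H.one).2.1 a (Finset.ne_of_mem_erase ha)

include H hu in
/-- The element of order three acts on all lines by one scalar. -/
theorem CuspHyp.spectral (hu1 : u ≠ 1) : ∃ ε : ℂ,
    LinearMap.trace ℂ V (ρ (tor u 1)) = ε * ((Fintype.card F : ℂ) ^ 2 + Fintype.card F - 2) ∧
      ρ (tor u 1) * (A2 ρ 3).E ψ 0 = ε • (A2 ρ 3).E ψ 0 ∧ ε ^ 3 = 1 := by
  obtain ⟨htop, hbot, hcross⟩ := line_one hψ ρ H.three H.big H.one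
  have hu2 : u ^ 2 ≠ 1 := fun e => hu1 (by rw [← hu, pow_succ, e, one_mul])
  have w1 : wt4 u 1 1 ≠ 1 := by simpa [wt4] using hu1
  have w2 : wt4 u 1 2 ≠ 1 := by simpa [wt4] using hu2
  have onTop : ∀ e : F, e ≠ 0 →
      tr2 ρ ψ u 3 0 e = LinearMap.trace ℂ V (ρ (tor u 1) * (R4 ρ ψ hψ).E ψ ![0, 0, 0, e]) := fun e he => by
    rw [tr2, marg4E hψ ρ 3 e, Finset.mul_sum, map_sum, Finset.sum_eq_single (![0, 0, 0, e] : Fin 4 → F)]
    · intro x hx hne
      simp only [Finset.mem_filter, Finset.mem_univ, true_and] at hx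
      by_cases h1 : x 1 = 0
      · by_cases h2 : x 2 = 0
        · have h0 : x 0 ≠ 0 := fun h0 => hne (by funext j; fin_cases j <;> simp [h0, h1, h2, hx])
          have hM := hcross (x 0) 0 e he (Or.inl h0)
          rw [show ![x 0, 0, 0, e] = x by funext j; fin_cases j <;> simp [h1, h2, hx]] at hM
          rw [H.E4_zero hψ ρ hM, mul_zero, map_zero]
        · exact trace_moved hψ ρ u 1 x 2 w2 h2
      · exact trace_moved hψ ρ u 1 x 1 w1 h1
    · simp
  have onBot : ∀ a : F, a ≠ 0 →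
      tr2 ρ ψ u 0 0 a = LinearMap.trace ℂ V (ρ (tor u 1) * (R4 ρ ψ hψ).E ψ ![a, 0, 0, 0]) := fun a ha => by
    rw [tr2, marg4E hψ ρ 0 a, Finset.mul_sum, map_sum, Finset.sum_eq_single (![a, 0, 0, 0] : Fin 4 → F)]
    · intro x hx hne
      simp only [Finset.mem_filter, Finset.mem_univ, true_and] at hx
      by_cases h1 : x 1 = 0
      · by_cases h2 : x 2 = 0
        · have h3 : x 3 ≠ 0 := fun h3 => hne (by funext j; fin_cases j <;> simp [h3, h1, h2, hx])
          have hM := hcross a 0 (x 3) h3 (Or.inl ha)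
          rw [show ![a, 0, 0, x 3] = x by funext j; fin_cases j <;> simp [h1, h2, hx]] at hM
          rw [H.E4_zero hψ ρ hM, mul_zero, map_zero]
        · exact trace_moved hψ ρ u 1 x 2 w2 h2
      · exact trace_moved hψ ρ u 1 x 1 w1 h1
    · simp
  -- one constant
  have flat3 : ∀ z w : F, z ≠ 0 → tr2 ρ ψ u 3 z w = tr2 ρ ψ u 3 z 0 := fun z w hz => by
    rw [tr2_shift_ten hψ ρ hu z w (-w / z)]
    congr 1
    field_simp
    ring
  have flat0 : ∀ z w : F, z ≠ 0 → tr2 ρ ψ u 0 z w = tr2 ρ ψ u 0 z 0 := fun z w hz => by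
    rw [tr2_shift_six hψ ρ hu z w (-w / z)]
    congr 1
    field_simp
    ring
  obtain ⟨b0, hb0⟩ := exists_nb (F := F) 11 10 (by decide)
  obtain ⟨b1, hb1⟩ := exists_nb (F := F) 10 11 (by decide)
  have swap3 := tr2_swap hψ ρ (i := 3) (nb F) (commute_nb hu) hb0 hb1
  obtain ⟨ε, hε⟩ : ∃ ε : ℂ, ε = tr2 ρ ψ u 3 1 0 := ⟨_, rfl⟩
  have all3 : ∀ z w : F, z ≠ 0 ∨ w ≠ 0 → tr2 ρ ψ u 3 z w = ε := by
    have nz : ∀ z : F, z ≠ 0 → tr2 ρ ψ u 3 z 0 = ε := fun z hz => by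
      have h := swap3 z ((b0⁻¹ : Fˣ) : F)
      rw [flat3 z _ hz, Units.mul_inv, flat3 1 _ one_ne_zero] at h
      exact h.trans hε.symm
    intro z w h
    rcases eq_or_ne z 0 with rfl | hz
    · rw [swap3, mul_zero]
      exact nz _ (mul_ne_zero b0.ne_zero (h.resolve_left (not_not.2 rfl)))
    · rw [flat3 z w hz]; exact nz z hz
  have nz0 : ∀ z : F, z ≠ 0 → tr2 ρ ψ u 0 z 0 = ε := fun z hz => by
    have h := sum_tr2 hψ ρ 0 3 u z
    rw [Finset.sum_congr rfl fun w _ => flat0 z w hz,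
      Finset.sum_congr rfl fun w _ => all3 z w (Or.inl hz)] at h
    simpa using h
  obtain ⟨hd, hd11⟩ : (∀ r < 12, ∃ c : Fˣ, ∀ t : F, (gs F).nEl 10 1 * X r t * ((gs F).nEl 10 1)⁻¹ =
      X (act chevG2 [i0, i1, i0] r) ((c : F) * t)) ∧ act chevG2 [i0, i1, i0] 11 = 6 ∧
      act chevG2 [i0, i1, i0] 6 = 11 :=
    ⟨exists_n10 one_ne_zero, by decide +kernel, by decide +kernel⟩
  obtain ⟨c0, hc0⟩ := hd 11 (by decide)
  obtain ⟨c1, hc1⟩ := hd 6 (by decide)
  have swap0 := tr2_swap hψ ρ (i := 0) ((gs F).nEl 10 1) (commute_ten hu 1)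
    (fun t => (hc0 t).trans (by rw [hd11.1]; rfl)) (fun t => (hc1 t).trans (by rw [hd11.2]))
  have bot0 : ∀ a : F, a ≠ 0 → tr2 ρ ψ u 0 0 a = ε := fun a ha => by
    rw [swap0, mul_zero]; exact nz0 _ (mul_ne_zero c0.ne_zero ha)
  -- lines
  have line : ∀ a : F, a ≠ 0 →
      ρ (tor u 1) * (R4 ρ ψ hψ).E ψ ![a, 0, 0, 0] = ε • (R4 ρ ψ hψ).E ψ ![a, 0, 0, 0] := fun a ha => by
    have hc : Commute (ρ (tor u 1)) ((R4 ρ ψ hψ).E ψ ![a, 0, 0, 0]) := by
      have h := E4_tor hψ ρ u 1 ![a, 0, 0, 0]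
      rwa [show (fun i => (wt4 u 1 i : F) * ![a, 0, 0, 0] i) = ![a, 0, 0, 0] by
        funext j; fin_cases j <;> simp [wt4]] at h
    rw [rank_one_comm ((R4 ρ ψ hψ).isIdem ψ hψ _) (hbot a ha) hc, ← onBot a ha, bot0 a ha]
  have h00 : ρ (tor u 1) * (A2 ρ 3).E ψ 0 = ε • (A2 ρ 3).E ψ 0 := by
    rw [H.bottom_E hψ ρ, Finset.mul_sum, Finset.smul_sum]
    exact Finset.sum_congr rfl fun a ha => line a (Finset.ne_of_mem_erase ha)
  refine ⟨ε, ?_, h00, ?_⟩
  · have hR0 : (A2 ρ 3).R 0 = 1 := Act.ofHom_R0 _ _ _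
    have h := congrArg (fun T => LinearMap.trace ℂ V (ρ (tor u 1) * T)) ((A2 ρ 3).sum_E ψ hψ)
    simp only [hR0, mul_one, Finset.mul_sum, map_sum] at h
    rw [← h, sum2]
    have hz : ∀ z : F, z ≠ 0 → ∑ w, tr2 ρ ψ u 3 z w = (Fintype.card F : ℂ) * ε := fun z hz => by
      rw [Finset.sum_congr rfl fun w _ => all3 z w (Or.inl hz)]; simp
    have h0 : tr2 ρ ψ u 3 0 0 = ((Fintype.card F : ℂ) - 1) * ε := by
      rw [tr2, show ![(0 : F), 0] = 0 by funext j; fin_cases j <;> rfl, h00, map_smul, smul_eq_mul,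
        H.trace_bottom hψ ρ, Nat.cast_sub Fintype.card_pos, Nat.cast_one, mul_comm]
    show ∑ z, ∑ w, tr2 ρ ψ u 3 z w = _
    rw [← Finset.add_sum_erase _ _ (Finset.mem_univ (0 : F)),
      Finset.sum_congr rfl fun z hz' => hz z (Finset.ne_of_mem_erase hz'),
      ← Finset.add_sum_erase _ _ (Finset.mem_univ (0 : F)), h0,
      Finset.sum_congr rfl fun w hw => all3 0 w (Or.inr (Finset.ne_of_mem_erase hw)), Finset.sum_const,
      Finset.sum_const, Finset.card_erase_of_mem (Finset.mem_univ _), Finset.card_univ, nsmul_eq_mul,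
      nsmul_eq_mul, Nat.cast_sub Fintype.card_pos, Nat.cast_one]
    ring
  · have hL := line 1 one_ne_zero
    set L := (R4 ρ ψ hψ).E ψ ![1, 0, 0, 0] with hLdef
    have h3 : tor u 1 * tor u 1 * tor u 1 = (1 : Gam F) := by
      rw [tor_mul, tor_mul, show u * u * u = u ^ 3 by rw [pow_succ, pow_two], hu, mul_one, one_mul, tor_one]
    have hL0 : L ≠ 0 := fun e => by
      have h := hbot 1 one_ne_zero
      rw [M4, Act.M, ← hLdef, e] at h
      rw [LinearMap.range_zero, finrank_bot] at h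
      exact zero_ne_one h
    have e3 : ρ (tor u 1 * tor u 1 * tor u 1) * L = (ε * ε * ε) • L := by
      rw [map_mul, map_mul, mul_assoc, hL, mul_smul_comm, mul_assoc, hL, mul_smul_comm, hL, smul_smul,
        smul_smul, mul_assoc]
    rw [h3, map_one, one_mul] at e3
    have : ε * ε * ε = 1 := by
      by_contra hne
      refine hL0 ?_
      have h' : (ε * ε * ε - 1) • L = 0 := by rw [sub_smul, ← e3, one_smul, sub_self]
      exact (smul_eq_zero.1 h').resolve_left (sub_ne_zero.2 hne)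
    rw [← this]; ring

include H in
theorem CuspHyp.E00_n10 (a : F) (ha : a ≠ 0) :
    (A2 ρ 3).E ψ 0 * ρ ((gs F).nEl 10 a) * (A2 ρ 3).E ψ 0 = 0 := by
  obtain ⟨c, hc⟩ := exists_n10 ha 11 (by decide)
  have h6 : ∀ t : F, (gs F).nEl 10 a * X 11 t * ((gs F).nEl 10 a)⁻¹ = X 6 ((c : F) * t) := fun t => by
    rw [hc, show act chevG2 [i0, i1, i0] 11 = 6 by decide +kernel]
  have hfix : ∀ b, ρ (X 11 b) * (A2 ρ 3).E ψ 0 = (A2 ρ 3).E ψ 0 := fun b => by
    have h := (A2 ρ 3).R_mul_E ψ ![b, 0] 0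
    simpa [A2, Act.ofHom, dot, X_zero, L4] using h
  conv_lhs => rw [mul_assoc, H.bottom_E hψ ρ, Finset.sum_mul]
  refine Finset.sum_eq_zero fun x hx => ?_
  have hx0 := Finset.ne_of_mem_erase hx
  rw [← H.bottom_E hψ ρ]
  generalize hT : ρ ((gs F).nEl 10 a) * (A2 ρ 3).E ψ 0 = T
  obtain ⟨s, hs⟩ : ∃ s : F, ψ s ≠ 1 := by
    by_contra hall
    simp only [not_exists, not_not] at hall
    exact hψ (DFunLike.ext _ _ fun t => by rw [hall t]; rfl)
  have e : ∀ t : F, ρ (X 6 ((c : F) * t)) * T = T := fun t => by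
    rw [← hT, ← h6, ← mul_assoc, ← map_mul, inv_mul_cancel_right, map_mul, mul_assoc, hfix]
  have key : (R4 ρ ψ hψ).E ψ ![x, 0, 0, 0] * T = ψ s • ((R4 ρ ψ hψ).E ψ ![x, 0, 0, 0] * T) := by
    have hcm : Commute (ρ (X 6 ((c : F) * (s / (x * c))))) ((R4 ρ ψ hψ).E ψ ![x, 0, 0, 0]) :=
      comm_X_E4 hψ ρ ![x, 0, 0, 0] 0 _
    conv_lhs => rw [← e (s / (x * c)), ← mul_assoc, ← hcm.eq]
    rw [show ρ (X 6 ((c : F) * (s / (x * c)))) * (R4 ρ ψ hψ).E ψ ![x, 0, 0, 0] = _ from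
      X_E4 hψ ρ ![x, 0, 0, 0] 0 ((c : F) * (s / (x * c))), smul_mul_assoc]
    congr 2
    simp only [Matrix.cons_val_zero]
    field_simp [c.ne_zero]
  have h' : (ψ s - 1) • ((R4 ρ ψ hψ).E ψ ![x, 0, 0, 0] * T) = 0 := by
    rw [sub_smul, ← key, one_smul, sub_self]
  exact (smul_eq_zero.1 h').resolve_left (sub_ne_zero.2 hs)

include H in
theorem CuspHyp.E00_orth (t s : F) (h : t ≠ 0 ∨ s ≠ 0) :
    (A2 ρ 3).E ψ 0 * ρ (X 1 t * X 0 s) * (A2 ρ 3).E ψ 0 = 0 := by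
  have hR : ∀ a b : F, ρ (X 11 a * X 10 b) * (A2 ρ 3).E ψ 0 = (A2 ρ 3).E ψ 0 := fun a b => by
    have h := (A2 ρ 3).R_mul_E ψ ![a, b] 0
    simpa [A2, Act.ofHom, dot, L4] using h
  have hR' : ∀ a b : F, (A2 ρ 3).E ψ 0 * ρ (X 11 a * X 10 b) = (A2 ρ 3).E ψ 0 := fun a b =>
    ((A2 ρ 3).E_comm ψ ![a, b] 0).trans (hR a b)
  have h10 : ∀ b : F, ρ (X 10 b) * (A2 ρ 3).E ψ 0 = (A2 ρ 3).E ψ 0 := fun b => by
    simpa [X_zero] using hR 0 b
  have h10' : ∀ b : F, (A2 ρ 3).E ψ 0 * ρ (X 10 b) = (A2 ρ 3).E ψ 0 := fun b => by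
    simpa [X_zero] using hR' 0 b
  have one : ∀ t : F, t ≠ 0 → (A2 ρ 3).E ψ 0 * ρ (X 1 t) * (A2 ρ 3).E ψ 0 = 0 := fun t ht => by
    have e := lower_eq (F := F) (r := 10) (by decide) ht
    rw [negData.2.2.1] at e
    rw [e, map_mul, map_mul, ← mul_assoc, ← mul_assoc, h10', mul_assoc _ (ρ (X 10 t⁻¹)), h10]
    exact H.E00_n10 hψ ρ _ (neg_ne_zero.2 (inv_ne_zero ht))
  have conj : ∀ (g k : Gam F), Commute (ρ g) ((A2 ρ 3).E ψ 0) →
      (A2 ρ 3).E ψ 0 * ρ k * (A2 ρ 3).E ψ 0 = 0 →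
      (A2 ρ 3).E ψ 0 * ρ (g * k * g⁻¹) * (A2 ρ 3).E ψ 0 = 0 := fun g k hg hk => by
    have hg' : Commute (ρ g⁻¹) ((A2 ρ 3).E ψ 0) := by
      show _ = _
      calc ρ g⁻¹ * (A2 ρ 3).E ψ 0 = ρ g⁻¹ * ((A2 ρ 3).E ψ 0 * ρ g) * ρ g⁻¹ := by
            rw [mul_assoc, mul_assoc ((A2 ρ 3).E ψ 0), rho_inv_cancel, mul_one]
        _ = _ := by rw [← hg.eq, ← mul_assoc, rho_cancel_inv, one_mul]
    calc (A2 ρ 3).E ψ 0 * ρ (g * k * g⁻¹) * (A2 ρ 3).E ψ 0
        = (A2 ρ 3).E ψ 0 * ρ g * ρ k * (ρ g⁻¹ * (A2 ρ 3).E ψ 0) := by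
          rw [map_mul, map_mul]; simp only [mul_assoc]
      _ = ρ g * ((A2 ρ 3).E ψ 0 * ρ k * (A2 ρ 3).E ψ 0) * ρ g⁻¹ := by
          rw [← hg.eq, hg'.eq]; simp only [mul_assoc]
      _ = 0 := by rw [hk, mul_zero, zero_mul]
  rcases eq_or_ne t 0 with rfl | ht
  · have hs : s ≠ 0 := h.resolve_left (not_not.2 rfl)
    obtain ⟨c, hc⟩ := exists_nb (F := F) 1 0 (by decide)
    obtain ⟨b0, hb0⟩ := exists_nb (F := F) 11 10 (by decide)
    obtain ⟨b1, hb1⟩ := exists_nb (F := F) 10 11 (by decide)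
    rw [X_zero (by decide), one_mul, show s = (c : F) * (s / c) by field_simp, ← hc]
    refine conj _ _ (comm_zero hψ ρ (nb F)
      { toFun := fun a => ![(b1 : F) * a 1, (b0 : F) * a 0]
        invFun := fun a => ![((b0⁻¹ : Fˣ) : F) * a 1, ((b1⁻¹ : Fˣ) : F) * a 0]
        left_inv := fun a => by funext j; fin_cases j <;> simp
        right_inv := fun a => by funext j; fin_cases j <;> simp } fun a => ?_)
      (one _ (div_ne_zero hs c.ne_zero))
    show ρ (nb F) * ρ (X 11 (a 0) * X (L4 3) (a 1)) =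
      ρ (X 11 ((b1 : F) * a 1) * X (L4 3) ((b0 : F) * a 0)) * ρ (nb F)
    rw [← map_mul, ← map_mul, show L4 3 = 10 from rfl, ← hb1, ← hb0,
      ((Commute.conj_iff (nb F)).2 (commX (by decide) (a 1) (a 0) : Commute (X 10 _) (X 11 _))).eq]
    simp [mul_assoc]
  · let r : F := -s / t
    have e : X 1 t * X 0 s = X 5 r * X 1 t * (X 5 r)⁻¹ := by
      rw [cj51]
      congr 2
      simp only [r]
      field_simp
    rw [e]
    refine conj _ _ (comm_zero hψ ρ (X 5 r)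
      { toFun := fun a => ![a 0, a 1 + r * a 0]
        invFun := fun a => ![a 0, a 1 - r * a 0]
        left_inv := fun a => by funext j; fin_cases j <;> simp
        right_inv := fun a => by funext j; fin_cases j <;> simp } fun a => ?_) (one t ht)
    show ρ (X 5 r) * ρ (X 11 (a 0) * X (L4 3) (a 1)) =
      ρ (X 11 (a 0) * X (L4 3) (a 1 + r * a 0)) * ρ (X 5 r)
    rw [← map_mul, ← map_mul, show L4 3 = 10 from rfl]
    congr 1
    calc X 5 r * (X 11 (a 0) * X 10 (a 1)) = X 5 r * X 11 (a 0) * (X 5 r)⁻¹ * (X 5 r * X 10 (a 1)) := by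
          simp [mul_assoc]
      _ = _ := by
        rw [cj511, (commX (by decide) r (a 1) : Commute (X 5 r) (X 10 (a 1))).eq, ← mul_assoc, mul_assoc (X 11 (a 0)),
          X_add (by decide), add_comm (r * a 0)]

include H in
/-- There is no representation of degree `q³ - 1`. -/
theorem CuspHyp.false (hq : 7 ≤ Fintype.card F) {u : Fˣ} (hu : u ^ 3 = 1) (hu1 : u ≠ 1) : False := by
  obtain ⟨ε, htr, h00, hε⟩ := H.spectral hψ ρ hu hu1
  obtain ⟨δ, htr2, h002, -⟩ := H.spectral hψ ρ (u := u * u) (by rw [mul_pow, hu, one_mul])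
    fun e => hu1 (by rw [← hu, pow_succ, pow_two, e, one_mul])
  set E := (A2 ρ 3).E ψ 0 with hE
  have hEidem : E * E = E := (A2 ρ 3).isIdem ψ hψ 0
  have htrE := H.trace_bottom hψ ρ
  rw [← hE] at htrE
  have hE0 : E ≠ 0 := fun e => by
    rw [e, map_zero, eq_comm, Nat.cast_eq_zero] at htrE
    omega
  set W := ρ (tor u 1) with hW
  have hW2 : ρ (tor (u * u) 1) = W * W := by rw [hW, ← map_mul, tor_mul, one_mul]
  have hWE : Commute W E := comm_zero hψ ρ (tor u 1) (Equiv.refl _) fun a => by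
    show ρ (tor u 1) * ρ (X 11 (a 0) * X (L4 3) (a 1)) = ρ (X 11 (a 0) * X (L4 3) (a 1)) * ρ (tor u 1)
    rw [← map_mul, ← map_mul, ((commute_tor hu (by simp) (a 0)).mul_right (commute_tor hu (by simp [L4]) (a 1))).eq]
  have hδ : δ = ε ^ 2 := by
    rw [hW2, mul_assoc, h00, mul_smul_comm, h00, smul_smul] at h002
    have h' : (ε * ε - δ) • E = 0 := by rw [sub_smul, h002, sub_self]
    rw [pow_two, sub_eq_zero.1 ((smul_eq_zero.1 h').resolve_right hE0)]
  rw [hW2, hδ] at htr2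
  set U : Module.End ℂ V := ε ^ 2 • W with hU
  have hU3 : U * U * U = 1 := by
    rw [hU, smul_mul_smul_comm, smul_mul_smul_comm, hW, ← map_mul, ← map_mul, tor_mul, tor_mul,
      show u * u * u = u ^ 3 by rw [pow_succ, pow_two], hu, mul_one, mul_one, tor_one, map_one,
      show ε ^ 2 * ε ^ 2 * ε ^ 2 = (ε ^ 3) ^ 2 by ring, hε, one_pow, one_smul]
  set P : Module.End ℂ V := (3 : ℂ)⁻¹ • (1 + U + U * U) with hP
  have hUP : U * P = P := by
    rw [hP, mul_smul_comm, mul_add, mul_add, mul_one, ← mul_assoc, hU3]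
    congr 1
    abel
  have hPP : P * P = P := by
    conv_lhs => arg 1; rw [hP]
    rw [smul_mul_assoc, add_mul, add_mul, one_mul, mul_assoc, hUP, hUP]
    rw [show P + P + P = (3 : ℂ) • P by rw [show (3 : ℂ) = 1 + 1 + 1 by norm_num, add_smul, add_smul, one_smul],
      smul_smul]
    norm_num
  have hUE : U * E = E := by
    rw [hU, smul_mul_assoc, h00, smul_smul, ← pow_succ, hε, one_smul]
  have hPE : P * E = E := by
    rw [hP, smul_mul_assoc, add_mul, add_mul, one_mul, mul_assoc, hUE, hUE,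
      show E + E + E = (3 : ℂ) • E by rw [show (3 : ℂ) = 1 + 1 + 1 by norm_num, add_smul, add_smul, one_smul],
      smul_smul]
    norm_num
  have hPcomm : ∀ T, Commute W T → Commute P T := fun T hT => by
    have hUT : Commute U T := hT.smul_left _
    exact (((Commute.one_left T).add_left hUT).add_left (hUT.mul_left hUT)).smul_left _
  let g : F × F → Gam F := fun p => X 1 p.1 * X 0 p.2
  have hgmul : ∀ p p', g p * g p' = g (p + p') := fun p p' => by
    show X 1 p.1 * X 0 p.2 * (X 1 p'.1 * X 0 p'.2) = _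
    rw [((commX (by decide) p.2 p'.1 : Commute (X 0 p.2) (X 1 p'.1))).mul_mul_mul_comm, X_add (by decide),
      X_add (by decide)]
    rfl
  have hg0 : g 0 = 1 := by simp [g, X_zero]
  have hginv : ∀ p, (g p)⁻¹ = g (-p) := fun p => inv_eq_of_mul_eq_one_right (by rw [hgmul, add_neg_cancel, hg0])
  let Eg : F × F → Module.End ℂ V := fun p => ρ (g p) * E * ρ (g p)⁻¹
  have horth : ∀ p p', Eg p * Eg p' = if p = p' then Eg p else 0 := fun p p' => by
    show ρ (g p) * E * ρ (g p)⁻¹ * (ρ (g p') * E * ρ (g p')⁻¹) = _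
    rw [show ρ (g p) * E * ρ (g p)⁻¹ * (ρ (g p') * E * ρ (g p')⁻¹) =
      ρ (g p) * (E * (ρ (g p)⁻¹ * ρ (g p')) * E) * ρ (g p')⁻¹ by simp only [mul_assoc],
      ← map_mul, hginv, hgmul]
    split_ifs with e
    · rw [← e, neg_add_cancel, hg0, map_one, mul_one, hEidem, hginv]
      exact (by simp only [Eg, hginv])
    · have hne : (-p + p').1 ≠ 0 ∨ (-p + p').2 ≠ 0 := by
        by_contra hb
        simp only [not_or, not_not] at hb
        exact e (neg_add_eq_zero.1 (Prod.ext hb.1 hb.2))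
      rw [H.E00_orth hψ ρ _ _ hne, mul_zero, zero_mul]
  have hcg : ∀ p, Commute (tor u 1) (g p) := fun p =>
    (commute_tor hu (by simp) p.1).mul_right (commute_tor hu (by simp) p.2)
  have hPg : ∀ p, P * Eg p = Eg p ∧ Eg p * P = Eg p := fun p => by
    have c1 : Commute P (ρ (g p)) := hPcomm _ ((hcg p).map ρ)
    have c2 : Commute P (ρ (g p)⁻¹) := hPcomm _ ((hcg p).inv_right.map ρ)
    have c3 : Commute P E := hPcomm _ hWE
    have hEP : E * P = E := by rw [← c3.eq, hPE]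
    refine ⟨?_, ?_⟩
    · show P * (ρ (g p) * E * ρ (g p)⁻¹) = _
      rw [← mul_assoc, ← mul_assoc, c1.eq, mul_assoc (ρ (g p)), hPE]
    · show ρ (g p) * E * ρ (g p)⁻¹ * P = _
      rw [mul_assoc (ρ (g p) * E), ← c2.eq, ← mul_assoc, mul_assoc (ρ (g p)), hEP]
  set S := ∑ p, Eg p with hS
  have hSS : S * S = S := by
    rw [hS, Finset.sum_mul]
    refine Finset.sum_congr rfl fun p _ => ?_
    rw [Finset.mul_sum]
    simp [horth]
  have hPS : P * S = S := by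
    rw [hS, Finset.mul_sum]; exact Finset.sum_congr rfl fun p _ => (hPg p).1
  have hSP : S * P = S := by
    rw [hS, Finset.sum_mul]; exact Finset.sum_congr rfl fun p _ => (hPg p).2
  have hD : IsIdempotentElem (P - S) := by
    rw [IsIdempotentElem, mul_sub, sub_mul, sub_mul, hPP, hPS, hSP, hSS, sub_self, sub_zero]
  have key := trace_idem hD
  rw [map_sub] at key
  set n := finrank ℂ (LinearMap.range (P - S))
  have trS : LinearMap.trace ℂ V S =
      (Fintype.card F : ℂ) ^ 2 * ((Fintype.card F - 1 : ℕ) : ℂ) := by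
    rw [hS, map_sum, Finset.sum_congr rfl fun p _ => by
      show LinearMap.trace ℂ V (ρ (g p) * E * ρ (g p)⁻¹) = _
      rw [LinearMap.trace_mul_cycle, rho_cancel_inv, one_mul, htrE], Finset.sum_const, Finset.card_univ,
      Fintype.card_prod, nsmul_eq_mul, Nat.cast_mul, pow_two]
  have trP : 3 * LinearMap.trace ℂ V P =
      (finrank ℂ V : ℂ) + 2 * ((Fintype.card F : ℂ) ^ 2 + Fintype.card F - 2) := by
    rw [hP, map_smul, map_add, map_add, LinearMap.trace_one, hU, smul_mul_smul_comm, map_smul, map_smul, htr,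
      htr2, smul_eq_mul, smul_eq_mul, smul_eq_mul]
    linear_combination ((Fintype.card F : ℂ) ^ 2 + Fintype.card F - 2) * (ε ^ 3 + 2) * hε
  rw [trS, Nat.cast_sub Fintype.card_pos, Nat.cast_one] at key
  have key' : ((finrank ℂ V + 2 * (Fintype.card F ^ 2 + Fintype.card F) + 3 * Fintype.card F ^ 2 : ℕ) : ℂ) =
      ((3 * n + 4 + 3 * Fintype.card F ^ 3 : ℕ) : ℂ) := by
    push_cast
    linear_combination 3 * key - trP
  have key'' := Nat.cast_inj.1 key'
  rw [← H.dim] at key''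
  have hbig : 7 * Fintype.card F ^ 2 ≤ Fintype.card F ^ 3 := by
    rw [show Fintype.card F ^ 3 = Fintype.card F * Fintype.card F ^ 2 by ring]
    exact Nat.mul_le_mul_right _ hq
  have hd := H.dim
  nlinarith

end Cfsg.Agent.G2Deg
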