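import Cfsg.Agent.G2Deg.Cusp
import Cfsg.Agent.S1059
import Cfsg.Agent.ChevGrp.Order

/-!
# `q ≡ 1 (mod 3)`: no representation of degree `q³`
-/

set_option autoImplicit false
set_option linter.unusedSectionVars false

namespace Cfsg.Agent.G2Deg

open Cfsg.Lie Cfsg.Agent.ChevGrp Cfsg.Agent.G2Inv
open Module (finrank)

variable {F : Type*} [Field F] [Fintype F] [DecidableEq F] {V : Type*} [AddCommGroup V] [Module ℂ V]
  [FiniteDimensional ℂ V] {ψ : AddChar F ℂ} (hψ : ψ ≠ 1) (ρ : Representation ℂ (Gam F) V)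

include hψ in
theorem comm_nb_E00 : Commute (ρ (nb F)) ((A2 ρ 3).E ψ 0) := by
  obtain ⟨b0, hb0⟩ := exists_nb (F := F) 11 10 (by decide)
  obtain ⟨b1, hb1⟩ := exists_nb (F := F) 10 11 (by decide)
  refine comm_zero hψ ρ (nb F)
    { toFun := fun a => ![(b1 : F) * a 1, (b0 : F) * a 0]
      invFun := fun a => ![((b0⁻¹ : Fˣ) : F) * a 1, ((b1⁻¹ : Fˣ) : F) * a 0]
      left_inv := fun a => by funext j; fin_cases j <;> simp
      right_inv := fun a => by funext j; fin_cases j <;> simp } fun a => ?_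
  show ρ (nb F) * ρ (X 11 (a 0) * X (L4 3) (a 1)) =
    ρ (X 11 ((b1 : F) * a 1) * X (L4 3) ((b0 : F) * a 0)) * ρ (nb F)
  rw [← map_mul, ← map_mul, show L4 3 = 10 from rfl, ← hb1, ← hb0,
    ((Commute.conj_iff (nb F)).2 (commX (by decide) (a 1) (a 0) : Commute (X 10 _) (X 11 _))).eq]
  simp [mul_assoc]

/-- The value of the spherical function. -/
noncomputable def sph (g : Gam F) : ℂ := LinearMap.trace ℂ V (ρ g * (R4 ρ ψ hψ).E ψ 0)

/-- The hypotheses on a representation of degree `q³`. -/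
structure SphHyp : Prop where
  three : (3 : F) ≠ 0
  big : 5 ≤ Fintype.card F
  one : (A3 ρ).M ψ ![1, 0, 0] = 1
  zero : M4 hψ ρ 0 = 1
  none : ∀ x : Fin 4 → F, x 3 = 0 → (x 1 ≠ 0 ∨ x 2 ≠ 0) → M4 hψ ρ x = 0
  dim : finrank ℂ V = Fintype.card F ^ 3

variable (H : SphHyp hψ ρ)

include H in
theorem SphHyp.idem : (R4 ρ ψ hψ).E ψ 0 * (R4 ρ ψ hψ).E ψ 0 = (R4 ρ ψ hψ).E ψ 0 := (R4 ρ ψ hψ).isIdem ψ hψ 0

include H in
theorem SphHyp.sandwich (g : Gam F) :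
    (R4 ρ ψ hψ).E ψ 0 * ρ g * (R4 ρ ψ hψ).E ψ 0 = sph hψ ρ g • (R4 ρ ψ hψ).E ψ 0 :=
  rank_one ((R4 ρ ψ hψ).isIdem ψ hψ 0) H.zero _

include H in
theorem SphHyp.scalar {g : Gam F} (hc : Commute (ρ g) ((R4 ρ ψ hψ).E ψ 0)) :
    ρ g * (R4 ρ ψ hψ).E ψ 0 = sph hψ ρ g • (R4 ρ ψ hψ).E ψ 0 :=
  rank_one_comm ((R4 ρ ψ hψ).isIdem ψ hψ 0) H.zero hc

include H in
theorem SphHyp.E_ne : (R4 ρ ψ hψ).E ψ 0 ≠ 0 := fun e => by
  have h := H.zero
  rw [M4, Act.M, e, LinearMap.range_zero, finrank_bot] at h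
  exact zero_ne_one h

include H in
theorem SphHyp.eq_of_smul {a b : ℂ} (h : a • (R4 ρ ψ hψ).E ψ 0 = b • (R4 ρ ψ hψ).E ψ 0) : a = b := by
  have h' : (a - b) • (R4 ρ ψ hψ).E ψ 0 = 0 := by rw [sub_smul, h, sub_self]
  exact sub_eq_zero.1 ((smul_eq_zero.1 h').resolve_right (H.E_ne hψ ρ))

include H in
theorem SphHyp.sph_one : sph hψ ρ (1 : Gam F) = 1 := by
  refine H.eq_of_smul hψ ρ ?_
  rw [← H.scalar hψ ρ (by rw [map_one]; exact Commute.one_left _), map_one, one_mul, one_smul]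

include H in
theorem SphHyp.sph_mul {g h : Gam F} (hg : Commute (ρ g) ((R4 ρ ψ hψ).E ψ 0))
    (hh : Commute (ρ h) ((R4 ρ ψ hψ).E ψ 0)) : sph hψ ρ (g * h) = sph hψ ρ g * sph hψ ρ h := by
  refine H.eq_of_smul hψ ρ ?_
  have hgh : Commute (ρ (g * h)) ((R4 ρ ψ hψ).E ψ 0) := by rw [map_mul]; exact hg.mul_left hh
  rw [← H.scalar hψ ρ hgh, map_mul, mul_assoc, H.scalar hψ ρ hh, mul_smul_comm, H.scalar hψ ρ hg, smul_smul,
    mul_comm (sph hψ ρ g)]

include hψ in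
theorem comm_tor_E (u v : Fˣ) : Commute (ρ (tor u v)) ((R4 ρ ψ hψ).E ψ 0) := by
  have h := E4_tor hψ ρ u v 0
  rwa [show (fun i => (wt4 u v i : F) * (0 : Fin 4 → F) i) = 0 by funext i; simp] at h

include hψ in
theorem comm_X7_E (t : F) : Commute (ρ (X 7 t)) ((R4 ρ ψ hψ).E ψ 0) :=
  comm_zero hψ ρ (X 7 t)
    { toFun := p7 t
      invFun := p7 (-t)
      left_inv := fun a => by funext j; fin_cases j <;> simp [p7] <;> ring
      right_inv := fun a => by funext j; fin_cases j <;> simp [p7] <;> ring }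
    (conj7 ρ ψ hψ t)

include hψ in
theorem comm_X4_E (t : F) : Commute (ρ (X 4 t)) ((R4 ρ ψ hψ).E ψ 0) :=
  comm_zero hψ ρ (X 4 t)
    { toFun := p4 t
      invFun := p4 (-t)
      left_inv := fun a => by funext j; fin_cases j <;> simp [p4] <;> ring
      right_inv := fun a => by funext j; fin_cases j <;> simp [p4] <;> ring }
    (conj4 ρ ψ hψ t)

include H in
/-- A root group scaled by the torus acts trivially on the line. -/
theorem SphHyp.levi_trivial {r : ℕ} (hr : r < 12) (hc : ∀ t, Commute (ρ (X r t)) ((R4 ρ ψ hψ).E ψ 0))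
    (hs : ∀ c : Fˣ, ∃ u v : Fˣ, ∀ t : F, tor u v * X r t * (tor u v)⁻¹ = X r ((c : F) * t)) (t : F) :
    sph hψ ρ (X r t) = 1 := by
  have hadd : ∀ a b, sph hψ ρ (X r (a + b)) = sph hψ ρ (X r a) * sph hψ ρ (X r b) := fun a b => by
    rw [← X_add hr, H.sph_mul hψ ρ (hc a) (hc b)]
  have hinv : ∀ (c : Fˣ) t, sph hψ ρ (X r ((c : F) * t)) = sph hψ ρ (X r t) := fun c t => by
    obtain ⟨u, v, huv⟩ := hs c
    obtain ⟨u', v', huv'⟩ := exists_tor (inv_mem (tor_mem u v))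
    have h1 : Commute (ρ (tor u v * X r t)) ((R4 ρ ψ hψ).E ψ 0) := by
      rw [map_mul]; exact (comm_tor_E hψ ρ u v).mul_left (hc t)
    rw [← huv, huv', H.sph_mul hψ ρ h1 (comm_tor_E hψ ρ u' v'),
      H.sph_mul hψ ρ (comm_tor_E hψ ρ u v) (hc t), mul_right_comm,
      ← H.sph_mul hψ ρ (comm_tor_E hψ ρ u v) (comm_tor_E hψ ρ u' v'), ← huv', mul_inv_cancel,
      H.sph_one hψ ρ, one_mul]
  have hz : sph hψ ρ (X r (0 : F)) = 1 := by rw [X_zero hr, H.sph_one hψ ρ]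
  rcases eq_or_ne t 0 with rfl | ht
  · exact hz
  obtain ⟨a, -, ha⟩ := Finset.exists_mem_notMem_of_card_lt_card (s := ({0, t} : Finset F)) (t := Finset.univ)
    (lt_of_le_of_lt Finset.card_le_two (by have := H.big; rw [Finset.card_univ]; omega))
  simp only [Finset.mem_insert, Finset.mem_singleton, not_or] at ha
  have h1 := hinv (Units.mk0 (a / t) (div_ne_zero ha.1 ht)) t
  have h2 := hinv (Units.mk0 ((t - a) / t) (div_ne_zero (sub_ne_zero.2 (Ne.symm ha.2)) ht)) t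
  rw [Units.val_mk0, div_mul_cancel₀ _ ht] at h1 h2
  have h3 := hadd a (t - a)
  rw [add_sub_cancel, h1, h2] at h3
  have hne : sph hψ ρ (X r t) ≠ 0 := fun e => by
    have h := hadd t (-t)
    rw [add_neg_cancel, hz, e, zero_mul] at h
    exact one_ne_zero h
  exact mul_eq_left₀ hne |>.1 h3.symm

include H in
theorem SphHyp.fix7 (t : F) : ρ (X 7 t) * (R4 ρ ψ hψ).E ψ 0 = (R4 ρ ψ hψ).E ψ 0 := by
  rw [H.scalar hψ ρ (comm_X7_E hψ ρ t), H.levi_trivial hψ ρ (by decide) (comm_X7_E hψ ρ) (fun c => ⟨c, 1,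
    fun t => by rw [tor_conj c 1 (by decide), cofData.1]; simp⟩), one_smul]

include H in
theorem SphHyp.fix4 (t : F) : ρ (X 4 t) * (R4 ρ ψ hψ).E ψ 0 = (R4 ρ ψ hψ).E ψ 0 := by
  rw [H.scalar hψ ρ (comm_X4_E hψ ρ t), H.levi_trivial hψ ρ (by decide) (comm_X4_E hψ ρ) (fun c => ⟨c⁻¹, 1,
    fun t => by rw [tor_conj c⁻¹ 1 (by decide), cofData.2.2.2.2.2.2.1]; simp⟩), one_smul]

/-- The elements fixing the projection on both sides. -/
def fixE : Subgroup (Gam F) where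
  carrier := {g | ρ g * (R4 ρ ψ hψ).E ψ 0 = (R4 ρ ψ hψ).E ψ 0 ∧
    (R4 ρ ψ hψ).E ψ 0 * ρ g = (R4 ρ ψ hψ).E ψ 0}
  one_mem' := by simp
  mul_mem' := fun {a b} ha hb => ⟨by rw [map_mul, mul_assoc, hb.1, ha.1],
    by rw [map_mul, ← mul_assoc, ha.2, hb.2]⟩
  inv_mem' := fun {a} ha => ⟨by conv_lhs => rw [← ha.1, ← mul_assoc, rho_cancel_inv, one_mul],
    by conv_lhs => rw [← ha.2, mul_assoc, rho_inv_cancel, mul_one]⟩

theorem mem_fixE {g : Gam F} (h : ρ g * (R4 ρ ψ hψ).E ψ 0 = (R4 ρ ψ hψ).E ψ 0)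
    (hc : Commute (ρ g) ((R4 ρ ψ hψ).E ψ 0)) : g ∈ fixE hψ ρ := ⟨h, by rw [← hc.eq, h]⟩

/-- The roots of the parabolic subgroup. -/
def parRoots : List ℕ := [4, 6, 7, 8, 9, 10, 11]

include H in
theorem SphHyp.X_mem {r : ℕ} (hr : r ∈ parRoots) (t : F) : X r t ∈ fixE hψ ρ := by
  have key : ∀ i : Fin 4, X (L4 i) t ∈ fixE hψ ρ := fun i => by
    refine mem_fixE hψ ρ ?_ (comm_X_E4 hψ ρ 0 i t)
    rw [X_E4 hψ ρ 0 i t]; simp
  simp [parRoots] at hr
  rcases hr with rfl | rfl | rfl | rfl | rfl | rfl | rfl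
  · exact mem_fixE hψ ρ (H.fix4 hψ ρ t) (comm_X4_E hψ ρ t)
  · exact key 0
  · exact mem_fixE hψ ρ (H.fix7 hψ ρ t) (comm_X7_E hψ ρ t)
  · exact key 1
  · exact key 2
  · exact key 3
  · refine mem_fixE hψ ρ (X11_E4 hψ ρ 0 t) ?_
    have hc : Commute (ρ (X 11 t)) (P0 ρ ψ) := comm_P0' ρ ψ fun s => comm_self (by decide) t s
    show _ = _
    rw [X11_E4 hψ ρ 0 t]
    conv_rhs => rw [← Act.R0_mul_E hψ (R4 ρ ψ hψ) 0, ← Act.E_comm, R4_zero, mul_assoc, ← hc.eq, X11_P0,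
      ← R4_zero ρ ψ hψ, Act.E_comm, Act.R0_mul_E hψ]

include H in
theorem SphHyp.na_mem : na F ∈ fixE hψ ρ := by
  show X (chevG2.simple i0) 1 * X (chevG2.neg (chevG2.simple i0)) (-1⁻¹) * X (chevG2.simple i0) 1 ∈ fixE hψ ρ
  rw [simple_zero, negData.1]
  exact mul_mem (mul_mem (H.X_mem hψ ρ (by decide) _) (H.X_mem hψ ρ (by decide) _))
    (H.X_mem hψ ρ (by decide) _)

include H in
theorem SphHyp.theta_swap {u v : Fˣ} (hv : v ≠ 1) :
    sph hψ ρ (tor (u * v) v⁻¹) = sph hψ ρ (tor u v) := by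
  have tr00 : ∀ u v : Fˣ, v ≠ 1 →
      LinearMap.trace ℂ V (ρ (tor u v) * (A2 ρ 3).E ψ 0) = sph hψ ρ (tor u v) := fun u v hv => by
    rw [show (0 : Fin 2 → F) = ![0, 0] by funext j; fin_cases j <;> rfl, marg4E hψ ρ 3 0, Finset.mul_sum, map_sum,
      Finset.sum_eq_single (0 : Fin 4 → F)]
    · rfl
    · intro x hx hne
      simp only [Finset.mem_filter, Finset.mem_univ, true_and] at hx
      by_cases h12 : x 1 = 0 ∧ x 2 = 0
      · refine trace_moved hψ ρ u v x 0 (by simpa [wt4] using hv) fun h0 => hne ?_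
        funext j; fin_cases j <;> simp [h0, h12.1, h12.2, hx]
      · rw [Act.E_eq_zero (H.none x hx (by tauto)), mul_zero, map_zero]
    · simp
  rw [← tr00 u v hv, ← tr00 (u * v) v⁻¹ (by simpa using hv), ← nb_tor, map_mul ρ, map_mul ρ]
  have hc := comm_nb_E00 hψ ρ
  calc LinearMap.trace ℂ V (ρ (nb F) * ρ (tor u v) * ρ (nb F)⁻¹ * (A2 ρ 3).E ψ 0)
      = LinearMap.trace ℂ V (ρ (nb F) * (ρ (tor u v) * ρ (nb F)⁻¹ * (A2 ρ 3).E ψ 0)) := by
        simp only [mul_assoc]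
    _ = LinearMap.trace ℂ V (ρ (tor u v) * ρ (nb F)⁻¹ * ((A2 ρ 3).E ψ 0 * ρ (nb F))) := by
        rw [LinearMap.trace_mul_comm]; simp only [mul_assoc]
    _ = _ := by rw [← hc.eq, ← mul_assoc, mul_assoc _ (ρ (nb F)⁻¹), rho_cancel_inv, mul_one]

include H in
theorem SphHyp.theta_one (u v : Fˣ) : sph hψ ρ (tor u v) = 1 := by
  have hmul : ∀ u v u' v' : Fˣ,
      sph hψ ρ (tor (u * u') (v * v')) = sph hψ ρ (tor u v) * sph hψ ρ (tor u' v') := fun u v u' v' => by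
    rw [← tor_mul, H.sph_mul hψ ρ (comm_tor_E hψ ρ u v) (comm_tor_E hψ ρ u' v')]
  have hne : ∀ u v : Fˣ, sph hψ ρ (tor u v) ≠ 0 := fun u v e => by
    have h := hmul u v u⁻¹ v⁻¹
    rw [mul_inv_cancel, mul_inv_cancel, tor_one, H.sph_one hψ ρ, e, zero_mul] at h
    exact one_ne_zero h
  have hb : ∀ v : Fˣ, sph hψ ρ (tor v (v⁻¹ * v⁻¹)) = 1 := fun v => by
    rcases eq_or_ne v 1 with rfl | hv
    · rw [inv_one, one_mul, tor_one, H.sph_one hψ ρ]
    · have h := H.theta_swap hψ ρ (u := 1) hv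
      have h' := hmul 1 v v (v⁻¹ * v⁻¹)
      rw [one_mul, ← mul_assoc, mul_inv_cancel, one_mul] at h'
      rw [one_mul, h'] at h
      exact (mul_eq_left₀ (hne 1 v)).1 h
  have ha : ∀ t : Fˣ, sph hψ ρ (tor (t * t) (t⁻¹ ^ 3)) = 1 := fun t => by
    have hnaC : Commute (ρ (na F)) ((R4 ρ ψ hψ).E ψ 0) := by
      obtain ⟨h1, h2⟩ := H.na_mem hψ ρ
      exact h1.trans h2.symm
    have hna1 : sph hψ ρ (na F) = 1 :=
      H.eq_of_smul hψ ρ (by rw [← H.scalar hψ ρ hnaC, (H.na_mem hψ ρ).1, one_smul])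
    have hnaC' : Commute (ρ (na F)⁻¹) ((R4 ρ ψ hψ).E ψ 0) := by
      obtain ⟨h1, h2⟩ := inv_mem (H.na_mem hψ ρ)
      exact h1.trans h2.symm
    have hna1' : sph hψ ρ (na F)⁻¹ = 1 :=
      H.eq_of_smul hψ ρ (by rw [← H.scalar hψ ρ hnaC', (inv_mem (H.na_mem hψ ρ)).1, one_smul])
    have hc1 : Commute (ρ (na F * tor t⁻¹ 1)) ((R4 ρ ψ hψ).E ψ 0) := by
      rw [map_mul]; exact hnaC.mul_left (comm_tor_E hψ ρ _ _)
    have h := H.sph_mul hψ ρ hc1 hnaC'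
    rw [na_tor, H.sph_mul hψ ρ hnaC (comm_tor_E hψ ρ _ _), hna1, hna1', one_mul, mul_one, inv_inv, mul_one] at h
    have h' := hmul t⁻¹ 1 (t * t) (t⁻¹ ^ 3)
    rw [← mul_assoc, inv_mul_cancel, one_mul, one_mul, h] at h'
    exact (mul_eq_left₀ (hne _ _)).1 h'.symm
  have h := hmul ((v * u * u) * (v * u * u)) ((v * u * u)⁻¹ ^ 3) (u * ((v * u * u)⁻¹ * (v * u * u)⁻¹))
    ((u * ((v * u * u)⁻¹ * (v * u * u)⁻¹))⁻¹ * (u * ((v * u * u)⁻¹ * (v * u * u)⁻¹))⁻¹)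
  rw [ha, hb, mul_one] at h
  rw [← h]
  congr 2 <;> (refine Units.ext ?_; push_cast; field_simp)

include H in
theorem SphHyp.Hbar_mem {h : Gam F} (hh : h ∈ (gs F).Hbar) : h ∈ fixE hψ ρ := by
  obtain ⟨u, v, rfl⟩ := exists_tor hh
  refine mem_fixE hψ ρ ?_ (comm_tor_E hψ ρ u v)
  rw [H.scalar hψ ρ (comm_tor_E hψ ρ u v), H.theta_one hψ ρ, one_smul]

theorem posData : ∀ r < 12, (chevG2.IsPosRoot r → r ∈ parRoots) := by
  decide +kernel

include H in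
theorem SphHyp.Bbar_mem {b : Gam F} (hb : b ∈ (gs F).Bbar) : b ∈ fixE hψ ρ := by
  refine (show (gs F).Bbar ≤ fixE hψ ρ from sup_le ((Subgroup.closure_le _).2 ?_) fun h hh => H.Hbar_mem hψ ρ hh) hb
  rintro g ⟨r, hr, t, rfl⟩
  obtain ⟨len, hR⟩ := (G2Inv.rules F).root
  exact H.X_mem hψ ρ (posData r hr.1 hr) t

include H in
theorem SphHyp.sph_left {b : Gam F} (hb : b ∈ fixE hψ ρ) (g : Gam F) : sph hψ ρ (b * g) = sph hψ ρ g := by
  refine H.eq_of_smul hψ ρ ?_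
  rw [← H.sandwich hψ ρ, ← H.sandwich hψ ρ, map_mul, ← mul_assoc ((R4 ρ ψ hψ).E ψ 0), hb.2]

include H in
theorem SphHyp.sph_right {b : Gam F} (hb : b ∈ fixE hψ ρ) (g : Gam F) : sph hψ ρ (g * b) = sph hψ ρ g := by
  refine H.eq_of_smul hψ ρ ?_
  rw [← H.sandwich hψ ρ, ← H.sandwich hψ ρ, map_mul, mul_assoc, mul_assoc (ρ g), hb.1, ← mul_assoc]

include H in
theorem SphHyp.fix_all [ρ.IsIrreducible] (h : ρ (nb F) * (R4 ρ ψ hψ).E ψ 0 = (R4 ρ ψ hψ).E ψ 0) : False := by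
  let K : Subgroup (Gam F) :=
    { carrier := {g | ρ g * (R4 ρ ψ hψ).E ψ 0 = (R4 ρ ψ hψ).E ψ 0}
      one_mem' := by simp
      mul_mem' := fun {a b} (ha : _ = _) (hb : _ = _) => by
        show ρ (a * b) * _ = _
        rw [map_mul, mul_assoc, hb, ha]
      inv_mem' := fun {a} (ha : _ = _) => by
        show ρ a⁻¹ * _ = _
        conv_lhs => rw [← ha, ← mul_assoc, rho_cancel_inv, one_mul] }
  have hn : ∀ i : Fin chevG2.rank, (gs F).nI i ∈ K := fun i => by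
    fin_cases i
    · exact (H.na_mem hψ ρ).1
    · exact h
  have step : ∀ (i : Fin chevG2.rank) (r s : ℕ), r < 12 → act chevG2 [i] r = s →
      (∀ t, X r t ∈ K) → ∀ t, X s t ∈ K := fun i r s hr hs hX t => by
    obtain ⟨len, hR⟩ := (G2Inv.rules F).root
    obtain ⟨c, hc⟩ := exists_conjP ((gs F).conjP_nI (G2Inv.rules F) hR i) r hr
    have e := hc ((c⁻¹ : Fˣ) * t)
    rw [Units.mul_inv_cancel_left, hs] at e
    rw [← e]
    exact mul_mem (mul_mem (hn i) (hX _)) (inv_mem (hn i))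
  have hpar : ∀ r ∈ parRoots, ∀ t, X r t ∈ K := fun r hr t => (H.X_mem hψ ρ hr t).1
  have h5 := step i1 6 5 (by decide) (by decide +kernel) (hpar 6 (by decide))
  have h1 := step i0 5 1 (by decide) (by decide +kernel) h5
  have h0 := step i1 1 0 (by decide) (by decide +kernel) h1
  have h3 := step i1 4 3 (by decide) (by decide +kernel) (hpar 4 (by decide))
  have h2 := step i0 3 2 (by decide) (by decide +kernel) h3
  have hall : ∀ g : Gam F, g ∈ K := fun g => by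
    have hg : g ∈ (gs F).Gbar := by rw [ChevSteinberg.Gbar_grpSys]; exact Subgroup.mem_top g
    refine (show (gs F).Gbar ≤ K from (Subgroup.closure_le _).2 ?_) hg
    rintro x ⟨r, hr, t, rfl⟩
    have hr' : r < 12 := hr
    interval_cases r
    · exact h0 t
    · exact h1 t
    · exact h2 t
    · exact h3 t
    · exact hpar 4 (by decide) t
    · exact h5 t
    · exact hpar 6 (by decide) t
    · exact hpar 7 (by decide) t
    · exact hpar 8 (by decide) t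
    · exact hpar 9 (by decide) t
    · exact hpar 10 (by decide) t
    · exact hpar 11 (by decide) t
  let W : Subrepresentation ρ := ⟨LinearMap.range ((R4 ρ ψ hψ).E ψ 0), fun g w hw => by
    obtain ⟨v, rfl⟩ := hw
    exact ⟨v, (LinearMap.congr_fun (hall g) v).symm⟩⟩
  have h1' : finrank ℂ (LinearMap.range ((R4 ρ ψ hψ).E ψ 0)) = 1 := H.zero
  rcases eq_bot_or_eq_top W with hW | hW
  · have h2' : LinearMap.range ((R4 ρ ψ hψ).E ψ 0) = ⊥ := congrArg Subrepresentation.toSubmodule hW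
    rw [h2', finrank_bot] at h1'
    exact zero_ne_one h1'
  · have h2' : LinearMap.range ((R4 ρ ψ hψ).E ψ 0) = ⊤ := congrArg Subrepresentation.toSubmodule hW
    rw [h2', finrank_top, H.dim] at h1'
    have := H.big
    have : 2 ≤ Fintype.card F ^ 3 := le_trans (by omega) (Nat.le_self_pow (by norm_num) _)
    omega

end Cfsg.Agent.G2Deg
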