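import Cfsg.Agent.G2Deg.SphWord

/-!
# `q ≡ 1 (mod 3)`: counting excludes the degree `q³`
-/

set_option autoImplicit false
set_option linter.unusedSectionVars false

namespace Cfsg.Agent.G2Deg

open Cfsg.Lie Cfsg.Agent.ChevGrp Cfsg.Agent.G2Inv
open Module (finrank)

/-- A word along which the recursion applies. -/
def okWord : List (Fin chevG2.rank) → Bool
  | [] => true
  | i :: w => okWord w && (i == i0 || parRoots.contains (act chevG2 w.reverse 6))

theorem wordData : (∀ v ∈ reps, okWord v = true ∧ okWord v.reverse = true) ∧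
    (reps.map fun v => (invCount chevG2 v, v.count i1)) =
      [(0, 0), (1, 0), (1, 1), (2, 1), (2, 1), (3, 1), (3, 2), (4, 2), (4, 2), (5, 2), (5, 3), (6, 3)] := by
  decide +kernel

theorem rank_cases : ∀ j : Fin chevG2.rank, j = i0 ∨ j = i1 := by decide +kernel

variable {F : Type*} [Field F] [Fintype F] [DecidableEq F] {V : Type*} [AddCommGroup V] [Module ℂ V]
  [FiniteDimensional ℂ V] {ψ : AddChar F ℂ} (hψ : ψ ≠ 1) (ρ : Representation ℂ (Gam F) V)
  (H : SphHyp hψ ρ)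

include hψ H in
theorem SphHyp.sph_word : ∀ v : List (Fin chevG2.rank), okWord v = true →
    sph hψ ρ ((gs F).nW v) = sph hψ ρ (nb F) ^ v.count i1
  | [], _ => by rw [Sys.nW_nil, H.sph_one hψ ρ]; simp
  | i :: w, h => by
    rw [okWord, Bool.and_eq_true, Bool.or_eq_true] at h
    have ih := SphHyp.sph_word w h.1
    rw [Sys.nW_cons]
    by_cases hi : i = i0
    · subst hi
      rw [H.sph_left hψ ρ (H.na_mem hψ ρ), ih, List.count_cons_of_ne (by decide)]
    · have hi1 : i = i1 := (rank_cases i).resolve_left hi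
      have hs : parRoots.contains (act chevG2 w.reverse 6) = true := h.2.resolve_left (by simp [hi])
      subst hi1
      rw [H.sph_nb hψ ρ ?_, ih, List.count_cons_self, pow_succ']
      intro t
      obtain ⟨len, hR⟩ := (G2Inv.rules F).root
      obtain ⟨c, hc⟩ := exists_conjP (((gs F).conjP_nW (G2Inv.rules F) hR w).inv hR) 6 (by decide)
      have e := hc t
      rw [inv_inv, mul_assoc, inv_mul_eq_iff_eq_mul] at e
      rw [← mul_assoc, ← map_mul, e, map_mul, mul_assoc,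
        (H.X_mem hψ ρ (by simpa using hs) _).1]

include hψ H in
theorem SphHyp.sph_cell {b u : Gam F} {v : List (Fin chevG2.rank)} (hb : b ∈ (gs F).Bbar)
    (hu : u ∈ (gs F).Bbar) (hv : v ∈ reps) :
    sph hψ ρ (b * (gs F).nW v * u) = sph hψ ρ (nb F) ^ v.count i1 ∧
      sph hψ ρ (b * (gs F).nW v * u)⁻¹ = sph hψ ρ (nb F) ^ v.count i1 := by
  obtain ⟨len, hR⟩ := (G2Inv.rules F).root
  refine ⟨?_, ?_⟩
  · rw [H.sph_right hψ ρ (H.Bbar_mem hψ ρ hu), H.sph_left hψ ρ (H.Bbar_mem hψ ρ hb),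
      H.sph_word hψ ρ v (wordData.1 v hv).1]
  · have hk := (gs F).nW_reverse_mem (G2Inv.rules F) hR v
    have e : (b * (gs F).nW v * u)⁻¹ =
        u⁻¹ * ((gs F).nW v.reverse * ((gs F).nW v * (gs F).nW v.reverse)⁻¹ * b⁻¹) := by
      simp [mul_assoc]
    rw [e, H.sph_left hψ ρ (H.Bbar_mem hψ ρ (inv_mem hu)), mul_assoc,
      H.sph_right hψ ρ (mul_mem (H.Hbar_mem hψ ρ (inv_mem hk)) (H.Bbar_mem hψ ρ (inv_mem hb))),
      H.sph_word hψ ρ v.reverse (wordData.1 v hv).2, List.count_reverse]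

theorem card_Bbar_le : Nat.card ↥((gs F).Bbar) ≤ Fintype.card F ^ 6 * (Fintype.card F - 1) ^ 2 := by
  classical
  obtain ⟨len, hR⟩ := (G2Inv.rules F).root
  have hU : Nat.card ↥((gs F).Ubar) = Fintype.card F ^ 6 := by
    rw [Sys.Ubar, (gs F).card_US hR (hR.posSet_closed), Nat.card_eq_fintype_card, Nat.card_coe_set_eq]
    congr 1
    have : posSet chevG2 = ↑((Finset.range 12).filter fun r => chevG2.IsPosRoot r) := by
      ext r
      simp only [posSet, Set.mem_ofPred_eq, Finset.coe_filter, Finset.mem_range]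
      exact ⟨fun h => ⟨h.1, h⟩, fun h => h.2⟩
    rw [this, Set.ncard_coe_finset]
    decide +kernel
  have hH : Nat.card ↥((gs F).Hbar) ≤ (Fintype.card F - 1) ^ 2 := by
    refine le_trans (Nat.card_le_card_of_surjective
      (fun p : Fˣ × Fˣ => (⟨tor p.1 p.2, tor_mem p.1 p.2⟩ : ↥((gs F).Hbar))) fun h => ?_) (le_of_eq ?_)
    · obtain ⟨u, v, e⟩ := exists_tor h.2
      exact ⟨(u, v), Subtype.ext e.symm⟩
    · rw [Nat.card_prod, Nat.card_eq_fintype_card, Fintype.card_units, pow_two]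
  have hB : Nat.card ↥((gs F).Bbar) ≤ Nat.card ↥((gs F).Ubar) * Nat.card ↥((gs F).Hbar) := by
    rw [← Nat.card_prod]
    refine Nat.card_le_card_of_surjective
      (fun p : ↥((gs F).Ubar) × ↥((gs F).Hbar) => (⟨p.1.1 * p.2.1, mul_mem ((gs F).Ubar_le_Bbar p.1.2)
        ((gs F).Hbar_le_Bbar p.2.2)⟩ : ↥((gs F).Bbar))) fun b => ?_
    obtain ⟨u, hu, h, hh, e⟩ := ((gs F).mem_Bbar (G2Inv.rules F) hR).1 b.2
    exact ⟨(⟨u, hu⟩, ⟨h, hh⟩), Subtype.ext e.symm⟩
  calc Nat.card ↥((gs F).Bbar) ≤ Nat.card ↥((gs F).Ubar) * Nat.card ↥((gs F).Hbar) := hB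
    _ ≤ _ := by rw [hU]; exact Nat.mul_le_mul_left _ hH

include hψ H in
/-- There is no representation of degree `q³`. -/
theorem SphHyp.false [ρ.IsIrreducible] : False := by
  classical
  obtain ⟨len, hR⟩ := (G2Inv.rules F).root
  letI : Fintype (Gam F) := Fintype.ofFinite _
  set E := (R4 ρ ψ hψ).E ψ 0 with hE
  obtain ⟨c, hc, hcd⟩ := exists_schur ρ E
  have hsum : c = ∑ g : Gam F, sph hψ ρ g * sph hψ ρ g⁻¹ := by
    refine H.eq_of_smul hψ ρ ?_
    have h := congrArg (fun T => E * T * E) hc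
    simp only [mul_smul_comm, smul_mul_assoc, mul_one] at h
    rw [Finset.mul_sum, Finset.sum_mul, show E * E = E from H.idem hψ ρ] at h
    rw [← hE, ← h, Finset.sum_smul]
    refine Finset.sum_congr rfl fun g _ => ?_
    rw [show E * (ρ g * E * ρ g⁻¹) * E = E * ρ g * (E * ρ g⁻¹ * E) by simp only [mul_assoc],
      H.sandwich hψ ρ, mul_smul_comm, H.sandwich hψ ρ, smul_smul, mul_comm (sph hψ ρ g⁻¹)]
  have hl := H.nb_value hψ ρ
  set q := Fintype.card F with hq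
  have hq0 : (q : ℂ) ≠ 0 := Nat.cast_ne_zero.2 Fintype.card_ne_zero
  letI : Fintype ↥((gs F).Bbar) := Fintype.ofFinite _
  letI : ∀ i : Fin reps.length, Fintype ↥((gs F).US (invSet chevG2 reps[i.1])) := fun i => Fintype.ofFinite _
  let ι := Σ i : Fin reps.length, ↥((gs F).Bbar) × ↥((gs F).US (invSet chevG2 reps[i.1]))
  have hdec : ∀ g : Gam F, ∃ p : ι, g = p.2.1.1 * (gs F).nW reps[p.1.1] * p.2.2.1 := fun g => by
    have hg : g ∈ (gs F).Gbar := by rw [ChevSteinberg.Gbar_grpSys]; exact Subgroup.mem_top g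
    obtain ⟨b, hb, w, -, u, hu, e⟩ := (gs F).mem_NF (G2Inv.rules F) hR hg
    obtain ⟨v, hv, hact⟩ := exists_rep w
    obtain ⟨i, hi, rfl⟩ := List.getElem_of_mem hv
    obtain ⟨k, hk, ek⟩ := (gs F).nW_congr (G2Inv.rules F) hR (v := w) (w := reps[i]) hact
    refine ⟨⟨⟨i, hi⟩, ⟨b * k, mul_mem hb ((gs F).Hbar_le_Bbar hk)⟩, ⟨u, ?_⟩⟩, ?_⟩
    · show u ∈ (gs F).US (invSet chevG2 reps[i])
      rw [← invSet_congr chevG2 hact]
      exact hu
    · show g = b * k * (gs F).nW reps[i] * u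
      rw [e, ek, mul_assoc b k]
  choose σ hσ using hdec
  have hσinj : Function.Injective σ := fun g g' e => by rw [hσ g, hσ g', e]
  let w : ι → ℝ := fun p => ((q : ℝ)⁻¹) ^ (2 * (reps[p.1.1]).count i1)
  have hval : ∀ g, sph hψ ρ g * sph hψ ρ g⁻¹ = ((w (σ g) : ℝ) : ℂ) := fun g => by
    obtain ⟨h1, h2⟩ := H.sph_cell hψ ρ (σ g).2.1.2
      ((gs F).Ubar_le_Bbar ((gs F).US_mono (fun r h => h.1) (σ g).2.2.2)) (List.getElem_mem (σ g).1.2)
    rw [← hσ g] at h1 h2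
    have hl' : sph hψ ρ (nb F) = -(q : ℂ)⁻¹ := by
      field_simp
      linear_combination hl
    rw [h1, h2, ← pow_add, hl', ← two_mul, pow_mul, neg_pow_two, ← pow_mul]
    simp [w]
  have hle : (∑ g : Gam F, w (σ g)) ≤ ∑ p : ι, w p := by
    rw [← Finset.sum_image (f := w) fun a _ b _ e => hσinj e]
    exact Finset.sum_le_sum_of_subset_of_nonneg (Finset.subset_univ _) fun p _ _ => by positivity
  have hwt : (∑ p : ι, w p) = (Nat.card ↥((gs F).Bbar) : ℝ) * (6 + 3 * q + 3 * (q : ℝ)⁻¹) := by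
    rw [Fintype.sum_sigma]
    have hfib : ∀ i : Fin reps.length, (∑ y, w ⟨i, y⟩) =
        (Nat.card ↥((gs F).Bbar) : ℝ) * ((q : ℝ) ^ invCount chevG2 reps[i.1] * ((q : ℝ)⁻¹) ^
          (2 * (reps[i.1]).count i1)) := fun i => by
      refine (Finset.sum_const (((q : ℝ)⁻¹) ^ (2 * (reps[i.1]).count i1))).trans ?_
      rw [Finset.card_univ, nsmul_eq_mul, ← Nat.card_eq_fintype_card, Nat.card_prod, (gs F).card_US hR (hR.inv_closed _), card_invSet,
        Nat.card_eq_fintype_card (α := F)]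
      push_cast
      ring
    rw [Finset.sum_congr rfl fun i _ => hfib i, ← Finset.mul_sum]
    congr 1
    let g : ℕ × ℕ → ℝ := fun e => (q : ℝ) ^ e.1 * ((q : ℝ)⁻¹) ^ (2 * e.2)
    have hq0' : (q : ℝ) ≠ 0 := Nat.cast_ne_zero.2 Fintype.card_ne_zero
    rw [show (∑ i : Fin reps.length, (q : ℝ) ^ invCount chevG2 reps[i.1] * ((q : ℝ)⁻¹) ^
        (2 * (reps[i.1]).count i1)) = ((reps.map fun v => (invCount chevG2 v, v.count i1)).map g).sum from by
      rw [List.map_map]; exact Fin.sum_univ_fun_getElem reps (g ∘ fun v => (invCount chevG2 v, v.count i1)),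
      wordData.2]
    simp [g]
    field_simp
    ring
  have hord := S1059.result (F := F) hq.symm
  rw [Nat.card_eq_fintype_card] at hord
  have hcd' : (∑ g : Gam F, w (σ g)) * (q : ℝ) ^ 3 = (Fintype.card (Gam F) : ℝ) := by
    apply Complex.ofReal_injective
    push_cast
    rw [← Finset.sum_congr rfl fun g _ => hval g, ← hsum]
    rw [H.dim, (R4 ρ ψ hψ).trace_E ψ hψ, show (R4 ρ ψ hψ).M ψ 0 = 1 from H.zero] at hcd
    push_cast at hcd ⊢
    linear_combination hcd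
  have hB : (Nat.card ↥((gs F).Bbar) : ℝ) ≤ ((q ^ 6 * (q - 1) ^ 2 : ℕ) : ℝ) := by
    exact_mod_cast card_Bbar_le (F := F)
  have h5 : (5 : ℝ) ≤ q := by exact_mod_cast H.big
  have hq1 : 1 ≤ q := by have := H.big; omega
  rw [hord] at hcd'
  push_cast [Nat.cast_sub hq1, Nat.cast_sub (Nat.one_le_pow 2 q hq1), Nat.cast_sub (Nat.one_le_pow 6 q hq1)]
    at hcd' hB
  have hpos : 0 ≤ 6 + 3 * (q : ℝ) + 3 * (q : ℝ)⁻¹ := by positivity
  have h1 : (q : ℝ) ^ 6 * ((q : ℝ) ^ 2 - 1) * ((q : ℝ) ^ 6 - 1) ≤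
      (q : ℝ) ^ 6 * ((q : ℝ) - 1) ^ 2 * (6 + 3 * q + 3 * (q : ℝ)⁻¹) * (q : ℝ) ^ 3 := by
    rw [← hcd']
    refine mul_le_mul_of_nonneg_right ?_ (by positivity)
    exact (hle.trans hwt.le).trans (mul_le_mul_of_nonneg_right hB hpos)
  have h2 : (q : ℝ) ^ 6 * ((q : ℝ) - 1) ^ 2 * (6 + 3 * q + 3 * (q : ℝ)⁻¹) * (q : ℝ) ^ 3 =
      (q : ℝ) ^ 6 * ((q : ℝ) ^ 2 - 1) * ((q : ℝ) ^ 2 - 1) * (3 * (q : ℝ) ^ 2) := by
    field_simp
    ring
  have h3 : (q : ℝ) ^ 6 * ((q : ℝ) ^ 2 - 1) * ((q : ℝ) ^ 6 - 1) =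
      (q : ℝ) ^ 6 * ((q : ℝ) ^ 2 - 1) * ((q : ℝ) ^ 2 - 1) * ((q : ℝ) ^ 4 + (q : ℝ) ^ 2 + 1) := by ring
  rw [h2, h3] at h1
  have hq2 : 0 < (q : ℝ) ^ 2 - 1 := by nlinarith
  have h4 := le_of_mul_le_mul_left h1 (by positivity)
  nlinarith

end Cfsg.Agent.G2Deg
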