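import Cfsg.Agent.G2Deg.Sph

/-!
# The spherical function of a representation of degree `q³` on the Bruhat cells
-/

set_option autoImplicit false
set_option linter.unusedSectionVars false

namespace Cfsg.Agent.G2Deg

open Cfsg.Lie Cfsg.Agent.ChevGrp Cfsg.Agent.G2Inv
open Module (finrank)

variable {F : Type*} [Field F] [Fintype F] [DecidableEq F] {V : Type*} [AddCommGroup V] [Module ℂ V]
  [FiniteDimensional ℂ V] {ψ : AddChar F ℂ} (hψ : ψ ≠ 1) (ρ : Representation ℂ (Gam F) V)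
  (H : SphHyp hψ ρ)

include hψ H in
theorem SphHyp.nb_value [ρ.IsIrreducible] : (Fintype.card F : ℂ) * sph hψ ρ (nb F) = -1 := by
  by_contra hne
  refine H.fix_all hψ ρ ?_
  obtain ⟨c10, hc10⟩ := exists_nb (F := F) 10 11 (by decide)
  obtain ⟨c11, hc11⟩ := exists_nb (F := F) 11 10 (by decide)
  have habs : ∀ {g : Gam F}, g ∈ fixE hψ ρ → ρ g * (R4 ρ ψ hψ).E ψ 0 = (R4 ρ ψ hψ).E ψ 0 := fun hg => hg.1
  let g : F → Module.End ℂ V := fun r => ρ (X 6 r * nb F) * (R4 ρ ψ hψ).E ψ 0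
  obtain ⟨S, hS⟩ : ∃ S, S = (R4 ρ ψ hψ).E ψ 0 + ∑ r, g r := ⟨_, rfl⟩
  have h6 : ∀ t, ρ (X 6 t) * S = S := fun t => by
    rw [hS, mul_add, habs (H.X_mem hψ ρ (by decide) t), Finset.mul_sum]
    congr 1
    refine Fintype.sum_equiv (Equiv.addLeft t) _ _ fun r => ?_
    show ρ (X 6 t) * (ρ (X 6 r * nb F) * _) = ρ (X 6 (t + r) * nb F) * _
    rw [← X_add (by decide), map_mul, map_mul, map_mul]
    simp only [mul_assoc]
  have h11 : ∀ a, ρ (X 11 a) * S = S := fun a => by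
    rw [hS, mul_add, habs (H.X_mem hψ ρ (by decide) a), Finset.mul_sum]
    congr 1
    refine Finset.sum_congr rfl fun r _ => ?_
    show ρ (X 11 a) * (ρ (X 6 r * nb F) * _) = ρ (X 6 r * nb F) * _
    have e := hc10 (((c10⁻¹ : Fˣ) : F) * a)
    rw [Units.mul_inv_cancel_left, mul_inv_eq_iff_eq_mul] at e
    rw [← mul_assoc, ← map_mul, ← mul_assoc (X 11 a),
      (commX (by decide) r a : Commute (X 6 r) (X 11 a)).symm.eq, mul_assoc (X 6 r), ← e, ← mul_assoc (X 6 r),
      map_mul, mul_assoc, habs (H.X_mem hψ ρ (by decide) _)]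
  have h10 : ∀ b, ρ (X 10 b) * S = S := fun b => by
    rw [hS, mul_add, habs (H.X_mem hψ ρ (by decide) b), Finset.mul_sum]
    congr 1
    refine Finset.sum_congr rfl fun r _ => ?_
    show ρ (X 10 b) * (ρ (X 6 r * nb F) * _) = ρ (X 6 r * nb F) * _
    have e10 := hc11 (((c11⁻¹ : Fˣ) : F) * b)
    rw [Units.mul_inv_cancel_left, mul_inv_eq_iff_eq_mul] at e10
    have e11 := hc10 (((c10⁻¹ : Fˣ) : F) * -(r * b))
    rw [Units.mul_inv_cancel_left, mul_inv_eq_iff_eq_mul] at e11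
    have e := cj106 b r
    rw [mul_inv_eq_iff_eq_mul] at e
    rw [← mul_assoc, ← map_mul, ← mul_assoc (X 10 b), e, mul_assoc (X 6 r * X 11 _), ← e10,
      ← mul_assoc (X 6 r * X 11 _), mul_assoc (X 6 r), ← e11, ← mul_assoc (X 6 r), mul_assoc, map_mul, map_mul,
      map_mul, mul_assoc, ← map_mul ρ (X 10 _), habs (mul_mem (H.X_mem hψ ρ (by decide) _) (H.X_mem hψ ρ (by decide) _))]
  have hE00 : (A2 ρ 3).E ψ 0 * S = S := by
    rw [Act.E, smul_mul_assoc, Finset.sum_mul]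
    rw [Finset.sum_congr rfl fun a _ => show ψ (-dot 0 a) • (A2 ρ 3).R a * S = S by
      show ψ (-dot 0 a) • ρ (X 11 (a 0) * X (L4 3) (a 1)) * S = S
      rw [map_mul, smul_mul_assoc, mul_assoc, show L4 3 = 10 from rfl, h10, h11]
      simp [dot]]
    rw [Finset.sum_const, Finset.card_univ, ← Nat.cast_smul_eq_nsmul ℂ, smul_smul,
      inv_mul_cancel₀ (Nat.cast_ne_zero.2 Fintype.card_ne_zero), one_smul]
  obtain ⟨s, hs⟩ : ∃ s : F, ψ s ≠ 1 := by
    by_contra hall
    simp only [not_exists, not_not] at hall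
    exact hψ (DFunLike.ext _ _ fun t => by rw [hall t]; rfl)
  have hES : S = (R4 ρ ψ hψ).E ψ 0 * S := by
    conv_lhs => rw [← hE00, show (0 : Fin 2 → F) = ![0, 0] by funext j; fin_cases j <;> rfl, marg4E hψ ρ 3 0,
      Finset.sum_mul]
    refine Finset.sum_eq_single (0 : Fin 4 → F) (fun x hx hne => ?_) (by simp)
    simp only [Finset.mem_filter, Finset.mem_univ, true_and] at hx
    by_cases h0 : x 0 = 0
    · have h12 : x 1 ≠ 0 ∨ x 2 ≠ 0 := by
        by_contra hb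
        simp only [not_or, not_not] at hb
        exact hne (by funext j; fin_cases j <;> simp [h0, hb.1, hb.2, hx])
      rw [Act.E_eq_zero (H.none x hx h12), zero_mul]
    · have key : (R4 ρ ψ hψ).E ψ x * S = ψ s • ((R4 ρ ψ hψ).E ψ x * S) := by
        have hcm : Commute (ρ (X 6 (s / x 0))) ((R4 ρ ψ hψ).E ψ x) := comm_X_E4 hψ ρ x 0 _
        conv_lhs => rw [← h6 (s / x 0), ← mul_assoc, ← hcm.eq]
        rw [show ρ (X 6 (s / x 0)) * (R4 ρ ψ hψ).E ψ x = _ from X_E4 hψ ρ x 0 (s / x 0), smul_mul_assoc,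
          mul_div_cancel₀ s h0]
      have h' : (ψ s - 1) • ((R4 ρ ψ hψ).E ψ x * S) = 0 := by rw [sub_smul, ← key, one_smul, sub_self]
      exact (smul_eq_zero.1 h').resolve_left (sub_ne_zero.2 hs)
  have hSc : S = (1 + (Fintype.card F : ℂ) * sph hψ ρ (nb F)) • (R4 ρ ψ hψ).E ψ 0 := by
    rw [hES, hS, mul_add, H.idem hψ ρ, Finset.mul_sum, add_smul, one_smul]
    congr 1
    rw [Finset.sum_congr rfl fun r _ => show (R4 ρ ψ hψ).E ψ 0 * g r = sph hψ ρ (nb F) • (R4 ρ ψ hψ).E ψ 0 by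
      show (R4 ρ ψ hψ).E ψ 0 * (ρ (X 6 r * nb F) * (R4 ρ ψ hψ).E ψ 0) = _
      rw [← mul_assoc, H.sandwich hψ ρ, H.sph_left hψ ρ (H.X_mem hψ ρ (by decide) r)],
      Finset.sum_const, Finset.card_univ, ← Nat.cast_smul_eq_nsmul ℂ, smul_smul]
  -- the involution
  obtain ⟨len, hR⟩ := (G2Inv.rules F).root
  have hnn : nb F * nb F ∈ fixE hψ ρ := H.Hbar_mem hψ ρ ((gs F).nI_sq_mem hR i1)
  let f : F → Module.End ℂ V := fun r => ρ (nb F * X 6 r * nb F) * (R4 ρ ψ hψ).E ψ 0
  have hf0 : f 0 = (R4 ρ ψ hψ).E ψ 0 := by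
    show ρ (nb F * X 6 0 * nb F) * _ = _
    rw [X_zero (by decide), mul_one, hnn.1]
  have hg0 : g 0 = ρ (nb F) * (R4 ρ ψ hψ).E ψ 0 := by
    show ρ (X 6 0 * nb F) * _ = _
    rw [X_zero (by decide), one_mul]
  have hfr : ∀ r, r ≠ 0 → f r = g (-r⁻¹) := fun r hr => by
    obtain ⟨r', r'', rfl, h, hh, e⟩ := nb_word hr
    show ρ (nb F * X 6 r * nb F) * _ = ρ (X 6 (-r⁻¹) * nb F) * _
    obtain ⟨u, v, rfl⟩ := exists_tor hh
    have e2 : tor u v * nb F = nb F * tor (u * v) v⁻¹ := by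
      have h := nb_tor (u * v) v⁻¹
      rw [inv_inv, mul_inv_cancel_right, mul_inv_eq_iff_eq_mul] at h
      exact h.symm
    rw [e, mul_assoc (X 6 _) (tor u v), e2, ← mul_assoc, map_mul, mul_assoc, habs (H.X_mem hψ ρ (by decide) _),
      map_mul, mul_assoc, habs (H.Hbar_mem hψ ρ (tor_mem _ _))]
  have hnb : ρ (nb F) * S = S := by
    rw [hS, mul_add, Finset.mul_sum, Finset.sum_congr rfl fun r _ => show ρ (nb F) * g r = f r by
      show ρ (nb F) * (ρ (X 6 r * nb F) * _) = ρ (nb F * X 6 r * nb F) * _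
      rw [← mul_assoc, ← map_mul, mul_assoc],
      ← Finset.add_sum_erase _ f (Finset.mem_univ 0), ← Finset.add_sum_erase _ g (Finset.mem_univ 0), hf0, hg0,
      Finset.sum_nbij' (t := Finset.univ.erase 0) (g := g) (fun r => -r⁻¹) (fun r => -r⁻¹) (fun a ha => by
        simpa using ha) (fun a ha => by simpa using ha) (fun a _ => by simp [inv_neg]) (fun a _ => by simp [inv_neg])
        fun r hr => hfr r (Finset.ne_of_mem_erase hr)]
    abel
  have hc : (1 + (Fintype.card F : ℂ) * sph hψ ρ (nb F)) ≠ 0 := fun e => hne (by linear_combination e)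
  rw [hSc, mul_smul_comm] at hnb
  exact smul_right_injective _ hc hnb

/-- The roots whose groups form the radical of the other parabolic subgroup. -/
def radRoots : Set ℕ := {7, 8, 9, 10, 11}

/-- The radical of the other parabolic subgroup. -/
noncomputable abbrev radB (F : Type*) [Field F] : Subgroup (Gam F) := (gs F).US radRoots

theorem X_radB {r : ℕ} (hr : r ∈ radRoots) (t : F) : X r t ∈ radB F :=
  (gs F).x_mem_US hr t

theorem conj_radB {g : Gam F} (h : ∀ r ∈ radRoots, ∀ t, g * X r t * g⁻¹ ∈ radB F) :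
    ∀ k ∈ radB F, g * k * g⁻¹ ∈ radB F := by
  have : radB F ≤ (radB F).comap (MulAut.conj g).toMonoidHom := by
    refine (Subgroup.closure_le _).2 ?_
    rintro x ⟨r, hr, t, rfl⟩
    exact h r hr t
  exact fun k hk => this hk

theorem nb_radB : ∀ k ∈ radB F, nb F * k * (nb F)⁻¹ ∈ radB F := by
  refine conj_radB fun r hr t => ?_
  simp [radRoots] at hr
  rcases hr with rfl | rfl | rfl | rfl | rfl
  · obtain ⟨c, hc⟩ := exists_nb (F := F) 7 8 (by decide)
    rw [hc]; exact X_radB (by simp [radRoots]) _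
  · obtain ⟨c, hc⟩ := exists_nb (F := F) 8 7 (by decide)
    rw [hc]; exact X_radB (by simp [radRoots]) _
  · obtain ⟨c, hc⟩ := exists_nb (F := F) 9 9 (by decide)
    rw [hc]; exact X_radB (by simp [radRoots]) _
  · obtain ⟨c, hc⟩ := exists_nb (F := F) 10 11 (by decide)
    rw [hc]; exact X_radB (by simp [radRoots]) _
  · obtain ⟨c, hc⟩ := exists_nb (F := F) 11 10 (by decide)
    rw [hc]; exact X_radB (by simp [radRoots]) _

theorem six_radB (s : F) : ∀ k ∈ radB F, X 6 s * k * (X 6 s)⁻¹ ∈ radB F := by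
  refine conj_radB fun r hr t => ?_
  simp [radRoots] at hr
  rcases hr with rfl | rfl | rfl | rfl | rfl
  · rw [cj67]
    exact mul_mem (mul_mem (mul_mem (mul_mem (X_radB (by simp [radRoots]) _) (X_radB (by simp [radRoots]) _))
      (X_radB (by simp [radRoots]) _)) (X_radB (by simp [radRoots]) _)) (X_radB (by simp [radRoots]) _)
  · rw [(commX (by decide) s t : Commute (X 6 s) (X 8 t)).eq, mul_inv_cancel_right]
    exact X_radB (by simp [radRoots]) _
  · rw [(commX (by decide) s t : Commute (X 6 s) (X 9 t)).eq, mul_inv_cancel_right]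
    exact X_radB (by simp [radRoots]) _
  · rw [cj610]
    exact mul_mem (X_radB (by simp [radRoots]) _) (X_radB (by simp [radRoots]) _)
  · rw [(commX (by decide) s t : Commute (X 6 s) (X 11 t)).eq, mul_inv_cancel_right]
    exact X_radB (by simp [radRoots]) _

include hψ H in
/-- The step at the second fundamental element. -/
theorem SphHyp.sph_nb {g : Gam F}
    (hg : ∀ t, ρ (X 6 t) * (ρ g * (R4 ρ ψ hψ).E ψ 0) = ρ g * (R4 ρ ψ hψ).E ψ 0) :
    sph hψ ρ (nb F * g) = sph hψ ρ (nb F) * sph hψ ρ g := by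
  classical
  letI : Fintype (radB F) := Fintype.ofFinite _
  have hEK : (R4 ρ ψ hψ).E ψ 0 * av ρ (radB F) = (R4 ρ ψ hψ).E ψ 0 := by
    refine av_absorb ρ (radB F) fun k hk => ?_
    refine ((show radB F ≤ fixE hψ ρ from (Subgroup.closure_le _).2 ?_) hk).2
    rintro x ⟨r, hr, t, rfl⟩
    refine H.X_mem hψ ρ ?_ t
    simp [radRoots] at hr
    simp [parRoots]
    omega
  set E := (R4 ρ ψ hψ).E ψ 0 with hE
  set Y := ρ g * E with hY
  set Z := av ρ (radB F) * Y with hZ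
  have hfix : ∀ r, r ∈ radRoots → ∀ t, ρ (X r t) * Z = Z := fun r hr t => by
    rw [hZ, ← mul_assoc, rho_av ρ _ (X_radB hr t)]
  have h6 : ∀ t, ρ (X 6 t) * Z = Z := fun t => by
    rw [hZ, ← mul_assoc, (av_comm ρ _ (six_radB t)).eq, mul_assoc, hg]
  have hL : ∀ i t, ρ (X (L4 i) t) * Z = Z := fun i t => by
    fin_cases i
    · exact h6 t
    · exact hfix 8 (by simp [radRoots]) t
    · exact hfix 9 (by simp [radRoots]) t
    · exact hfix 10 (by simp [radRoots]) t
  have hP0 : P0 ρ ψ * Z = Z := by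
    rw [P0_def, smul_mul_assoc, Finset.sum_mul, Finset.sum_congr rfl fun t _ => hfix 11 (by simp [radRoots]) t,
      Finset.sum_const, Finset.card_univ, ← Nat.cast_smul_eq_nsmul ℂ, smul_smul]
    rw [show Fintype.card (Fin 1 → F) = Fintype.card F by simp, inv_mul_cancel₀ (Nat.cast_ne_zero.2 Fintype.card_ne_zero),
      one_smul]
  have hEZ : E * Z = Z := by
    rw [hE, Act.E, smul_mul_assoc, Finset.sum_mul, Finset.sum_congr rfl fun a _ =>
      show ψ (-dot 0 a) • (R4 ρ ψ hψ).R a * Z = Z by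
        show ψ (-dot 0 a) • (ρ (lift4 a) * P0 ρ ψ) * Z = Z
        rw [smul_mul_assoc, mul_assoc, hP0, lift4, map_mul, map_mul, map_mul, mul_assoc, mul_assoc, mul_assoc,
          show ρ (X 10 (a 3)) * Z = Z from hL 3 _, show ρ (X 9 (a 2)) * Z = Z from hL 2 _,
          show ρ (X 8 (a 1)) * Z = Z from hL 1 _, h6]
        simp [dot],
      Finset.sum_const, Finset.card_univ, ← Nat.cast_smul_eq_nsmul ℂ, smul_smul,
      inv_mul_cancel₀ (Nat.cast_ne_zero.2 Fintype.card_ne_zero), one_smul]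
  have hZEY : Z = E * Y := by
    rw [← hEZ, hZ, ← mul_assoc, hEK]
  refine H.eq_of_smul hψ ρ ?_
  rw [← H.sandwich hψ ρ, ← smul_smul]
  calc E * ρ (nb F * g) * E = E * av ρ (radB F) * ρ (nb F) * Y := by
        rw [hEK, map_mul, hY]; simp only [mul_assoc]
    _ = E * ρ (nb F) * Z := by
        rw [hZ, mul_assoc E, ← (av_comm ρ _ nb_radB).eq]; simp only [mul_assoc]
    _ = E * ρ (nb F) * (sph hψ ρ g • E) := by
        rw [hZEY, hY, ← mul_assoc E (ρ g), H.sandwich hψ ρ]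
    _ = _ := by rw [mul_smul_comm, H.sandwich hψ ρ, smul_comm]

end Cfsg.Agent.G2Deg
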