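import Cfsg.Agent.G2Deg.Ops

/-!
# Characteristic three: the abelian subgroup on the roots 11, 10, 9, 8
-/

set_option autoImplicit false
set_option linter.unusedSectionVars false

namespace Cfsg.Agent.G2Deg

open Cfsg.Lie Cfsg.Agent.ChevGrp
open Module (finrank)

variable {F : Type*} [Field F] [Fintype F] [DecidableEq F] {V : Type*} [AddCommGroup V] [Module ℂ V]
  [FiniteDimensional ℂ V] {ψ : AddChar F ℂ} (hψ : ψ ≠ 1) (ρ : Representation ℂ (Gam F) V) (h3 : (3 : F) = 0)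

include h3 in
theorem comm89 (t u : F) : Commute (X 8 t) (X 9 u) := by
  have e := cj89 t u
  rw [h3, zero_mul, zero_mul, X_zero (by decide), mul_one, mul_inv_eq_iff_eq_mul] at e
  exact e

include h3 in
theorem comm79 (t u : F) : Commute (X 7 t) (X 9 u) := by
  have e := cj79 t u
  rw [h3, zero_mul, zero_mul, X_zero (by decide), mul_one, mul_inv_eq_iff_eq_mul] at e
  exact e

/-- The roots of the abelian subgroup. -/
def LA : Fin 4 → ℕ := ![11, 10, 9, 8]

/-- The abelian subgroup on the roots 11, 10, 9, 8. -/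
noncomputable def A4 : Act F 4 V where
  R a := (A3 ρ).R ![a 0, a 1, a 2] * ρ (X 8 (a 3))
  mul a b := by
    have hc : Commute (ρ (X 8 (a 3))) ((A3 ρ).R ![b 0, b 1, b 2]) :=
      (((commX (by decide) _ _ : Commute (X 8 (a 3)) (X 11 (b 0))).mul_right
        (commX (by decide) _ _ : Commute (X 8 (a 3)) (X 10 (b 1)))).mul_right (comm89 h3 _ _)).map ρ
    rw [hc.mul_mul_mul_comm, (A3 ρ).mul, ← map_mul, X_add (by decide), Matrix.cons_add_cons,
      Matrix.cons_add_cons, Matrix.cons_add_cons, Matrix.empty_add_empty]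
    rfl

theorem A4_apply (a : Fin 4 → F) :
    (A4 ρ h3).R a = ρ (X 11 (a 0) * X 10 (a 1) * X 9 (a 2) * X 8 (a 3)) := by
  show ρ (X 11 (a 0) * X 10 (a 1) * X 9 (a 2)) * ρ (X 8 (a 3)) = _
  rw [← map_mul]

theorem A4_single (i : Fin 4) (t : F) : (A4 ρ h3).R (Pi.single i t) = ρ (X (LA i) t) := by
  rw [A4_apply]
  congr 1
  fin_cases i <;> simp [LA, X_zero]

theorem A4_R0 : (A4 ρ h3).R 0 = 1 := by
  rw [A4_apply]; simp [X_zero]

include hψ in
/-- An element normalising the subgroup. -/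
theorem A4_conj {g : Gam F} (φ : (Fin 4 → F) ≃ (Fin 4 → F)) (hφ : ∀ a b, φ (a + b) = φ a + φ b)
    (h : ∀ i u, ρ (g * X (LA i) u * g⁻¹) = (A4 ρ h3).R (φ (Pi.single i u)))
    {x y : Fin 4 → F} (hxy : ∀ a, dot y (φ a) = dot x a) : (A4 ρ h3).M ψ y = (A4 ρ h3).M ψ x := by
  refine M_conj ψ hψ (ρ := ρ) g φ (conj_R g φ hφ (by rw [A4_R0, mul_one, one_mul]) fun i u => ?_) hxy
  rw [← h, A4_single, ← map_mul, ← map_mul, inv_mul_cancel_right]

/-- The multiplicities on the subgroup. -/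
noncomputable def MA (ψ : AddChar F ℂ) (z l s r : F) : ℕ := (A4 ρ h3).M ψ ![z, l, s, r]

include hψ in
theorem MA_six (t z l s r : F) : MA ρ h3 ψ z l s r = MA ρ h3 ψ z (l + t * z) s r := by
  let φ : (Fin 4 → F) ≃ (Fin 4 → F) :=
    { toFun := fun a => ![a 0 + t * a 1, a 1, a 2, a 3]
      invFun := fun a => ![a 0 - t * a 1, a 1, a 2, a 3]
      left_inv := fun a => by funext j; fin_cases j <;> simp
      right_inv := fun a => by funext j; fin_cases j <;> simp }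
  refine A4_conj hψ ρ h3 (g := X 6 t) φ (fun a b => ?_) (fun i u => ?_) fun a => ?_
  · funext j; fin_cases j <;> simp [φ]; ring
  · rw [A4_apply]
    congr 1
    fin_cases i
    · show X 6 t * X 11 u * _ = _
      rw [(commX (by decide) t u : Commute (X 6 t) (X 11 u)).eq, mul_inv_cancel_right]
      simp [φ, X_zero]
    · show X 6 t * X 10 u * _ = _
      rw [cj610, (commX (by decide) u (t * u) : Commute (X 10 u) (X 11 (t * u))).eq]
      simp [φ, X_zero]
    · show X 6 t * X 9 u * _ = _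
      rw [(commX (by decide) t u : Commute (X 6 t) (X 9 u)).eq, mul_inv_cancel_right]
      simp [φ, X_zero]
    · show X 6 t * X 8 u * _ = _
      rw [(commX (by decide) t u : Commute (X 6 t) (X 8 u)).eq, mul_inv_cancel_right]
      simp [φ, X_zero]
  · simp [dot, φ, Fin.sum_univ_four]
    ring

include hψ in
theorem MA_seven (t z l s r : F) : MA ρ h3 ψ z l s r = MA ρ h3 ψ z l s (r + t * s) := by
  let φ : (Fin 4 → F) ≃ (Fin 4 → F) :=
    { toFun := fun a => ![a 0, a 1, a 2 + t * a 3, a 3]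
      invFun := fun a => ![a 0, a 1, a 2 - t * a 3, a 3]
      left_inv := fun a => by funext j; fin_cases j <;> simp
      right_inv := fun a => by funext j; fin_cases j <;> simp }
  refine A4_conj hψ ρ h3 (g := X 7 t) φ (fun a b => ?_) (fun i u => ?_) fun a => ?_
  · funext j; fin_cases j <;> simp [φ]; ring
  · rw [A4_apply]
    congr 1
    fin_cases i
    · show X 7 t * X 11 u * _ = _
      rw [(commX (by decide) t u : Commute (X 7 t) (X 11 u)).eq, mul_inv_cancel_right]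
      simp [φ, X_zero]
    · show X 7 t * X 10 u * _ = _
      rw [(commX (by decide) t u : Commute (X 7 t) (X 10 u)).eq, mul_inv_cancel_right]
      simp [φ, X_zero]
    · show X 7 t * X 9 u * _ = _
      rw [(comm79 h3 t u).eq, mul_inv_cancel_right]
      simp [φ, X_zero]
    · show X 7 t * X 8 u * _ = _
      have h2 : -(2 * t * u) = t * u := by linear_combination -(t * u) * h3
      rw [cj78, h3, h2, zero_mul, zero_mul, zero_mul, zero_mul, neg_zero, X_zero (by decide), X_zero (by decide),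
        mul_one, mul_one, (comm89 h3 u (t * u)).eq]
      simp [φ, X_zero]
  · simp [dot, φ, Fin.sum_univ_four]
    ring

/-- The scalars of the torus on the subgroup. -/
def wtA (u v : Fˣ) : Fin 4 → Fˣ := ![u ^ 3 * v ^ 2, u ^ 3 * v, u ^ 2 * v, u * v]

include hψ in
theorem MA_tor (u v : Fˣ) (z l s r : F) : MA ρ h3 ψ z l s r =
    MA ρ h3 ψ ((u : F) ^ 3 * (v : F) ^ 2 * z) ((u : F) ^ 3 * v * l) ((u : F) ^ 2 * v * s) ((u : F) * v * r) := by
  let φ : (Fin 4 → F) ≃ (Fin 4 → F) :=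
    Equiv.piCongrRight fun i => Equiv.mulLeft₀ (wtA u v i : F) (wtA u v i).ne_zero
  refine A4_conj hψ ρ h3 (g := tor u v) φ (fun a b => ?_) (fun i w => ?_) fun a => ?_
  · funext j; simp [φ, mul_add]
  · obtain ⟨-, -, e8, e9, e10, e11, -⟩ := cofData
    rw [A4_apply]
    congr 1
    fin_cases i <;> simp [LA, wtA, φ, tor_conj u v, e8, e9, e10, e11, X_zero, zpow_ofNat]
  · simp [dot, φ, Fin.sum_univ_four, wtA]
    ring

include hψ in
theorem sum_MA : ∑ z, ∑ l, ∑ s, ∑ r, MA ρ h3 ψ z l s r = finrank ℂ V := by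
  have h := (A4 ρ h3).sum_M ψ hψ
  rw [A4_R0, sum4] at h
  rw [show (LinearMap.range (1 : Module.End ℂ V)) = ⊤ from LinearMap.range_id, finrank_top] at h
  exact h

include hψ in
/-- The subgroup on 11, 10, 9 is symmetrical under the second fundamental element. -/
theorem exists_MA_nb : ∃ c0 c1 c2 : Fˣ, ∀ z l s,
    ∑ r, MA ρ h3 ψ z l s r = ∑ r, MA ρ h3 ψ ((c0 : F) * l) ((c1 : F) * z) ((c2 : F) * s) r := by
  have hm : ∀ z l s : F, ∑ r, MA ρ h3 ψ z l s r = (A3 ρ).M ψ ![z, l, s] := fun z l s => by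
    let ι : (Fin 3 → F) → (Fin 4 → F) := fun a => ![a 0, a 1, a 2, 0]
    have hι : ∀ a b, ι (a + b) = ι a + ι b := fun a b => by funext j; fin_cases j <;> simp [ι]
    have hT : ∀ (x : Fin 4 → F) a, dot x (ι a) = dot ![x 0, x 1, x 2] a := fun x a => by
      simp [dot, ι, Fin.sum_univ_three, Fin.sum_univ_four]
    have h := (A4 ρ h3).M_comap ψ hψ ι hι (fun x => ![x 0, x 1, x 2]) hT ![z, l, s]
    rw [Act.M_congr (B := A3 ρ) (fun a => by
      show (A3 ρ).R ![ι a 0, ι a 1, ι a 2] * ρ (X 8 (ι a 3)) = (A3 ρ).R a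
      rw [show ι a 3 = 0 from rfl, X_zero (by decide), map_one, mul_one]
      congr 1
      funext j; fin_cases j <;> rfl)] at h
    rw [h]
    refine Finset.sum_nbij' (fun r => ![z, l, s, r]) (fun x => x 3) (fun r _ => ?_) (fun x _ => Finset.mem_univ _)
      (fun r _ => rfl) (fun x hx => ?_) fun r _ => rfl
    · simp
    · simp only [Finset.mem_filter, Finset.mem_univ, true_and] at hx
      have e := congrFun hx
      funext j
      fin_cases j
      · exact (e 0).symm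
      · exact (e 1).symm
      · exact (e 2).symm
      · rfl
  obtain ⟨d0, h0⟩ := exists_nb (F := F) 11 10 (by decide)
  obtain ⟨d1, h1⟩ := exists_nb (F := F) 10 11 (by decide)
  obtain ⟨d2, h2⟩ := exists_nb (F := F) 9 9 (by decide)
  let φ : (Fin 3 → F) ≃ (Fin 3 → F) :=
    { toFun := fun a => ![(d1 : F) * a 1, (d0 : F) * a 0, (d2 : F) * a 2]
      invFun := fun a => ![((d0⁻¹ : Fˣ) : F) * a 1, ((d1⁻¹ : Fˣ) : F) * a 0, ((d2⁻¹ : Fˣ) : F) * a 2]
      left_inv := fun a => by funext j; fin_cases j <;> simp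
      right_inv := fun a => by funext j; fin_cases j <;> simp }
  refine ⟨d1⁻¹, d0⁻¹, d2⁻¹, fun z l s => ?_⟩
  rw [hm, hm]
  refine (M_conj ψ hψ (ρ := ρ) (nb F) φ (fun a => ?_) fun a => ?_).symm
  · show ρ (nb F) * ρ (X 11 (a 0) * X 10 (a 1) * X 9 (a 2)) =
      ρ (X 11 ((d1 : F) * a 1) * X 10 ((d0 : F) * a 0) * X 9 ((d2 : F) * a 2)) * ρ (nb F)
    rw [← map_mul, ← map_mul, ← h1, ← h0, ← h2,
      ((Commute.conj_iff (nb F)).2 (commX (by decide) (a 1) (a 0) : Commute (X 10 _) (X 11 _))).eq]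
    simp [mul_assoc]
  · simp [dot, φ, Fin.sum_univ_three]
    field_simp
    ring

include hψ in
/-- The subgroup on 11, 9, 8 is symmetrical under the first fundamental element. -/
theorem exists_MA_na : ∃ c0 c1 c2 : Fˣ, ∀ z s r,
    ∑ l, MA ρ h3 ψ z l s r = ∑ l, MA ρ h3 ψ ((c0 : F) * z) l ((c1 : F) * r) ((c2 : F) * s) := by
  let ι : (Fin 3 → F) → (Fin 4 → F) := fun a => ![a 0, 0, a 1, a 2]
  have hι : ∀ a b, ι (a + b) = ι a + ι b := fun a b => by funext j; fin_cases j <;> simp [ι]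
  have hm : ∀ z s r : F, ∑ l, MA ρ h3 ψ z l s r = ((A4 ρ h3).comap ι hι).M ψ ![z, s, r] := fun z s r => by
    have hT : ∀ (x : Fin 4 → F) a, dot x (ι a) = dot ![x 0, x 2, x 3] a := fun x a => by
      simp [dot, ι, Fin.sum_univ_three, Fin.sum_univ_four]
    rw [(A4 ρ h3).M_comap ψ hψ ι hι (fun x => ![x 0, x 2, x 3]) hT ![z, s, r]]
    refine Finset.sum_nbij' (fun l => ![z, l, s, r]) (fun x => x 1) (fun l _ => ?_) (fun x _ => Finset.mem_univ _)
      (fun r _ => rfl) (fun x hx => ?_) fun r _ => rfl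
    · simp
    · simp only [Finset.mem_filter, Finset.mem_univ, true_and] at hx
      have e := congrFun hx
      funext j
      fin_cases j
      · exact (e 0).symm
      · rfl
      · exact (e 1).symm
      · exact (e 2).symm
  obtain ⟨d0, h0⟩ := exists_na (F := F) 11 11 (by decide)
  obtain ⟨d1, h1⟩ := exists_na (F := F) 9 8 (by decide)
  obtain ⟨d2, h2⟩ := exists_na (F := F) 8 9 (by decide)
  let φ : (Fin 3 → F) ≃ (Fin 3 → F) :=
    { toFun := fun a => ![(d0 : F) * a 0, (d2 : F) * a 2, (d1 : F) * a 1]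
      invFun := fun a => ![((d0⁻¹ : Fˣ) : F) * a 0, ((d1⁻¹ : Fˣ) : F) * a 2, ((d2⁻¹ : Fˣ) : F) * a 1]
      left_inv := fun a => by funext j; fin_cases j <;> simp
      right_inv := fun a => by funext j; fin_cases j <;> simp }
  refine ⟨d0⁻¹, d2⁻¹, d1⁻¹, fun z s r => ?_⟩
  rw [hm, hm]
  refine (M_conj ψ hψ (ρ := ρ) (na F) φ (fun a => ?_) fun a => ?_).symm
  · show ρ (na F) * (A4 ρ h3).R (ι a) = (A4 ρ h3).R (ι (φ a)) * ρ (na F)
    rw [A4_apply, A4_apply]
    show ρ (na F) * ρ (X 11 (a 0) * X 10 0 * X 9 (a 1) * X 8 (a 2)) =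
      ρ (X 11 ((d0 : F) * a 0) * X 10 0 * X 9 ((d2 : F) * a 2) * X 8 ((d1 : F) * a 1)) * ρ (na F)
    rw [X_zero (by decide), mul_one, mul_one, ← map_mul, ← map_mul, ← h0, ← h2, ← h1]
    have hc : Commute (na F * X 9 (a 1) * (na F)⁻¹) (na F * X 8 (a 2) * (na F)⁻¹) :=
      (Commute.conj_iff (na F)).2 (comm89 h3 _ _).symm
    rw [mul_assoc (na F * X 11 (a 0) * (na F)⁻¹), hc.symm.eq]
    simp [mul_assoc]
  · simp [dot, φ, Fin.sum_univ_three]
    field_simp
    ring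

/-- The generic multiplicity. -/
noncomputable def muA (ψ : AddChar F ℂ) : ℕ := MA ρ h3 ψ 1 0 1 0

/-- The multiplicity on the centre only. -/
noncomputable def nuA (ψ : AddChar F ℂ) : ℕ := MA ρ h3 ψ 1 0 0 0

/-- The multiplicity on the second long root only. -/
noncomputable def nuA' (ψ : AddChar F ℂ) : ℕ := MA ρ h3 ψ 0 0 1 0

include hψ in
theorem MA_zs {z s : F} (l r : F) (hz : z ≠ 0) (hs : s ≠ 0) : MA ρ h3 ψ z l s r = muA ρ h3 ψ := by
  rw [MA_six hψ ρ h3 (-l / z), MA_seven hψ ρ h3 (-r / s), show l + -l / z * z = 0 by field_simp; ring,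
    show r + -r / s * s = 0 by field_simp; ring, muA,
    MA_tor hψ ρ h3 (Units.mk0 (s ^ 2 / z) (div_ne_zero (pow_ne_zero _ hs) hz))
      (Units.mk0 (z ^ 2 / s ^ 3) (div_ne_zero (pow_ne_zero _ hz) (pow_ne_zero _ hs))) 1 0 1 0]
  simp only [Units.val_mk0, mul_zero, mul_one]
  congr 1 <;> field_simp

include hψ in
theorem MA_z {z : F} (l : F) {r : F} (hz : z ≠ 0) (hr : r ≠ 0) : MA ρ h3 ψ z l 0 r = muA ρ h3 ψ := by
  have flat : ∀ l, MA ρ h3 ψ z l 0 r = MA ρ h3 ψ z 0 0 r := fun l => by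
    rw [MA_six hψ ρ h3 (-l / z), show l + -l / z * z = 0 by field_simp; ring]
  obtain ⟨c0, c1, c2, h⟩ := exists_MA_na hψ ρ h3
  have e := h z 0 r
  rw [Finset.sum_congr rfl fun l _ => flat l, Finset.sum_congr rfl fun l _ =>
    MA_zs hψ ρ h3 (z := (c0 : F) * z) l _ (mul_ne_zero c0.ne_zero hz) (mul_ne_zero c1.ne_zero hr)] at e
  simp only [Finset.sum_const, Finset.card_univ, smul_eq_mul] at e
  rw [flat]
  exact Nat.eq_of_mul_eq_mul_left Fintype.card_pos e

include hψ in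
theorem MA_z0 {z : F} (l : F) (hz : z ≠ 0) : MA ρ h3 ψ z l 0 0 = nuA ρ h3 ψ := by
  rw [MA_six hψ ρ h3 (-l / z), show l + -l / z * z = 0 by field_simp; ring, nuA,
    MA_tor hψ ρ h3 (Units.mk0 z hz) (Units.mk0 z hz)⁻¹ 1 0 0 0]
  simp only [Units.val_inv_eq_inv_val, Units.val_mk0, mul_zero, mul_one]
  congr 1
  field_simp

include hψ in
theorem MA_s {s l : F} (r : F) (hs : s ≠ 0) (hl : l ≠ 0) : MA ρ h3 ψ 0 l s r = muA ρ h3 ψ := by
  have flat : ∀ r, MA ρ h3 ψ 0 l s r = MA ρ h3 ψ 0 l s 0 := fun r => by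
    rw [MA_seven hψ ρ h3 (-r / s), show r + -r / s * s = 0 by field_simp; ring]
  obtain ⟨c0, c1, c2, h⟩ := exists_MA_nb hψ ρ h3
  have e := h 0 l s
  rw [Finset.sum_congr rfl fun r _ => flat r, Finset.sum_congr rfl fun r _ =>
    MA_zs hψ ρ h3 (z := (c0 : F) * l) _ r (mul_ne_zero c0.ne_zero hl) (mul_ne_zero c2.ne_zero hs)] at e
  simp only [Finset.sum_const, Finset.card_univ, smul_eq_mul] at e
  rw [flat]
  exact Nat.eq_of_mul_eq_mul_left Fintype.card_pos e

include hψ in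
theorem MA_s0 {s : F} (r : F) (hs : s ≠ 0) : MA ρ h3 ψ 0 0 s r = nuA' ρ h3 ψ := by
  rw [MA_seven hψ ρ h3 (-r / s), show r + -r / s * s = 0 by field_simp; ring, nuA',
    MA_tor hψ ρ h3 1 (Units.mk0 s hs) 0 0 1 0]
  simp

include hψ in
theorem MA_row {l : F} (hl : l ≠ 0) :
    ∑ r, MA ρ h3 ψ 0 l 0 r = (Fintype.card F - 1) * muA ρ h3 ψ + nuA ρ h3 ψ := by
  obtain ⟨c0, c1, c2, h⟩ := exists_MA_nb hψ ρ h3
  rw [h 0 l 0, mul_zero, mul_zero, sum_split _ fun r hr => MA_z hψ ρ h3 0 (mul_ne_zero c0.ne_zero hl) hr,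
    MA_z0 hψ ρ h3 0 (mul_ne_zero c0.ne_zero hl)]

include hψ in
theorem MA_col {r : F} (hr : r ≠ 0) :
    ∑ l, MA ρ h3 ψ 0 l 0 r = (Fintype.card F - 1) * muA ρ h3 ψ + nuA' ρ h3 ψ := by
  obtain ⟨c0, c1, c2, h⟩ := exists_MA_na hψ ρ h3
  rw [h 0 0 r, mul_zero, mul_zero, sum_split _ fun l hl => MA_s hψ ρ h3 0 (mul_ne_zero c1.ne_zero hr) hl,
    MA_s0 hψ ρ h3 0 (mul_ne_zero c1.ne_zero hr)]

include hψ in
/-- The degree through the multiplicities. -/
theorem dim_three {j : ℕ} (hj : Fintype.card F = j + 1) : finrank ℂ V =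
    j * j * ((j + 1) * (j + 1)) * muA ρ h3 ψ + j * (j + 1) * (j * muA ρ h3 ψ + nuA ρ h3 ψ) +
      j * (j + 1) * (j * muA ρ h3 ψ + nuA' ρ h3 ψ) + ∑ l, ∑ r, MA ρ h3 ψ 0 l 0 r := by
  have hj' : Fintype.card F - 1 = j := by omega
  have a1 : ∀ z : F, z ≠ 0 → ∀ l, (∑ s, ∑ r, MA ρ h3 ψ z l s r) =
      j * ((j + 1) * muA ρ h3 ψ) + (j * muA ρ h3 ψ + nuA ρ h3 ψ) := fun z hz l => by
    rw [sum_split (k := (j + 1) * muA ρ h3 ψ) (fun s => ∑ r, MA ρ h3 ψ z l s r) fun s hs => by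
      rw [Finset.sum_congr rfl fun r _ => MA_zs hψ ρ h3 l r hz hs]; simp [hj]]
    rw [sum_split _ fun r hr => MA_z hψ ρ h3 l hz hr, MA_z0 hψ ρ h3 l hz, hj']
  have a2 : ∀ l : F, (∑ s, ∑ r, MA ρ h3 ψ 0 l s r) =
      j * ((j + 1) * (if l = 0 then nuA' ρ h3 ψ else muA ρ h3 ψ)) + ∑ r, MA ρ h3 ψ 0 l 0 r := fun l => by
    rw [sum_split (k := (j + 1) * (if l = 0 then nuA' ρ h3 ψ else muA ρ h3 ψ))
      (fun s => ∑ r, MA ρ h3 ψ 0 l s r) fun s hs => ?_, hj']
    split_ifs with hl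
    · subst hl
      rw [Finset.sum_congr rfl fun r _ => MA_s0 hψ ρ h3 r hs]; simp [hj]
    · rw [Finset.sum_congr rfl fun r _ => MA_s hψ ρ h3 r hs hl]; simp [hj]
  rw [← sum_MA hψ ρ h3, sum_split (k := (j + 1) * (j * ((j + 1) * muA ρ h3 ψ) + (j * muA ρ h3 ψ + nuA ρ h3 ψ)))
    (fun z => ∑ l, ∑ s, ∑ r, MA ρ h3 ψ z l s r) fun z hz => by
      rw [Finset.sum_congr rfl fun l _ => a1 z hz l]; simp [hj], hj',
    Finset.sum_congr rfl fun l _ => a2 l, Finset.sum_add_distrib, sum_split (k := j * ((j + 1) * muA ρ h3 ψ))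
      (fun l => j * ((j + 1) * (if l = 0 then nuA' ρ h3 ψ else muA ρ h3 ψ))) fun l hl => by rw [if_neg hl], hj',
    if_pos rfl]
  ring

end Cfsg.Agent.G2Deg
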