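import Cfsg.Agent.G2Deg.ThreeMain

/-!
# Characteristic three: the final count
-/

set_option autoImplicit false
set_option linter.unusedSectionVars false

namespace Cfsg.Agent.G2Deg

open Cfsg.Lie Cfsg.Agent.ChevGrp
open Module (finrank)

theorem not_dvd_two {x : ℤ} (hx : 81 ≤ x) : ¬ x ^ 2 + x - 2 ∣ x ^ 3 * (x - 1) * (x ^ 3 - 1) := by
  intro h
  rw [show x ^ 2 + x - 2 = (x - 1) * (x + 2) by ring,
    show x ^ 3 * (x - 1) * (x ^ 3 - 1) = (x - 1) * (x ^ 3 * (x ^ 3 - 1)) by ring] at h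
  have h1 : x + 2 ∣ x ^ 3 * (x ^ 3 - 1) := (mul_dvd_mul_iff_left (by omega)).1 h
  have h2 : x + 2 ∣ (x + 2) * (x ^ 5 - 2 * x ^ 4 + 4 * x ^ 3 - 9 * x ^ 2 + 18 * x - 36) := Dvd.intro _ rfl
  have h3 := dvd_sub h1 h2
  ring_nf at h3
  have := Int.le_of_dvd (by norm_num) h3
  omega

theorem not_dvd_one {x : ℤ} (hx : 81 ≤ x) : ¬ x ^ 2 + x - 1 ∣ x ^ 3 * (x - 1) * (x ^ 3 - 1) := by
  intro h
  have h2 : x ^ 2 + x - 1 ∣ (x ^ 2 + x - 1) * (x ^ 5 - 2 * x ^ 4 + 3 * x ^ 3 - 6 * x ^ 2 + 10 * x - 16) :=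
    Dvd.intro _ rfl
  have h3 := dvd_sub h h2
  rw [show x ^ 3 * (x - 1) * (x ^ 3 - 1) -
    (x ^ 2 + x - 1) * (x ^ 5 - 2 * x ^ 4 + 3 * x ^ 3 - 6 * x ^ 2 + 10 * x - 16) = 26 * x - 16 by ring] at h3
  have := Int.le_of_dvd (by omega) h3
  nlinarith

theorem not_dvd_zero {x : ℤ} (hx : 81 ≤ x) : ¬ x ^ 2 + x ∣ x ^ 3 * (x - 1) * (x ^ 3 - 1) := by
  intro h
  rw [show x ^ 2 + x = x * (x + 1) by ring,
    show x ^ 3 * (x - 1) * (x ^ 3 - 1) = x * (x ^ 2 * (x - 1) * (x ^ 3 - 1)) by ring] at h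
  have h1 : x + 1 ∣ x ^ 2 * (x - 1) * (x ^ 3 - 1) := (mul_dvd_mul_iff_left (by omega)).1 h
  have h2 : x + 1 ∣ (x + 1) * (x ^ 5 - 2 * x ^ 4 + 2 * x ^ 3 - 3 * x ^ 2 + 4 * x - 4) := Dvd.intro _ rfl
  have h3 := dvd_sub h1 h2
  ring_nf at h3
  have := Int.le_of_dvd (by norm_num) h3
  omega

theorem three_le_of_dvd {q u d : ℕ} (hq : 9 ≤ q) (hd : d + 2 = q ^ 4 + q ^ 2 + u)
    (h : d ∣ q ^ 6 * (q ^ 2 - 1) * (q ^ 6 - 1)) : 3 ≤ u := by
  by_contra hu
  have hx : (81 : ℤ) ≤ (q : ℤ) ^ 2 := by nlinarith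
  have hz : (d : ℤ) ∣ ((q : ℤ) ^ 2) ^ 3 * ((q : ℤ) ^ 2 - 1) * (((q : ℤ) ^ 2) ^ 3 - 1) := by
    have h' := Int.natCast_dvd_natCast.2 h
    push_cast [Nat.cast_sub (Nat.one_le_pow 2 q (by omega)), Nat.cast_sub (Nat.one_le_pow 6 q (by omega))] at h'
    rwa [show ((q : ℤ) ^ 2) ^ 3 = (q : ℤ) ^ 6 by ring]
  have hd' : (d : ℤ) = ((q : ℤ) ^ 2) ^ 2 + (q : ℤ) ^ 2 + u - 2 := by
    have h' : ((d + 2 : ℕ) : ℤ) = ((q ^ 4 + q ^ 2 + u : ℕ) : ℤ) := by rw [hd]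
    push_cast at h'
    linear_combination h'
  rw [hd'] at hz
  interval_cases u
  · refine not_dvd_two hx ?_
    simpa using hz
  · refine not_dvd_one hx ?_
    convert hz using 1
    push_cast
    ring
  · refine not_dvd_zero hx ?_
    convert hz using 1
    push_cast
    ring

variable {F : Type*} [Field F] [Fintype F] [DecidableEq F] {V : Type*} [AddCommGroup V] [Module ℂ V]
  [FiniteDimensional ℂ V] {ψ : AddChar F ℂ} (hψ : ψ ≠ 1) (ρ : Representation ℂ (Gam F) V)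

include hψ in
/-- The bound in characteristic three. -/
theorem bound_three [CharP F 3] (hinv : ∀ x, ψ (x ^ 3) = ψ x) (hq : 9 ≤ Fintype.card F) [ρ.IsIrreducible]
    (h2 : 2 ≤ finrank ℂ V) : Fintype.card F ^ 4 + Fintype.card F ^ 2 + 1 ≤ finrank ℂ V := by
  have h3 : (3 : F) = 0 := CharP.cast_eq_zero F 3
  obtain ⟨α, hα⟩ := exists_iso (F := F)
  obtain ⟨tm, tn, tn', t0⟩ := twist_data ρ h3 hα hinv
  obtain ⟨j, hj⟩ : ∃ j, Fintype.card F = j + 1 := ⟨Fintype.card F - 1, by omega⟩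
  have hj' : Fintype.card F - 1 = j := by omega
  have hd := dim_three hψ ρ h3 hj
  set μ := muA ρ h3 ψ with hμ
  set ν := nuA ρ h3 ψ with hν
  set ν' := nuA' ρ h3 ψ with hν'
  have hrows : ∑ l, ∑ r, MA ρ h3 ψ 0 l 0 r = j * (j * μ + ν) + ∑ r, MA ρ h3 ψ 0 0 0 r := by
    rw [sum_split (fun l => ∑ r, MA ρ h3 ψ 0 l 0 r) fun l hl => MA_row hψ ρ h3 hl, hj']
  rw [hrows] at hd
  rw [hj]
  rcases Nat.lt_or_ge μ 2 with hμ2 | hμ2
  swap
  · have h8 : 8 ≤ j := by omega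
    have h5 : (j * (j + 2)) * (j * (j + 2)) * 2 ≤ (j * (j + 2)) * (j * (j + 2)) * μ := Nat.mul_le_mul_left _ hμ2
    have h6 : (j + 1) ^ 4 + (j + 1) ^ 2 + 1 ≤ (j * (j + 2)) * (j * (j + 2)) * 2 := by
      obtain ⟨i, rfl⟩ : ∃ i, j = 8 + i := ⟨j - 8, by omega⟩
      ring_nf
      omega
    rw [hd, show ∀ K, j * j * ((j + 1) * (j + 1)) * μ + j * (j + 1) * (j * μ + ν) + j * (j + 1) * (j * μ + ν') +
      (j * (j * μ + ν) + K) = (j * (j + 2)) * (j * (j + 2)) * μ + (j * (j + 1) * ν + j * (j + 1) * ν' + j * ν + K)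
      from fun K => by ring]
    exact le_add_right (h6.trans h5)
  have hm1 : μ = 1 := by
    rcases Nat.eq_zero_or_pos μ with h0 | h0
    · exfalso
      have z' := nuA'_zero hψ ρ h3 hq h0
      have z := nuA'_zero hψ (twist ρ α) h3 hq (by rw [tm]; exact h0)
      rw [tn'] at z
      have hN := NN_pos hψ ρ (by omega) h2
      have hM : ∀ s r, MA ρ h3 ψ 1 0 s r = 0 := fun s r => by
        rcases eq_or_ne s 0 with rfl | hs
        · rcases eq_or_ne r 0 with rfl | hr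
          · rw [MA_z0 hψ ρ h3 0 one_ne_zero]; exact z
          · rw [MA_z hψ ρ h3 0 one_ne_zero hr]; exact h0
        · rw [MA_zs hψ ρ h3 0 r one_ne_zero hs]; exact h0
      have hNN : NN ρ ψ = 0 := by
        let ι : (Fin 2 → F) → (Fin 4 → F) := fun a => ![a 0, a 1, 0, 0]
        have hι : ∀ a b, ι (a + b) = ι a + ι b := fun a b => by funext i; fin_cases i <;> simp [ι]
        have hT : ∀ (x : Fin 4 → F) a, dot x (ι a) = dot ![x 0, x 1] a := fun x a => by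
          simp [dot, ι, Fin.sum_univ_two, Fin.sum_univ_four]
        have e := (A4 ρ h3).M_comap ψ hψ ι hι (fun x => ![x 0, x 1]) hT ![1, 0]
        rw [Act.M_congr (B := A2 ρ 3) fun a => by
          show (A4 ρ h3).R (ι a) = ρ (X 11 (a 0) * X (L4 3) (a 1))
          rw [A4_apply]; simp [ι, X_zero, L4]] at e
        rw [NN, M2, e]
        refine Finset.sum_eq_zero fun x hx => ?_
        simp only [Finset.mem_filter, Finset.mem_univ, true_and] at hx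
        have h := hM (x 2) (x 3)
        rw [MA] at h
        rw [← h]
        congr 1
        funext i
        fin_cases i
        · exact congrFun hx 0
        · exact congrFun hx 1
        · rfl
        · rfl
      omega
    · omega
  have hn' : 1 ≤ ν' := Nat.pos_of_ne_zero (nuA'_ne hψ ρ h3 hq hm1)
  have hn : 1 ≤ ν := by
    have h := nuA'_ne hψ (twist ρ α) h3 hq (tm.trans hm1)
    rw [tn'] at h
    exact Nat.pos_of_ne_zero h
  have h8 : 8 ≤ j := by omega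
  rw [hm1] at hd
  by_cases hboth : 2 ≤ ν ∧ 2 ≤ ν'
  · have h5 : (j * (j + 1) + j) * 2 + j * (j + 1) * 2 ≤ (j * (j + 1) + j) * ν + j * (j + 1) * ν' :=
      Nat.add_le_add (Nat.mul_le_mul_left _ hboth.1) (Nat.mul_le_mul_left _ hboth.2)
    have h6 : (j + 1) ^ 4 + (j + 1) ^ 2 + 1 ≤ j * (j + 2) * (j * (j + 2)) + ((j * (j + 1) + j) * 2 + j * (j + 1) * 2) := by
      obtain ⟨i, rfl⟩ : ∃ i, j = 8 + i := ⟨j - 8, by omega⟩
      ring_nf
      omega
    rw [hd, show ∀ K, j * j * ((j + 1) * (j + 1)) * 1 + j * (j + 1) * (j * 1 + ν) + j * (j + 1) * (j * 1 + ν') +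
      (j * (j * 1 + ν) + K) = j * (j + 2) * (j * (j + 2)) + ((j * (j + 1) + j) * ν + j * (j + 1) * ν') + K
      from fun K => by ring]
    exact le_add_right (h6.trans (Nat.add_le_add_left h5 _))
  have hz : ∀ l r : F, l ≠ 0 → r ≠ 0 → MA ρ h3 ψ 0 l 0 r = 0 := by
    intro l r hl hr
    by_cases hν'1 : ν' = 1
    · exact fib_zero hψ ρ h3 hq hm1 hν'1 hr hl
    · have hν1 : ν = 1 := by omega
      haveI : Fact (Nat.Prime 3) := ⟨Nat.prime_three⟩
      haveI : Finite F := Finite.of_fintype F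
      obtain ⟨r0, hr0⟩ := (bijective_frobenius F 3).2 l
      have hr0' : r0 ^ 3 = l := hr0
      have h := fib_zero hψ (twist ρ α) h3 hq (tm.trans hm1) (tn'.trans hν1) (r := r0) (l := r)
        (fun e => hl (by rw [← hr0', e]; simp)) hr
      rw [MA_twist ρ h3 hα hinv, hr0', zero_pow (by norm_num)] at h
      exact h
  have hK : ∑ r, MA ρ h3 ψ 0 0 0 r = j * (j + ν') + MA ρ h3 ψ 0 0 0 0 := by
    rw [sum_split (k := j + ν') _ fun r hr => ?_, hj']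
    have h := MA_col hψ ρ h3 hr
    rw [← hμ, hm1, ← hν', mul_one, hj', Finset.sum_eq_single (0 : F) (fun l _ hl => hz l r hl hr) (by simp)] at h
    exact h
  rw [hK] at hd
  by_cases h3' : 3 ≤ ν + ν'
  · have h5 : (j * (j + 1) + j) * 3 ≤ (j * (j + 1) + j) * (ν + ν') := Nat.mul_le_mul_left _ h3'
    have h6 : (j + 1) ^ 4 + (j + 1) ^ 2 + 1 ≤ (j * (j + 2) * (j * (j + 2)) + j * j) + (j * (j + 1) + j) * 3 := by
      obtain ⟨i, rfl⟩ : ∃ i, j = 8 + i := ⟨j - 8, by omega⟩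
      ring_nf
      omega
    rw [hd, show ∀ K, j * j * ((j + 1) * (j + 1)) * 1 + j * (j + 1) * (j * 1 + ν) + j * (j + 1) * (j * 1 + ν') +
      (j * (j * 1 + ν) + (j * (j + ν') + K)) =
        (j * (j + 2) * (j * (j + 2)) + j * j) + (j * (j + 1) + j) * (ν + ν') + K
      from fun K => by ring]
    exact le_add_right (h6.trans (Nat.add_le_add_left h5 _))
  have hν1 : ν = 1 := by omega
  have hν'1 : ν' = 1 := by omega
  obtain ⟨hline, h00⟩ := fib_axis hψ ρ h3 hq hm1 hν1 hν'1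
  obtain ⟨-, h00'⟩ := fib_axis hψ (twist ρ α) h3 hq (tm.trans hm1) (tn.trans hν'1) (tn'.trans hν1)
  rw [t0, h00] at h00'
  have hc := twist_fixed hψ ρ hα (by omega) hline
  obtain ⟨u, hu⟩ : ∃ u, M4 hψ ρ 0 = j + u := ⟨M4 hψ ρ 0 - j, by omega⟩
  rw [h00, hν1, hν'1, hj', hu] at hd
  have hdq : finrank ℂ V + 2 = (j + 1) ^ 4 + (j + 1) ^ 2 + u := by rw [hd]; ring
  have hdvd : finrank ℂ V ∣ Fintype.card F ^ 6 * (Fintype.card F ^ 2 - 1) * (Fintype.card F ^ 6 - 1) := by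
    rw [← S1059.result (F := F) rfl]
    exact S0135.result ρ
  rw [hj] at hdvd hq
  have := three_le_of_dvd hq hdq hdvd
  omega

end Cfsg.Agent.G2Deg
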