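import Cfsg.Agent.G2Deg.ThreeBase

/-!
# Characteristic three: the fibres over the abelian subgroup
-/

set_option autoImplicit false
set_option linter.unusedSectionVars false

namespace Cfsg.Agent.G2Deg

open Cfsg.Lie Cfsg.Agent.ChevGrp
open Module (finrank)

variable {F : Type*} [Field F] [Fintype F] [DecidableEq F] {V : Type*} [AddCommGroup V] [Module ℂ V]
  [FiniteDimensional ℂ V] {ψ : AddChar F ℂ} (hψ : ψ ≠ 1) (ρ : Representation ℂ (Gam F) V) (h3 : (3 : F) = 0)

theorem two_eq (h3 : (3 : F) = 0) : (2 : F) = -1 := by linear_combination h3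

include hψ in
/-- The fibre of the subgroup inside the radical. -/
theorem MA_fib (l s r : F) : MA ρ h3 ψ 0 l s r = ∑ a, M4 hψ ρ ![a, r, s, l] := by
  let ι : (Fin 3 → F) → (Fin 4 → F) := fun b => ![0, b 2, b 1, b 0]
  have hι : ∀ a b, ι (a + b) = ι a + ι b := fun a b => by funext j; fin_cases j <;> simp [ι]
  have hT : ∀ (x : Fin 4 → F) b, dot x (ι b) = dot ![x 3, x 2, x 1] b := fun x b => by
    simp [dot, ι, Fin.sum_univ_three, Fin.sum_univ_four]
    ring
  let B := (R4 ρ ψ hψ).comap ι hι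
  have e1 : (A4 ρ h3).E ψ ![0, l, s, r] = B.E ψ ![l, s, r] := by
    rw [Act.E, Act.E, sum4, sum3, Finset.smul_sum, Finset.smul_sum]
    simp only [Finset.smul_sum]
    rw [Finset.sum_comm]
    refine Finset.sum_congr rfl fun b _ => ?_
    rw [Finset.sum_comm]
    refine Finset.sum_congr rfl fun c _ => ?_
    rw [Finset.sum_comm]
    refine Finset.sum_congr rfl fun e _ => ?_
    show ∑ a, (Fintype.card (Fin 4 → F) : ℂ)⁻¹ • ψ (-dot ![0, l, s, r] ![a, b, c, e]) • (A4 ρ h3).R ![a, b, c, e] =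
      (Fintype.card (Fin 3 → F) : ℂ)⁻¹ • ψ (-dot ![l, s, r] ![b, c, e]) •
        (ρ (lift4 (ι ![b, c, e])) * P0 ρ ψ)
    rw [P0_def, mul_smul_comm, smul_smul, smul_smul, Finset.mul_sum, Finset.smul_sum]
    refine Finset.sum_congr rfl fun a _ => ?_
    rw [A4_apply, ← map_mul, smul_smul]
    congr 1
    · simp [dot, Fin.sum_univ_three, Fin.sum_univ_four]
      ring
    · congr 1
      show X 11 a * X 10 b * X 9 c * X 8 e = X 6 0 * X 8 e * X 9 c * X 10 b * X 11 a
      have c89 := comm89 h3 e c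
      have c810 : Commute (X 8 e) (X 10 b : Gam F) := commX (by decide) _ _
      have c910 : Commute (X 9 c) (X 10 b : Gam F) := commX (by decide) _ _
      have c811 : Commute (X 8 e) (X 11 a : Gam F) := commX (by decide) _ _
      have c911 : Commute (X 9 c) (X 11 a : Gam F) := commX (by decide) _ _
      have c1011 : Commute (X 10 b) (X 11 a : Gam F) := commX (by decide) _ _
      rw [X_zero (by decide), one_mul]
      calc X 11 a * X 10 b * X 9 c * X 8 e = X 11 a * (X 10 b * X 9 c * X 8 e) := by simp only [mul_assoc]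
        _ = X 11 a * (X 8 e * X 9 c * X 10 b) := by
          refine congrArg (X 11 a * ·) ?_
          calc X 10 b * X 9 c * X 8 e = X 9 c * X 10 b * X 8 e := by rw [c910.eq]
            _ = X 9 c * (X 8 e * X 10 b) := by rw [mul_assoc, c810.eq]
            _ = _ := by rw [← mul_assoc, c89.eq]
        _ = _ := (((c811.mul_left c911).mul_left c1011).eq).symm
  have h2 := (R4 ρ ψ hψ).M_comap ψ hψ ι hι (fun x => ![x 3, x 2, x 1]) hT ![l, s, r]
  rw [MA, Act.M, e1]
  show B.M ψ ![l, s, r] = _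
  rw [h2]
  refine Finset.sum_nbij' (fun x => x 0) (fun a => ![a, r, s, l]) (fun x _ => Finset.mem_univ _)
    (fun a _ => ?_) (fun x hx => ?_) (fun a _ => rfl) fun x hx => ?_
  · simp
  · simp only [Finset.mem_filter, Finset.mem_univ, true_and] at hx
    have e := congrFun hx
    funext j
    fin_cases j
    · rfl
    · exact (e 2).symm
    · exact (e 1).symm
    · exact (e 0).symm
  · simp only [Finset.mem_filter, Finset.mem_univ, true_and] at hx
    have e := congrFun hx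
    show _ = M4 hψ ρ ![x 0, r, s, l]
    rw [M4]
    congr 1
    funext j
    fin_cases j
    · rfl
    · exact e 2
    · exact e 1
    · exact e 0

include hψ h3 in
/-- `x₇` on the fibres. -/
theorem M4_q7' (t a r l : F) : M4 hψ ρ ![a, r, 0, l] = M4 hψ ρ ![a - t * r + t ^ 3 * l, r, 0, l] := by
  rw [M4, M4_q7 ρ ψ hψ t, M4]
  congr 1
  funext j
  fin_cases j <;> simp [q7, h3]

include hψ h3 in
/-- `x₄` on the fibres. -/
theorem M4_q4' (t a s l : F) : M4 hψ ρ ![a, 0, s, l] = M4 hψ ρ ![a, 0, s, l + t * s + t ^ 3 * a] := by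
  rw [M4, M4_q4 ρ ψ hψ t, M4]
  congr 1
  funext j
  fin_cases j <;> simp [q4, h3]

theorem eq_of_sum_one {f : F → ℕ} (h : ∑ x, f x = 1) {a b : F} (ha : f a ≠ 0) (hb : f b ≠ 0) : a = b := by
  by_contra hne
  have h2 := Finset.sum_le_sum_of_subset (f := f) (Finset.subset_univ ({a, b} : Finset F))
  rw [Finset.sum_pair hne, h] at h2
  omega

theorem card_cubic (a c : F) : (Finset.univ.filter fun t : F => a * t ^ 3 + t = c).card ≤ 3 := by
  classical
  set P : Polynomial F := Polynomial.C a * Polynomial.X ^ 3 + Polynomial.X - Polynomial.C c with hP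
  have hP0 : P ≠ 0 := fun e => by
    have h := congrArg (fun Q => Polynomial.coeff Q 1) e
    simp [hP, Polynomial.coeff_X_pow, Polynomial.coeff_C] at h
  have hdeg : P.natDegree ≤ 3 := by rw [hP]; compute_degree!
  refine le_trans (Finset.card_le_card fun t ht => ?_) ((Multiset.toFinset_card_le P.roots).trans
    ((Polynomial.card_roots' P).trans hdeg))
  simp only [Finset.mem_filter, Finset.mem_univ, true_and] at ht
  rw [Multiset.mem_toFinset, Polynomial.mem_roots hP0]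
  simp [hP, ht]

theorem exists_avoid (hq : 9 ≤ Fintype.card F) (a c : F) :
    ∃ t : F, a * t ^ 3 + t ≠ 0 ∧ a * t ^ 3 + t ≠ c := by
  classical
  obtain ⟨t, -, ht⟩ := Finset.exists_mem_notMem_of_card_lt_card
    (s := (Finset.univ.filter fun t : F => a * t ^ 3 + t = 0) ∪ Finset.univ.filter fun t : F => a * t ^ 3 + t = c)
    (t := Finset.univ)
    (lt_of_le_of_lt (Finset.card_union_le _ _) (by
      have := card_cubic a (0 : F)
      have := card_cubic a c
      rw [Finset.card_univ]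
      omega))
  simp only [Finset.mem_union, Finset.mem_filter, Finset.mem_univ, true_and, not_or] at ht
  exact ⟨t, ht⟩

variable (hq : 9 ≤ Fintype.card F)

include hψ hq in
theorem nuA'_zero (hm : muA ρ h3 ψ = 0) : nuA' ρ h3 ψ = 0 := by
  by_contra hne
  rw [nuA', MA_fib hψ] at hne
  obtain ⟨a, -, ha⟩ := Finset.exists_ne_zero_of_sum_ne_zero hne
  obtain ⟨t, ht, -⟩ := exists_avoid hq a 0
  rw [M4_q4' hψ ρ h3 t a 1 0, zero_add, mul_one] at ha
  have h := MA_s hψ ρ h3 (l := t + t ^ 3 * a) 0 (one_ne_zero : (1 : F) ≠ 0)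
    (by rwa [show t + t ^ 3 * a = a * t ^ 3 + t by ring])
  rw [hm, MA_fib hψ] at h
  exact ha (Finset.sum_eq_zero_iff.1 h a (Finset.mem_univ _))

include hψ hq in
theorem nuA'_ne (hm : muA ρ h3 ψ = 1) : nuA' ρ h3 ψ ≠ 0 := by
  intro h0
  rw [nuA', MA_fib hψ] at h0
  have hnone : ∀ a : F, M4 hψ ρ ![a, 0, 1, 0] = 0 := fun a =>
    Finset.sum_eq_zero_iff.1 h0 a (Finset.mem_univ _)
  have hone : ∀ l : F, l ≠ 0 → ∑ a, M4 hψ ρ ![a, 0, 1, l] = 1 := fun l hl => by
    rw [← MA_fib hψ ρ h3, MA_s hψ ρ h3 0 one_ne_zero hl, hm]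
  obtain ⟨a, -, ha⟩ := Finset.exists_ne_zero_of_sum_ne_zero (ne_of_eq_of_ne (hone 1 one_ne_zero) one_ne_zero)
  have hscale : ∀ u : Fˣ, M4 hψ ρ ![((u : F) ^ 2)⁻¹ * a, 0, 1, u] ≠ 0 := fun u h => by
    refine ha (Eq.trans ?_ h)
    rw [M4, M4_tor ρ ψ hψ u ((u ^ 2)⁻¹) ![a, 0, 1, 1], M4]
    congr 1
    funext j
    fin_cases j <;> simp [wt4]
    field_simp
  obtain ⟨t, ht0, ht2⟩ : ∃ t : F, 1 + t + t ^ 3 * a ≠ 1 ∧ 1 + t + t ^ 3 * a ≠ -1 := by
    obtain ⟨t, h1, h2⟩ := exists_avoid hq a (-2)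
    exact ⟨t, fun e => h1 (by linear_combination e), fun e => h2 (by linear_combination e)⟩
  have key : ∀ t : F, 1 + t + t ^ 3 * a ≠ 0 → (1 + t + t ^ 3 * a) ^ 2 * a = a := fun t hl => by
    have h1 : M4 hψ ρ ![a, 0, 1, 1 + t + t ^ 3 * a] ≠ 0 := by
      rw [M4_q4' hψ ρ h3 t a 1 1, mul_one] at ha
      exact ha
    have e := eq_of_sum_one (hone _ hl) h1 (hscale (Units.mk0 _ hl))
    rw [Units.val_mk0] at e
    have e2 := congrArg ((1 + t + t ^ 3 * a) ^ 2 * ·) e
    rwa [← mul_assoc, mul_inv_cancel₀ (pow_ne_zero _ hl), one_mul] at e2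
  rcases eq_or_ne a 0 with ha0 | ha0
  · rw [M4_q4' hψ ρ h3 (-1) a 1 1, ha0] at ha
    exact ha (by simpa using hnone 0)
  · by_cases hl : 1 + t + t ^ 3 * a = 0
    · rw [M4_q4' hψ ρ h3 t a 1 1, mul_one, hl] at ha
      exact ha (hnone a)
    · rcases sq_eq_one_iff.1 ((mul_eq_right₀ ha0).1 (key t hl)) with h | h
      · exact ht0 h
      · exact ht2 h

include hψ hq in
/-- The vanishing off the axes. -/
theorem fib_zero (hm : muA ρ h3 ψ = 1) (hn : nuA' ρ h3 ψ = 1) {r l : F} (hr : r ≠ 0) (hl : l ≠ 0) :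
    MA ρ h3 ψ 0 l 0 r = 0 := by
  have hone : ∀ a : F, ∑ l, M4 hψ ρ ![a, r, 0, l] = 1 := fun a => by
    obtain ⟨c, hc⟩ := exists_M4_na hψ ρ
    rw [Finset.sum_congr rfl fun l _ => hc ![a, r, 0, l]]
    simp only [Matrix.cons_val_zero, Matrix.cons_val_one, Matrix.cons_val, mul_zero]
    refine (Fintype.sum_equiv (Equiv.mulLeft₀ (c 0 : F) (c 0).ne_zero) _
      (fun x => M4 hψ ρ ![x, 0, (c 2 : F) * r, (c 3 : F) * a]) fun _ => rfl).trans ?_
    rw [← MA_fib hψ ρ h3]
    rcases eq_or_ne a 0 with rfl | ha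
    · rw [mul_zero, MA_s0 hψ ρ h3 0 (mul_ne_zero (c 2).ne_zero hr), hn]
    · rw [MA_s hψ ρ h3 0 (mul_ne_zero (c 2).ne_zero hr) (mul_ne_zero (c 3).ne_zero ha), hm]
  obtain ⟨l0, -, hl0⟩ := Finset.exists_ne_zero_of_sum_ne_zero (ne_of_eq_of_ne (hone 0) one_ne_zero)
  have hl00 : l0 = 0 := by
    obtain ⟨u, hu⟩ : ∃ u : Fˣ, (u : F) ^ 2 ≠ 1 := by
      obtain ⟨x, -, hx⟩ := Finset.exists_mem_notMem_of_card_lt_card (s := ({0, 1, -1} : Finset F))
        (t := Finset.univ) (lt_of_le_of_lt Finset.card_le_three (by rw [Finset.card_univ]; omega))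
      simp only [Finset.mem_insert, Finset.mem_singleton, not_or] at hx
      exact ⟨Units.mk0 x hx.1, fun e => by rcases sq_eq_one_iff.1 e with h | h <;> simp_all⟩
    have h1 : M4 hψ ρ ![0, r, 0, (u : F) ^ 2 * l0] ≠ 0 := fun h => by
      refine hl0 (Eq.trans ?_ h)
      rw [M4, M4_tor ρ ψ hψ u u⁻¹ ![0, r, 0, l0], M4]
      congr 1
      funext j
      fin_cases j <;> simp [wt4]
      left
      field_simp
    by_contra hne
    exact hu ((mul_eq_right₀ hne).1 (eq_of_sum_one (hone 0) h1 hl0))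
  subst hl00
  have hzero : ∀ a : F, M4 hψ ρ ![a, r, 0, l] = 0 := fun a => by
    by_contra hne
    refine hl (eq_of_sum_one (hone a) hne ?_)
    rwa [M4_q7' hψ ρ h3 (-a / r) 0 r 0, show 0 - -a / r * r + (-a / r) ^ 3 * 0 = a by field_simp; ring] at hl0
  rw [MA_fib hψ]
  exact Finset.sum_eq_zero fun a _ => hzero a

include hψ hq in
/-- The rest when all the multiplicities are one. -/
theorem fib_axis [CharP F 3] (hm : muA ρ h3 ψ = 1) (hn : nuA ρ h3 ψ = 1) (hn' : nuA' ρ h3 ψ = 1) :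
    (∀ a : F, a ≠ 0 → M4 hψ ρ ![a, 0, 0, 0] = 1) ∧
      MA ρ h3 ψ 0 0 0 0 = Fintype.card F - 1 + M4 hψ ρ 0 := by
  have hq1 : 1 ≤ Fintype.card F := by omega
  have hline : ∀ l : F, l ≠ 0 → M4 hψ ρ ![0, 0, 0, l] = 1 := fun l hl => by
    have h := MA_row hψ ρ h3 hl
    rw [hm, hn, mul_one, Nat.sub_add_cancel hq1,
      Finset.sum_eq_single (0 : F) (fun r _ hr => fib_zero hψ ρ h3 hq hm hn' hr hl) (by simp), MA_fib hψ] at h
    have hc : ∀ a : F, M4 hψ ρ ![a, 0, 0, l] = M4 hψ ρ ![0, 0, 0, l] := fun a => by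
      haveI : Fact (Nat.Prime 3) := ⟨Nat.prime_three⟩
      haveI : Finite F := Finite.of_fintype F
      obtain ⟨t, ht⟩ : ∃ t : F, t ^ 3 = a / l := by
        obtain ⟨t, ht⟩ := (bijective_frobenius F 3).2 (a / l)
        exact ⟨t, ht⟩
      rw [M4_q7' hψ ρ h3 t 0 0 l]
      congr 1
      rw [ht, mul_zero, sub_zero, zero_add, div_mul_cancel₀ _ hl]
    rw [Finset.sum_congr rfl fun a _ => hc a, Finset.sum_const, Finset.card_univ, smul_eq_mul] at h
    exact Nat.eq_of_mul_eq_mul_left (Fintype.card_pos (α := F)) (by rw [h, mul_one])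
  have hbot : ∀ a : F, a ≠ 0 → M4 hψ ρ ![a, 0, 0, 0] = 1 := fun a ha => by
    obtain ⟨c, hc⟩ := exists_M4_na hψ ρ
    rw [hc]
    simp only [Matrix.cons_val_zero, Matrix.cons_val_one, Matrix.cons_val, mul_zero]
    exact hline _ (mul_ne_zero (c 3).ne_zero ha)
  refine ⟨hbot, ?_⟩
  rw [MA_fib hψ, sum_split _ fun a ha => hbot a ha, mul_one]
  congr 2
  funext j
  fin_cases j <;> rfl

end Cfsg.Agent.G2Deg
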