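import Cfsg.Agent.G2Deg.ThreeFib
import Cfsg.Agent.ChevTw.IsogenyTables
import Cfsg.Agent.S1059
import Cfsg.Agent.S0135

/-!
# Characteristic three: the degree is at least `q⁴ + q² + 1`
-/

set_option autoImplicit false
set_option linter.unusedSectionVars false

namespace Cfsg.Agent.G2Deg

open Cfsg.Lie Cfsg.Agent.ChevGrp
open Module (finrank)

variable {F : Type*} [Field F] [Fintype F] [DecidableEq F] {V : Type*} [AddCommGroup V] [Module ℂ V]
  [FiniteDimensional ℂ V] {ψ : AddChar F ℂ} (hψ : ψ ≠ 1) (ρ : Representation ℂ (Gam F) V) (h3 : (3 : F) = 0)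

theorem isoData : ([11, 10, 9, 8, 7, 6].map fun r => (ChevTw.isoG2.root r, ChevTw.isoG2.expo r)) =
    [(9, 1), (8, 1), (11, 3), (10, 3), (6, 3), (7, 1)] := by
  decide +kernel

/-- An automorphism exchanging long and short root groups. -/
structure Iso (α : Gam F ≃* Gam F) : Prop where
  a11 : ∀ t, α (X 11 t) = X 9 t
  a10 : ∀ t, α (X 10 t) = X 8 t
  a9 : ∀ t, α (X 9 t) = X 11 (t ^ 3)
  a8 : ∀ t, α (X 8 t) = X 10 (t ^ 3)
  a7 : ∀ t, α (X 7 t) = X 6 (t ^ 3)
  a6 : ∀ t, α (X 6 t) = X 7 t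

theorem exists_iso [CharP F 3] : ∃ α : Gam F ≃* Gam F, Iso α := by
  haveI : Fact (Nat.Prime 3) := ⟨Nat.prime_three⟩
  haveI : Finite F := Finite.of_fintype F
  obtain ⟨α, hα⟩ := ChevTw.exists_isogeny ChevTw.isoG2_ok
    (fun x => (bijective_frobenius F 3).2 x)
    (ChevTw.faithful_of_rules ChevTw.isoG2_ok (G2Inv.rules F) ⟨0, by decide, by decide +kernel⟩)
  have key : ∀ r < 12, ∀ t : F, α (X r t) = X (ChevTw.isoG2.root r) (t ^ ChevTw.isoG2.expo r) := fun r hr t =>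
    Subtype.ext (Units.ext ((hα (X r t) r t hr (val_xGL (G2Inv.rules F) r t)).trans
      (val_xGL (G2Inv.rules F) _ _).symm))
  have hd := isoData
  simp only [List.map_cons, List.map_nil, List.cons.injEq, Prod.mk.injEq, and_true] at hd
  obtain ⟨⟨a, a'⟩, ⟨b, b'⟩, ⟨c, c'⟩, ⟨d, d'⟩, ⟨e, e'⟩, ⟨f, f'⟩⟩ := hd
  refine ⟨α, ⟨fun t => ?_, fun t => ?_, fun t => ?_, fun t => ?_, fun t => ?_, fun t => ?_⟩⟩ <;>
    rw [key _ (by decide)]
  · rw [a, a', pow_one]
  · rw [b, b', pow_one]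
  · rw [c, c']
  · rw [d, d']
  · rw [e, e']
  · rw [f, f', pow_one]

theorem exists_psi (F : Type*) [Field F] [Fintype F] [CharP F 3] :
    ∃ ψ : AddChar F ℂ, ψ ≠ 1 ∧ ∀ x, ψ (x ^ 3) = ψ x := by
  haveI : Fact (Nat.Prime 3) := ⟨Nat.prime_three⟩
  haveI : Finite F := Finite.of_fintype F
  letI : Algebra (ZMod 3) F := ZMod.algebra F 3
  obtain ⟨ζ, hζ⟩ : ∃ ζ : ℂ, IsPrimitiveRoot ζ 3 := ⟨_, Complex.isPrimitiveRoot_exp 3 (by norm_num)⟩
  let χ : AddChar (ZMod 3) ℂ := AddChar.zmodChar 3 hζ.pow_eq_one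
  let ψ : AddChar F ℂ := χ.compAddMonoidHom (Algebra.trace (ZMod 3) F).toAddMonoidHom
  refine ⟨ψ, fun e => ?_, fun x => ?_⟩
  · obtain ⟨y, hy⟩ := Algebra.trace_surjective (ZMod 3) F (1 : ZMod 3)
    have h : χ (1 : ZMod 3) = 1 := by
      rw [← hy]
      exact DFunLike.congr_fun e y
    rw [AddChar.zmodChar_apply, show (1 : ZMod 3).val = 1 from rfl, pow_one] at h
    exact hζ.ne_one (by norm_num) h
  · show χ (Algebra.trace (ZMod 3) F (x ^ 3)) = χ (Algebra.trace (ZMod 3) F x)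
    congr 1
    have h := Algebra.trace_eq_of_algEquiv
      (AlgEquiv.ofBijective ({ frobenius F 3 with
        commutes' := fun c => by
          show (algebraMap (ZMod 3) F c) ^ 3 = _
          rw [← map_pow, ZMod.pow_card] } : F →ₐ[ZMod 3] F) (bijective_frobenius F 3)) x
    exact h

theorem Act.M_reindex {k : ℕ} {A B : Act F k V} (φ : (Fin k → F) ≃ (Fin k → F))
    (hR : ∀ a, A.R a = B.R (φ a)) {x y : Fin k → F} (h : ∀ a, ψ (dot y (φ a)) = ψ (dot x a)) :
    A.M ψ x = B.M ψ y := by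
  have e : A.E ψ x = B.E ψ y := by
    rw [Act.E, Act.E, ← Equiv.sum_comp φ fun a => ψ (-dot y a) • B.R a]
    congr 1
    refine Finset.sum_congr rfl fun a _ => ?_
    simp only [AddChar.map_neg_eq_inv, h, hR]
  rw [Act.M, Act.M, e]

variable {α : Gam F ≃* Gam F} (hα : Iso α) (hinv : ∀ x, ψ (x ^ 3) = ψ x)

/-- The representation twisted by the automorphism. -/
noncomputable abbrev twist (α : Gam F ≃* Gam F) : Representation ℂ (Gam F) V := ρ.comp α.toMonoidHom

include hα hinv in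
theorem MA_twist [CharP F 3] (z l s r : F) :
    MA (twist ρ α) h3 ψ z l s r = MA ρ h3 ψ (s ^ 3) (r ^ 3) z l := by
  haveI : Fact (Nat.Prime 3) := ⟨Nat.prime_three⟩
  let f : (Fin 4 → F) → (Fin 4 → F) := fun a => ![a 2 ^ 3, a 3 ^ 3, a 0, a 1]
  have hf : Function.Injective f := fun a b e => by
    funext j
    fin_cases j
    · exact congrFun e 2
    · exact congrFun e 3
    · exact frobenius_inj F 3 (congrFun e 0)
    · exact frobenius_inj F 3 (congrFun e 1)
  rw [MA, MA]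
  refine Act.M_reindex (A := A4 (twist ρ α) h3) (B := A4 ρ h3) (Equiv.ofBijective f (Finite.injective_iff_bijective.1 hf)) (fun a => ?_) fun a => ?_
  · rw [A4_apply, A4_apply]
    simp only [Equiv.ofBijective_apply, MonoidHom.comp_apply, MulEquiv.coe_toMonoidHom, f, Matrix.cons_val_zero,
      Matrix.cons_val_one, Matrix.cons_val]
    rw [map_mul α, map_mul α, map_mul α, hα.a11, hα.a10, hα.a9, hα.a8]
    congr 1
    have c1 : Commute (X 9 (a 0) * X 8 (a 1) : Gam F) (X 11 (a 2 ^ 3) * X 10 (a 3 ^ 3)) :=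
      ((commX (by decide) _ _ : Commute (X 9 _) (X 11 _)).mul_right
        (commX (by decide) _ _ : Commute (X 9 _) (X 10 _))).mul_left
        ((commX (by decide) _ _ : Commute (X 8 _) (X 11 _)).mul_right
          (commX (by decide) _ _ : Commute (X 8 _) (X 10 _)))
    rw [mul_assoc (X 9 (a 0) * X 8 (a 1)), c1.eq, mul_assoc (X 11 (a 2 ^ 3) * X 10 (a 3 ^ 3))]
  · show ψ (dot ![s ^ 3, r ^ 3, z, l] (f a)) = ψ (dot ![z, l, s, r] a)
    simp only [dot, f, Fin.sum_univ_four, Matrix.cons_val_zero, Matrix.cons_val_one, Matrix.cons_val]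
    rw [← mul_pow, ← mul_pow, AddChar.map_add_eq_mul, AddChar.map_add_eq_mul, AddChar.map_add_eq_mul,
      AddChar.map_add_eq_mul, AddChar.map_add_eq_mul, AddChar.map_add_eq_mul, hinv, hinv]
    ring

include hα hinv in
theorem twist_data [CharP F 3] : muA (twist ρ α) h3 ψ = muA ρ h3 ψ ∧ nuA (twist ρ α) h3 ψ = nuA' ρ h3 ψ ∧
    nuA' (twist ρ α) h3 ψ = nuA ρ h3 ψ ∧ MA (twist ρ α) h3 ψ 0 0 0 0 = MA ρ h3 ψ 0 0 0 0 := by
  simp [muA, nuA, nuA', MA_twist ρ h3 hα hinv]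

include hψ in
theorem fix_seven (hq : 3 ≤ Fintype.card F) {a : F} (h1 : M4 hψ ρ ![a, 0, 0, 0] = 1) (t : F) :
    ρ (X 7 t) * (R4 ρ ψ hψ).E ψ ![a, 0, 0, 0] = (R4 ρ ψ hψ).E ψ ![a, 0, 0, 0] := by
  set L := (R4 ρ ψ hψ).E ψ ![a, 0, 0, 0] with hLdef
  have hI : IsIdempotentElem L := (R4 ρ ψ hψ).isIdem ψ hψ _
  have hc : ∀ t, Commute (ρ (X 7 t)) L := fun t => conj_E ψ hψ (X 7 t)
    { toFun := p7 t
      invFun := p7 (-t)
      left_inv := fun a => by funext j; fin_cases j <;> simp [p7] <;> ring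
      right_inv := fun a => by funext j; fin_cases j <;> simp [p7] <;> ring }
    (conj7 ρ ψ hψ t) fun b => by simp [dot, p7, Fin.sum_univ_four]
  obtain ⟨f, hf⟩ : ∃ f : F → ℂ, ∀ t, f t = LinearMap.trace ℂ V (ρ (X 7 t) * L) := ⟨_, fun _ => rfl⟩
  have hs : ∀ t, ρ (X 7 t) * L = f t • L := fun t => by rw [hf]; exact rank_one_comm hI h1 (hc t)
  have hinj : ∀ x y : ℂ, x • L = y • L → x = y := fun x y e => by
    have h := congrArg (LinearMap.trace ℂ V) e
    rwa [map_smul, map_smul, trace_idem hI, show finrank ℂ (LinearMap.range L) = 1 from h1, Nat.cast_one,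
      smul_eq_mul, smul_eq_mul, mul_one, mul_one] at h
  have hadd : ∀ x y, f (x + y) = f x * f y := fun x y => hinj _ _ (by
    rw [← hs, ← X_add (by decide), map_mul, mul_assoc, hs, mul_smul_comm, hs, smul_smul, mul_comm])
  have hz : f 0 = 1 := hinj _ _ (by rw [← hs, X_zero (by decide), map_one, one_mul, one_smul])
  have hscale : ∀ (u : Fˣ) t, f ((u : F) * t) = f t := fun u t => by
    have hT : Commute (ρ (tor u 1)) L := by
      refine conj_E ψ hψ (tor u 1) (Equiv.piCongrRight fun i => Equiv.mulLeft₀ (wt4 u 1 i : F) (wt4 u 1 i).ne_zero)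
        (conj_R4 ρ ψ hψ (tor_conj11 u 1) _ (fun a b => by funext j; simp [mul_add]) fun i w => ?_) fun b => ?_
      · rw [tor_conjL, ← mul_one (X (L4 i) _), ← X_zero (F := F) (show 11 < 12 by decide),
          word_cons ρ ψ hψ i _ (word_nil ρ ψ hψ 0), add_zero]
        congr 1
        funext j
        rcases eq_or_ne j i with rfl | hne
        · simp
        · simp [hne]
      · simp [dot, Fin.sum_univ_four, wt4]
    rw [hf, hf, show X 7 ((u : F) * t) = tor u 1 * X 7 t * (tor u 1)⁻¹ by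
      rw [tor_conj u 1 (by decide), cofData.1]; simp, map_mul ρ, map_mul ρ]
    calc LinearMap.trace ℂ V (ρ (tor u 1) * ρ (X 7 t) * ρ (tor u 1)⁻¹ * L)
        = LinearMap.trace ℂ V (ρ (tor u 1) * (ρ (X 7 t) * ρ (tor u 1)⁻¹ * L)) := by simp only [mul_assoc]
      _ = LinearMap.trace ℂ V (ρ (X 7 t) * ρ (tor u 1)⁻¹ * (L * ρ (tor u 1))) := by
          rw [LinearMap.trace_mul_comm]; simp only [mul_assoc]
      _ = _ := by rw [← hT.eq, ← mul_assoc, mul_assoc _ (ρ (tor u 1)⁻¹), rho_cancel_inv, mul_one]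
  rw [hs]
  rcases eq_or_ne t 0 with rfl | ht
  · rw [hz, one_smul]
  obtain ⟨x, -, hx⟩ := Finset.exists_mem_notMem_of_card_lt_card (s := ({0, t} : Finset F)) (t := Finset.univ)
    (lt_of_le_of_lt Finset.card_le_two (by rw [Finset.card_univ]; omega))
  simp only [Finset.mem_insert, Finset.mem_singleton, not_or] at hx
  have e1 := hscale (Units.mk0 (x / t) (div_ne_zero hx.1 ht)) t
  have e2 := hscale (Units.mk0 ((t - x) / t) (div_ne_zero (sub_ne_zero.2 (Ne.symm hx.2)) ht)) t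
  rw [Units.val_mk0, div_mul_cancel₀ _ ht] at e1 e2
  have e3 := hadd x (t - x)
  rw [add_sub_cancel, e1, e2] at e3
  have hne : f t ≠ 0 := fun e => by
    have h := hadd t (-t)
    rw [add_neg_cancel, hz, e, zero_mul] at h
    exact one_ne_zero h
  rw [(mul_eq_left₀ hne).1 e3.symm, one_smul]

include hψ hα in
theorem twist_fixed (hq : 3 ≤ Fintype.card F) (hL : ∀ a : F, a ≠ 0 → M4 hψ ρ ![a, 0, 0, 0] = 1) :
    Fintype.card F - 1 ≤ M4 hψ (twist ρ α) 0 := by
  let L : F → Module.End ℂ V := fun a => (R4 ρ ψ hψ).E ψ ![a, 0, 0, 0]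
  set E' := (R4 (twist ρ α) ψ hψ).E ψ 0 with hE'
  have hfix : ∀ a ∈ Finset.univ.erase (0 : F), E' * L a = L a := fun a ha => by
    have h7 := fix_seven hψ ρ hq (hL a (Finset.ne_of_mem_erase ha))
    have h10 : ∀ t, ρ (X 10 t) * L a = L a := fun t => by
      refine (X_E4 hψ ρ ![a, 0, 0, 0] 3 t).trans ?_; simp [L]
    have h9 : ∀ t, ρ (X 9 t) * L a = L a := fun t => by
      refine (X_E4 hψ ρ ![a, 0, 0, 0] 2 t).trans ?_; simp [L]
    have h8 : ∀ t, ρ (X 8 t) * L a = L a := fun t => by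
      refine (X_E4 hψ ρ ![a, 0, 0, 0] 1 t).trans ?_; simp [L]
    have h11 : ∀ t, ρ (X 11 t) * L a = L a := fun t => X11_E4 hψ ρ _ t
    have hP : P0 (twist ρ α) ψ * L a = L a := by
      rw [P0_def, smul_mul_assoc, Finset.sum_mul, Finset.sum_congr rfl fun t _ => (show (twist ρ α) (X 11 t) * L a = L a by
        show ρ (α (X 11 t)) * L a = L a
        rw [hα.a11]; exact h9 t), Finset.sum_const, Finset.card_univ, ← Nat.cast_smul_eq_nsmul ℂ, smul_smul,
        show Fintype.card (Fin 1 → F) = Fintype.card F by simp,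
        inv_mul_cancel₀ (Nat.cast_ne_zero.2 Fintype.card_ne_zero), one_smul]
    rw [hE', Act.E, smul_mul_assoc, Finset.sum_mul, Finset.sum_congr rfl fun b _ =>
      show ψ (-dot 0 b) • (R4 (twist ρ α) ψ hψ).R b * L a = L a by
        show ψ (-dot 0 b) • (ρ (α (lift4 b)) * P0 (twist ρ α) ψ) * L a = L a
        rw [smul_mul_assoc, mul_assoc, hP, lift4, map_mul α, map_mul α, map_mul α, hα.a6, hα.a8, hα.a9, hα.a10,
          map_mul ρ, map_mul ρ, map_mul ρ, mul_assoc, mul_assoc, mul_assoc, h8, h11, h10, h7]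
        simp [dot, L],
      Finset.sum_const, Finset.card_univ, ← Nat.cast_smul_eq_nsmul ℂ, smul_smul,
      inv_mul_cancel₀ (Nat.cast_ne_zero.2 Fintype.card_ne_zero), one_smul]
  set S := ∑ a ∈ Finset.univ.erase (0 : F), L a with hS
  have hSI : IsIdempotentElem S := by
    rw [IsIdempotentElem, hS, Finset.sum_mul]
    refine Finset.sum_congr rfl fun a ha => ?_
    rw [Finset.mul_sum, Finset.sum_eq_single a]
    · exact (R4 ρ ψ hψ).isIdem ψ hψ _
    · intro b _ hb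
      show (R4 ρ ψ hψ).E ψ ![a, 0, 0, 0] * (R4 ρ ψ hψ).E ψ ![b, 0, 0, 0] = 0
      rw [(R4 ρ ψ hψ).E_mul_E ψ hψ, if_neg fun e => hb (congrFun e 0)]
    · exact fun h => (h ha).elim
  have hES : E' * S = S := by rw [hS, Finset.mul_sum]; exact Finset.sum_congr rfl hfix
  have h1 : finrank ℂ (LinearMap.range S) ≤ finrank ℂ (LinearMap.range E') := by
    refine Submodule.finrank_mono ?_
    rintro _ ⟨v, rfl⟩
    exact ⟨S v, LinearMap.congr_fun hES v⟩
  have h2 := trace_idem hSI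
  rw [hS, map_sum, Finset.sum_congr rfl fun a ha => (show LinearMap.trace ℂ V (L a) = 1 by
      rw [(R4 ρ ψ hψ).trace_E ψ hψ]; exact_mod_cast hL a (Finset.ne_of_mem_erase ha)),
    Finset.sum_const, Finset.card_erase_of_mem (Finset.mem_univ _), Finset.card_univ, nsmul_one] at h2
  have h2' := Nat.cast_inj.1 h2
  rw [← hS] at h2'
  rw [h2']
  exact h1

end Cfsg.Agent.G2Deg
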